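import Cfsg.Agent.CT.Gar2
import Cfsg.Agent.CT.Glauberman
import Cfsg.Agent.FT.CF.PF1
import Cfsg.Agent.FT.CF.Prod
import Cfsg.Agent.FT.Base.Chief
import Cfsg.Agent.Deg.PalfyA

/-! Groups with no divisibility among character degrees: general tools. -/

set_option autoImplicit false
set_option linter.unusedSectionVars false
set_option linter.style.haveILetI false

namespace Cfsg.FT.ND

open scoped Pointwise commutatorElement Classical
open Subgroup Gar

variable {G : Type*} [Group G] [Finite G] {A B C E H I K L M N P R S T V X Y Z : Subgroup G}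
  {χ ψ θ φ φ' β l μ η : G → ℂ} {p n m : ℕ} {g x y e : G}

/-- no divisibility among degrees -/
def NDAD (L : Subgroup G) : Prop := ∀ a b, Deg L a → Deg L b → a ≠ 1 → a ∣ b → a = b

theorem deg_irr (h : IsIrr L χ) : Deg L (charDegree χ) := ⟨χ, h, rfl⟩

theorem deg_pull {G' : Type*} [Group G'] [Finite G'] {L' : Subgroup G'} {f : G → G'}
    (h : MorphOnto L f L') (hn : Deg L' n) : Deg L n := by
  obtain ⟨χ, h1, rfl⟩ := hn
  exact ⟨_, h.isIrr h1, h.charDegree_cfPull χ⟩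

theorem NDAD.pull {G' : Type*} [Group G'] [Finite G'] {L' : Subgroup G'} {f : G → G'}
    (h : NDAD L) (hf : MorphOnto L f L') : NDAD L' :=
  fun a b ha hb => h a b (deg_pull hf ha) (deg_pull hf hb)

theorem NDAD.eq_one (h : NDAD L) (ha : Deg L n) (hb : Deg L (n * m)) (h1 : n ≠ 1) : m = 1 :=
  Nat.eq_of_mul_eq_mul_left ha.pos ((h _ _ ha hb h1 (dvd_mul_right _ _)).symm.trans (mul_one n).symm)

theorem deg_eq_of_one (h : IsIrr L χ) (h1 : χ 1 = (n : ℂ)) : charDegree χ = n := by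
  exact_mod_cast h.one_eq.symm.trans h1

/-- degree of a character over `θ` when `θ` extends to its inertia group with abelian factor -/
theorem deg_over (hH : H ⊴ L) (hθ : IsIrr H θ) (ha : ⁅L ⊓ inertia H θ, L ⊓ inertia H θ⁆ ≤ H)
    (he : ∃ ψ, IsIrr (L ⊓ inertia H θ) ψ ∧ Res H ψ = θ) (hχ : IsIrr L χ) (h : dot H χ θ ≠ 0) :
    charDegree χ = (L ⊓ inertia H θ).relIndex L * charDegree θ :=
  deg_eq_of_one hχ (by
    rw [((cfInd_ext_central_Inertia hH hθ ha he).1 χ hχ h).2, hθ.one_eq]; push_cast; rfl)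

/-- Gallagher + Clifford -/
theorem deg_ext (hH : H ⊴ L) (hθ : IsIrr H θ) (hψ : IsIrr (L ⊓ inertia H θ) ψ) (he : Res H ψ = θ)
    (hβ : IsIrr (L ⊓ inertia H θ) β) (hk : H ≤ cfker (L ⊓ inertia H θ) β) :
    Deg L ((L ⊓ inertia H θ).relIndex L * charDegree θ * charDegree β) := by
  have hI := hθ.isCF.normal_Inertia hH.1
  have h1 := gallagher_irr hI hψ.isChar (he ▸ hθ) hβ hk
  refine ⟨_, clifford_corr_irr hH hθ hI.1 inf_le_left le_rfl h1 ?_, ?_⟩
  · rw [← dot_Res_left, Res_ker_mul hk, he, dot_smul_left, hθ.dot_self, mul_one]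
    exact hβ.one_ne_zero
  · rw [h1.isChar.charDegree_Ind inf_le_left, Deg.charDegree_mul' hβ.isChar hψ.isChar, ← he,
      Gar.charDegree_Res]
    ring

theorem deg_ext1 (hH : H ⊴ L) (hθ : IsIrr H θ)
    (he : ∃ ψ, IsIrr (L ⊓ inertia H θ) ψ ∧ Res H ψ = θ) :
    Deg L ((L ⊓ inertia H θ).relIndex L * charDegree θ) := by
  obtain ⟨ψ, h1, h2⟩ := he
  simpa only [(isLin_cf1 _).charDegree_eq, mul_one] using deg_ext hH hθ h1 h2 (isIrr_cf1 _)
    ((hθ.isCF.sub_Inertia hH.1).trans (cfker_cf1 _).ge)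

/-- in an NDAD group, the inertia factor group of an extendible non-invariant or nonlinear
character is abelian -/
theorem NDAD.der_le (h : NDAD L) (hH : H ⊴ L) (hθ : IsIrr H θ)
    (he : ∃ ψ, IsIrr (L ⊓ inertia H θ) ψ ∧ Res H ψ = θ)
    (h1 : (L ⊓ inertia H θ).relIndex L * charDegree θ ≠ 1) :
    ⁅L ⊓ inertia H θ, L ⊓ inertia H θ⁆ ≤ H := by
  by_contra h2
  obtain ⟨_, ⟨β, h3, h4, rfl⟩, h5⟩ := exists_degK (hθ.isCF.normal_Inertia hH.1) h2
  obtain ⟨ψ, h6, h7⟩ := he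
  exact h5 (h.eq_one (deg_ext1 hH hθ ⟨ψ, h6, h7⟩) (deg_ext hH hθ h6 h7 h3 h4) h1)

theorem eq_of_pow (h : NDAD L) {a b : ℕ} (ha : Deg L (p ^ a)) (hb : Deg L (p ^ b)) (h1 : p ^ a ≠ 1)
    (h2 : p ^ b ≠ 1) : p ^ a = p ^ b :=
  (le_total a b).elim (fun e => h _ _ ha hb h1 (pow_dvd_pow p e))
    fun e => (h _ _ hb ha h2 (pow_dvd_pow p e)).symm

/-- a group with a nonabelian `p`-factor group -/
theorem caseA [hp : Fact p.Prime] (h : NDAD L) (hK : K ⊴ L) (hpK : PiNat {p} (K.relIndex L))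
    (hn : ¬ ⁅L, L⁆ ≤ K) : ∃ m, ∀ n, Deg L n → n = 1 ∨ n = m := by
  obtain ⟨_, ⟨β, h1, h2, rfl⟩, h3⟩ := exists_degK hK hn
  have h4 : PNil p L := pNil_of_dvd fun _ ⟨χ, h5, e⟩ h6 => e ▸ by_contra fun h7 => by
    have h8 := gallagher_irr hK h5.isChar (h5.Res_of_coprime hK
      ((piNat_compl_singleton.2 h7).coprime' hpK)) h1 h2
    exact h3 (h.eq_one (deg_irr h5) ⟨_, h8, by
      rw [Deg.charDegree_mul' h1.isChar h5.isChar, mul_comm]⟩ (e ▸ h6))
  obtain ⟨P, hP⟩ := Sylow_exists p L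
  have hs := h4.sdprod hP
  set M := core {p}ᶜ L with hM
  have hMp : ¬ p ∣ Nat.card M := p'core_not_dvd p L
  have hMK : M ≤ K := (pcore_pgroup _ L).le_of_relIndex hK.2 hs.left_le (by rwa [compl_compl])
  obtain ⟨γ, h5, h6⟩ := hs.morphOnto.exists_irr h1 (hs.ker_morphOnto.symm ▸ hMK.trans h2)
  have h7 : charDegree γ = charDegree β := by rw [← h6, hs.morphOnto.charDegree_cfPull]
  obtain ⟨a, ha⟩ := h5.exists_charDegree_eq_pow hP.pgroup
  have hab : IsMulCommutative M := abelian_iff_forall_isLin.2 fun θ hθ => by_contra fun h8 => by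
    have hI := hθ.isCF.normal_Inertia hs.left_le
    have hd := sdprod_modl' hs hI.1 inf_le_left
    have hc : (Nat.card M).Coprime (M.relIndex (L ⊓ inertia M θ)) :=
      index_sdprod hd ▸ (coprime_pgroup hP.pgroup.to_inf_left hMp).symm
    have he := extend_coprime hθ hI.1 inf_le_right hc
    have h9 : charDegree θ ≠ 1 := mt hθ.isLin_iff.2 h8
    have h10 := h.der_le hs.normal hθ he fun e => h9 (Nat.eq_one_of_mul_eq_one_left e)
    have h11 : IsMulCommutative ↥(P ⊓ (L ⊓ inertia M θ)) := derG1P.1 (le_bot_iff.1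
      (hs.inf_eq ▸ le_inf ((dergS inf_le_right).trans h10) ((der_sub _).trans inf_le_left)))
    have h12 := h5.charDegree_le_of_abelian inf_le_left h11
    have h13 : (L ⊓ inertia M θ).relIndex L = (P ⊓ (L ⊓ inertia M θ)).relIndex P := by
      rw [inf_relIndex_left P, ← (hs.mulEq.mono hI.1 inf_le_left le_rfl hs.right_le).relIndex_eq]
    obtain ⟨b, hb⟩ := exists_relIndex_pgroup hP.pgroup (P ⊓ (L ⊓ inertia M θ))
    have h14 := h _ _ (deg_irr h1) (deg_ext1 hs.normal hθ he) h3 (by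
      rw [h13, hb, ← h7, ha]
      rw [hb, ha] at h12
      exact (pow_dvd_pow p ((Nat.pow_le_pow_iff_right hp.out.one_lt).1 h12)).mul_right _)
    have h15 : charDegree θ ∣ p ^ a := ha ▸ h7 ▸ h14 ▸ dvd_mul_left _ _
    exact h9 (Nat.eq_one_of_dvd_coprimes (Nat.Coprime.pow_left a ((Nat.Prime.coprime_iff_not_dvd
      hp.out).2 fun e => hMp (e.trans hθ.charDegree_dvd_card))) h15 dvd_rfl)
  refine ⟨p ^ a, fun _ ⟨χ, h8, e⟩ => or_iff_not_imp_left.2 fun h9 => ?_⟩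
  obtain ⟨k, hk⟩ := exists_card_pgroup hP.pgroup
  obtain ⟨b, -, hb⟩ := (Nat.dvd_prime_pow hp.out).1
    (hk ▸ index_sdprod hs ▸ h8.charDegree_dvd_of_abelian hs.normal hab)
  rw [← e, hb] at h9 ⊢
  exact eq_of_pow h (hb ▸ deg_irr h8) (ha ▸ h7 ▸ deg_irr h1) h9 (ha ▸ h7 ▸ h3)

end Cfsg.FT.ND
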