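import Cfsg.Agent.NDAD.SB

/-! NDAD groups, type (b): the setting. -/

set_option autoImplicit false
set_option linter.unusedSectionVars false
set_option linter.style.haveILetI false

namespace Cfsg.FT.ND

open scoped Pointwise commutatorElement Classical
open Subgroup Gar

variable {G : Type*} [Group G] [Finite G] {A B C E H I K L M N P R S T V W X Y Z : Subgroup G}
  {χ ψ θ φ φ' β l μ η : G → ℂ} {p n m : ℕ} {a g s x y z e u : G}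

theorem exists_commHom (ha : ⁅V, ⟪x⟫⁆ ≤ 𝐂[V]) (hx : x ∈ 𝐍[V]) :
    ∃ f : V →* G, (∀ v : V, f v = ⁅x, (v : G)⁆) ∧ f.range = ⁅V, ⟪x⟫⁆ := by
  have hc : ∀ v ∈ V, x * v * x⁻¹ ∈ V := fun v => (memJ_norm hx).2
  have h0 : ∀ v ∈ V, ⁅x, v⁆ ∈ ⁅V, ⟪x⟫⁆ := fun v hv => by
    rw [commGC]
    exact mem_commg (mem_zpowers x) hv
  let f : V →* G := .mk' (fun v => ⁅x, (v : G)⁆) fun v w => by
    have h1 := ha (h0 _ w.2) _ (inv_mem v.2)
    simp only [commutatorElement_def, coe_mul] at h1 ⊢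
    calc _ = x * v * x⁻¹ * (x * w * x⁻¹ * (w : G)⁻¹ * (v : G)⁻¹) := by group
      _ = _ := by rw [← h1]; group
  refine ⟨f, fun _ => rfl, le_antisymm (by rintro _ ⟨v, rfl⟩; exact h0 _ v.2) ?_⟩
  rw [commGC, zpowers_eq_closure]
  refine commg_closure_le ?_ (by rintro _ rfl v hv; exact ⟨⟨v, hv⟩, rfl⟩)
  rw [← zpowers_eq_closure, zpowers_le]
  refine mem_norm_of_conj_le (conj_le_iff_forall.2 ?_)
  rintro _ ⟨v, rfl⟩
  exact ⟨⟨_, hc _ v.2⟩, by simp only [f, MonoidHom.mk'_apply, commutatorElement_def]; group⟩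

theorem exists_comm_eq' (ha : ⁅V, ⟪x⟫⁆ ≤ 𝐂[V]) (hx : x ∈ 𝐍[V]) (hu : u ∈ ⁅V, ⟪x⟫⁆) :
    ∃ v ∈ V, ⁅x, v⁆ = u := by
  obtain ⟨f, h1, h2⟩ := exists_commHom ha hx
  obtain ⟨v, rfl⟩ := h2.ge hu
  exact ⟨v, v.2, (h1 v).symm⟩

theorem commg_le_cent (ha : IsMulCommutative V) (hx : x ∈ 𝐍[V]) : ⁅V, ⟪x⟫⁆ ≤ 𝐂[V] :=
  (commg_subl.2 (zpowers_le.2 hx)).trans (abelian_iff.1 ha)

theorem exists_comm_eq (ha : IsMulCommutative V) (hx : x ∈ 𝐍[V]) (hu : u ∈ ⁅V, ⟪x⟫⁆) :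
    ∃ v ∈ V, ⁅x, v⁆ = u := exists_comm_eq' (commg_le_cent ha hx) hx hu

theorem card_commg (ha : IsMulCommutative V) (hx : x ∈ 𝐍[V]) :
    Nat.card ↥(V ⊓ 𝐂₁[x]) * Nat.card ↥⁅V, ⟪x⟫⁆ = Nat.card V := by
  obtain ⟨f, h1, h2⟩ := exists_commHom (commg_le_cent ha hx) hx
  have h3 : f.ker = (V ⊓ 𝐂₁[x]).subgroupOf V := by
    ext v
    rw [MonoidHom.mem_ker, h1, commutatorElement_eq_one_iff_mul_comm, mem_subgroupOf, mem_inf,
      mem_cent1, and_iff_right v.2, eq_comm]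
  rw [← h2, ← f.ker.card_mul_index, index_ker, h3,
    Nat.card_congr (subgroupOfEquivOfLe inf_le_left).toEquiv]

theorem cent_eq_bot_of_commg (ha : IsMulCommutative V) (hx : x ∈ 𝐍[V]) (h : V ≤ ⁅V, ⟪x⟫⁆) :
    V ⊓ 𝐂₁[x] = ⊥ := by
  have h1 := card_commg ha hx
  rw [le_antisymm (commg_subl.2 (zpowers_le.2 hx)) h] at h1
  exact card_eq_one.1 (Nat.eq_of_mul_eq_mul_right Nat.card_pos (h1.trans (one_mul _).symm))

theorem fpf_of_anti (hm : MulEq B A N) (hA : A ≤ 𝐂₁[x]) (hx : x ∈ 𝐍[B])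
    (h : ∀ u ∈ B, ∃ g ∈ N, x * u = g * x * g⁻¹) : B ⊓ 𝐂₁[x] = ⊥ := by
  let F : B → B := fun b => ⟨x⁻¹ * b * x * (b : G)⁻¹, mul_mem ((memJ_norm' hx).2 b.2) (inv_mem b.2)⟩
  have h1 : Function.Surjective F := fun u => by
    obtain ⟨g, h1, h2⟩ := h u u.2
    obtain ⟨b, h3, a, h4, rfl⟩ := hm.exists_mul h1
    refine ⟨⟨b, h3⟩, Subtype.ext ?_⟩
    calc x⁻¹ * b * x * b⁻¹ = x⁻¹ * (b * (x * a) * (b * a)⁻¹) := by group
      _ = _ := by rw [← mem_cent1.1 (hA h4), ← mul_assoc b, ← h2]; group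
  refine eq_bot_iff.2 fun b hb => congrArg Subtype.val
    (Finite.injective_iff_surjective.2 h1 (a₁ := ⟨b, hb.1⟩) (a₂ := 1) (Subtype.ext ?_))
  simp only [F, mul_assoc x⁻¹ b, mem_cent1.1 hb.2, coe_one]
  group

theorem comm_pow_of_central (h : ⁅z, a⁆ = s) (hs : s * z = z * s) (m : ℕ) :
    z ^ m * a = s ^ m * a * z ^ m := by
  have h1 : z * a = s * a * z := by rw [← h, commutatorElement_def]; group
  induction m with
  | zero => simp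
  | succ m ih => calc
      z ^ (m + 1) * a = z * (z ^ m * a) := by rw [pow_succ', mul_assoc]
      _ = z * s ^ m * a * z ^ m := by rw [ih]; group
      _ = s ^ m * (z * a) * z ^ m := by
        rw [← (Commute.pow_left (hs : Commute s z) m).eq, mul_assoc _ z a]
      _ = _ := by rw [h1, pow_succ, pow_succ' z]; group

/-- the structure of type (b) groups -/
structure TB (B H A S T : Subgroup G) : Prop where
  nd : NDAD (⊤ : Subgroup G)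
  sd : SDProd B H ⊤
  ab : IsMulCommutative A
  AH : A ⊴ H
  ne : ¬ H ≤ A
  cyc : IsCyclic (H ⁄ A)
  SA : S ≤ A
  S1 : S ≠ ⊥
  Tab : IsMulCommutative T
  ST : SDProd S T H
  reg : ∀ y ∈ H, y ∉ A → S ⊓ 𝐂₁[y] = ⊥
  fpf : ∀ a ∈ A, a ∉ T → B ⊓ 𝐂₁[a] = ⊥
  nA : ∀ θ, IsIrr B θ → θ ≠ cf1 B → ¬ H ⊓ inertia B θ ≤ A
  degf : Deg (⊤ : Subgroup G) (A.relIndex H)

theorem SB.exists_sdprod [hp : Fact p.Prime] (h : SB p K N) (hP : Syl p P N)
    (ha : IsMulCommutative P) : SDProd ⁅N, N⁆ (N ⊓ 𝐂[P]) N ∧ SDProd ⁅N, N⁆ 𝐍[P] ⊤ := by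
  have hs := h.pnil.sdprod hP
  have hM := p'core_not_dvd p N
  have hB : ⁅N, N⁆ ⊴ ⊤ := h.Nn.der
  have hPA : P ≤ N ⊓ 𝐂[P] := le_inf hP.le (abelian_iff.1 ha)
  have h1 : MulEq ⁅N, N⁆ (N ⊓ 𝐂[P]) N := mulEq_of_sup (le_top.trans hB.2) (le_antisymm
    (sup_le (der_sub N) inf_le_left) (hs.sup_eq.ge.trans (sup_le ((coprime_cent_prod hs.norm
      (coprime_pgroup hP.pgroup hM).symm (.inr (pgroup_sol hP.pgroup))).ge.trans (sup_le_sup
        (commgSS hs.left_le hP.le) (inf_le_inf_right _ hs.left_le))) (hPA.trans le_sup_right))))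
  obtain ⟨x, h2, h3⟩ := SetLike.not_le_iff_exists.1 fun e : P ≤ K =>
    hP.index (h.dvd_index.trans (indexgS N e))
  have h4 : ⁅N, N⁆ ⊓ 𝐂[P] = ⊥ := eq_bot_iff.2 ((inf_le_inf_left _ (cent_le_cent1 h2)).trans
    (fpf_of_anti h1 (inf_le_right.trans (cent_le_cent1 h2)) (hB.2 trivial) fun u hu =>
      h.anti' h.Kn h.der h.frob (hP.le h2) h3 hu).le)
  refine ⟨sdprod_of_mulEq h1 (le_top.trans hB.2) (eq_bot_iff.2
    ((inf_le_inf_left _ inf_le_right).trans h4.le)), sdprod_of_normal hB (top_le_iff.1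
      ((Frattini_arg h.Nn hP).sup_eq.ge.trans (sup_le (h1.sup_eq.ge.trans (sup_le_sup_left
        (inf_le_right.trans (cent_sub P)) _)) (inf_le_right.trans le_sup_right)))) ?_⟩
  rw [coprime_norm_cent (le_top.trans hB.2) (coprime_pgroup hP.pgroup fun e =>
    hM (e.trans (card_dvd_of_le (hs.der_le ha)))).symm, h4]

/-- auxiliary setting -/
structure Pre (p : ℕ) (K N B H A : Subgroup G) : Prop extends SB p K N where
  hB : B = ⁅N, N⁆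
  hs : SDProd B A N
  hs' : SDProd B H ⊤
  le : A ≤ H

namespace Pre

theorem Bn (h : Pre p K N B H A) (X : Subgroup G) : X ≤ 𝐍[B] := le_top.trans h.hs'.normal.2

theorem eq (h : Pre p K N B H A) : A = H ⊓ N :=
  h.hs.eq_of_le_right (sdprod_modl' h.hs' h.hs.left_le le_top) (le_inf h.le h.hs.right_le)

theorem nN (h : Pre p K N B H A) (h1 : y ∈ H) (h2 : y ∉ A) : y ∉ N := fun h3 => h2 (h.eq.ge ⟨h1, h3⟩)

theorem ab (h : Pre p K N B H A) : IsMulCommutative A := derG1P.1 (eq_bot_iff.2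
  (h.hs.inf_eq.le.trans' (le_inf ((dergS h.hs.right_le).trans h.hB.ge) (der_sub A))))

theorem AH (h : Pre p K N B H A) : A ⊴ H := by
  rw [h.eq]; exact normalGI le_top h.Nn

theorem cy (h : Pre p K N B H A) : IsCyclic (H ⁄ A) := by
  obtain ⟨e⟩ := second_isog (le_top.trans h.Nn.2 : H ≤ _)
  rw [h.eq, inf_comm]
  exact e.isCyclic.2 (cyclicS (quotientS N le_top) h.cyc)

theorem idx (h : Pre p K N B H A) : A.relIndex H = N.relIndex ⊤ := by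
  rw [h.eq, inf_relIndex_left, (h.hs'.mulEq.mono h.hs.left_le le_top le_rfl le_top).relIndex_eq]

theorem nle (h : Pre p K N B H A) : ¬ H ≤ A := fun e => h.f_ne (h.idx ▸ relIndex_eq_one.2 e)

theorem SA (h : Pre p K N B H A) : ⁅A, H⁆ ≤ A := h.AH.commg_le le_rfl

theorem mod (h : Pre p K N B H A) (hX : X ≤ A) : (B ⊔ X) ⊓ A = X := by
  rw [group_modr (h.Bn X) hX, h.hs.inf_eq, bot_sup_eq]

theorem commg (h : Pre p K N B H A) (h1 : z ∈ H) (h2 : z ∉ A) : ⁅A, ⟪z⟫⁆ = ⁅A, H⁆ := by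
  have h3 := commgS A (zpowers_le.2 h1)
  have h4 : ⁅N, ⟪z⟫⁆ ≤ B ⊔ ⁅A, ⟪z⟫⁆ := by
    rw [← h.hs.sup_eq]
    exact commg_sup_le (normsG le_sup_left) (normsY (h.Bn A) (commg_norml _ _))
      ((h.hs'.normal.commg_le le_top).trans le_sup_left) le_sup_right
  exact le_antisymm h3 ((le_inf (((commgSS h.hs.right_le le_top).trans (h.commg_le (h.nN h1 h2))).trans
    (sup_le (h.hB.ge.trans le_sup_left) h4)) h.SA).trans (h.mod (h3.trans h.SA)).le)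

theorem gen (h : Pre p K N B H A) : ∃ y ∈ H, y ∉ A ∧ H = A ⊔ ⟪y⟫ := by
  obtain ⟨y, hy, hH⟩ := exists_join_cycle_of_cyclic_quo h.AH h.cy
  exact ⟨y, hy, fun e => h.nle (hH.le.trans (sup_le le_rfl (zpowers_le.2 e))), hH⟩

theorem cent (h : Pre p K N B H A) (h2 : z ∈ H) (h3 : z ∉ A) : A ⊓ 𝐂₁[z] ≤ 𝐂[H] := by
  obtain ⟨y, hy, hyA, hH⟩ := h.gen
  have h4 : A ⊓ 𝐂[H] = A ⊓ 𝐂₁[y] := le_antisymm (inf_le_inf_left _ (cent_le_cent1 hy))
    (le_inf inf_le_left ((centsY (inf_le_left.trans (abelian_iff.1 h.ab))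
      (inf_le_right.trans (cent_cycle y).ge)).trans (centS hH.le)))
  have h5 := card_commg h.ab (h.AH.2 h2)
  rw [h.commg h2 h3, ← card_commg h.ab (h.AH.2 hy), h.commg hy hyA, ← h4] at h5
  exact (card_eq_of_le (inf_le_inf_left _ (cent_le_cent1 h2))
    (Nat.eq_of_mul_eq_mul_right Nat.card_pos h5).le).ge.trans inf_le_right

theorem TI (h : Pre p K N B H A) : ⁅A, H⁆ ⊓ 𝐂[H] = ⊥ := by
  by_contra h3
  obtain ⟨r, hr, h4⟩ := exists_prime_dvd_card h3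
  obtain ⟨s, h5, h0⟩ := Cauchy hr h4
  have := Fact.mk hr
  have h6 : PiNat {r} (A.relIndex H) := fun q hq h6 => by
    obtain ⟨z, h7, h8⟩ := Cauchy hq (card_quotient h.AH.2 ▸ h6)
    obtain ⟨z, h9, h10, rfl⟩ := mem_quo.1 h7
    obtain ⟨a, h11, h12⟩ := exists_comm_eq h.ab h10 ((h.commg h9 fun e => hq.one_lt.ne'
      (by rw [← h8, coset_id e, orderOf_one])).ge h5.1)
    have h13 := comm_pow_of_central h12 (h5.2 z h9).symm q
    rw [comm_of_abelian h.ab (coset_idr ((𝐍[A]).pow_mem h10 q) (by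
      rw [coset_pow h10, ← h8, pow_orderOf_eq_one])) h11, mul_left_inj, right_eq_mul] at h13
    exact ((Nat.prime_dvd_prime_iff_eq hr hq).1 (h0 ▸ orderOf_dvd_of_pow_eq_one h13)).symm
  have h7 := nilpotent_pcore_Hall {r}ᶜ (abelian_nil h.ab)
  have h8 : B ⊔ core {r}ᶜ A ≤ N := sup_le h.hs.left_le (h7.le.trans h.hs.right_le)
  have h9 := h.noA _ (B ⊔ core {r}ᶜ A) hr ⟨le_top, h.hs'.sup_eq.ge.trans (sup_le
    (normsG le_sup_left) (normsY (h.Bn H) (h.AH.core _).2))⟩ (by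
    rw [← relIndex_mul_relIndex _ N ⊤ h8 le_top, ← h.idx,
      (h.hs.mulEq.mono le_sup_left h8 le_rfl h.hs.right_le).relIndex_eq]
    have h9 := h7.index
    rw [compl_compl] at h9
    exact (h9.of_dvd (indexgS A le_sup_right)).mul h6)
  exact piElt_compl.1 (h7.pi.piElt ((h.mod h7.le).le ⟨h9 (commgSS le_top le_top h5.1),
    h.SA h5.1⟩)) h0.symm.dvd

theorem reg (h : Pre p K N B H A) (h4 : z ∈ H) (h5 : z ∉ A) : ⁅A, H⁆ ⊓ 𝐂₁[z] = ⊥ :=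
  eq_bot_iff.2 (h.TI.le.trans' (le_inf inf_le_left ((inf_le_inf_right _ h.SA).trans (h.cent h4 h5))))

theorem frob' (h : Pre p K N B H A) (hx : x ∉ N) (hn : u ∈ N) (h6 : ⁅x, u⁆ ∈ B ⊔ A ⊓ 𝐂[H]) :
    u ∈ B ⊔ A ⊓ 𝐂[H] := by
  obtain ⟨b, h7, z, h8, rfl⟩ := h.hs'.exists_mul (mem_top x)
  obtain ⟨c, h9, a, h10, rfl⟩ := h.hs.exists_mul hn
  have h11 : z ∉ A := fun e => hx (mul_mem (h.hs.left_le h7) (h.hs.right_le e))
  have h12 : ⁅z, a⁆ ∈ ⁅A, H⁆ := by rw [commGC]; exact mem_commg h8 h10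
  have hB : ∀ g, g ∈ 𝐍[B] := fun g => h.Bn ⊤ trivial
  rw [← coset_mem_quo_iff (hB _) le_sup_left, coset_commg (hB _) (hB _), coset_kerl h7,
    coset_kerl h9, ← coset_commg (hB _) (hB _), coset_mem_quo_iff (hB _) le_sup_left] at h6
  have h13 := mem_bot.1 (h.TI.le ⟨h12, ((h.mod inf_le_left).le ⟨h6, h.SA h12⟩).2⟩)
  exact mul_mem_sup h9 ⟨h10, h.cent h8 h11 ⟨h10,
    mem_cent1.2 (commutatorElement_eq_one_iff_mul_comm.1 h13).symm⟩⟩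

theorem fpf (h : Pre p K N B H A) (h7 : a ∈ A) (h8 : a ∉ 𝐂[H]) : B ⊓ 𝐂₁[a] = ⊥ :=
  fpf_of_anti h.hs.mulEq (le_cent1.2 (abelian_iff.1 h.ab h7)) (h.Bn ⊤ trivial) fun _ hu =>
    h.anti' ⟨le_top, h.hs'.sup_eq.ge.trans (sup_le (normsG le_sup_left) (normsY (h.Bn H)
      (cents_norm (centsC.1 inf_le_right))))⟩ (h.hB.ge.trans le_sup_left) (fun _ h1 _ => h.frob' h1)
      (h.hs.right_le h7) (fun e => h8 ((h.mod inf_le_left).le ⟨e, h7⟩).2) (h.hB.le hu)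

theorem nA (h : Pre p K N B H A) (hθ : IsIrr B θ) (h7 : θ ≠ cf1 B) : ¬ H ⊓ inertia B θ ≤ A := by
  intro h8
  have hB : ∀ g, g ∈ 𝐍[B] := fun g => h.Bn ⊤ trivial
  obtain ⟨ψ, hψ, h9⟩ := hθ.exists_over h.hs.left_le
  obtain ⟨g, h10, h11⟩ := SetLike.not_le_iff_exists.1 (h.nl hψ fun e => h7
    (hθ.le_cfker_self.1 ((le_inf le_rfl (h.hB.le.trans (hψ.isLin_iff.2 e).der_le_cfker)).trans
      (IsIrr.cfker_le_of_under hψ.isChar h.hs.left_le hθ h9))))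
  obtain ⟨n, h12, h13⟩ := mem_cfclass.1 (clifford_mem_cfclass h.hs.normal hψ hθ
    (hθ.cfConj_norm (hB g)) h9 (by rwa [← inertiaJ h10, dot_cfConj_norm (hB g)]))
  have h14 := (cfConj_eq_cfConj_iff (hB _) (hB _)).1 h13
  obtain ⟨b, h15, z, h16, h17⟩ := h.hs'.exists_mul (mem_top (g⁻¹ * n))
  have h18 : z ∈ A := h8 ⟨h16, (mul_mem_cancel_left (hθ.isCF.sub_inertia h15)).1 (h17 ▸ h14)⟩
  exact h11 (inv_mem_iff.1 ((mul_mem_cancel_right h12).1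
    (h17 ▸ mul_mem (h.hs.left_le h15) (h.hs.right_le h18))))

theorem exists_TB (h : Pre p K N B H A) : ∃ S T, TB B H A S T := by
  obtain ⟨y, hy, hyA, hH⟩ := h.gen
  have h4 : SDProd ⁅A, H⁆ (A ⊓ 𝐂₁[y]) A := sdprod_of_card (inf_le_left.trans (commg_norml _ _))
    (eq_bot_iff.2 ((inf_le_inf_left _ inf_le_right).trans (h.reg hy hyA).le)) h.SA inf_le_left
    (by rw [← card_commg h.ab (h.AH.2 hy), h.commg hy hyA, mul_comm])
  have h5 : H ⊓ 𝐂₁[y] = (A ⊓ 𝐂₁[y]) ⊔ ⟪y⟫ := by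
    rw [← group_modr (zpowers_le.2 (h.AH.2 hy)) (zpowers_le.2 (cent1id y)), ← hH]
  refine ⟨⁅A, H⁆, H ⊓ 𝐂₁[y], h.nd, h.hs', h.ab, h.AH, h.nle, h.cy, h.SA, fun e => ?_, ?_,
    sdprod_of_normal (normalR h.AH (normal_refl H)) ?_ (eq_bot_iff.2 ((inf_le_inf_left _
      inf_le_right).trans (h.reg hy hyA).le)), fun _ => h.reg, fun a h7 h8 => h.fpf h7 fun e =>
        h8 ⟨h.le h7, cent_le_cent1 hy e⟩, fun _ => h.nA, h.idx ▸ h.degf⟩
  · refine h.lt.not_ge ((h.le_sup (h.nN hy hyA)).trans (sup_le le_rfl ?_))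
    rw [← h.hs.sup_eq]
    exact commg_sup_le (le_top.trans h.Kn.2) (le_top.trans h.Kn.2)
      ((h.hs'.normal.commg_le le_top).trans (h.hB.le.trans h.der))
      (((h.commg hy hyA).trans e).le.trans bot_le)
  · rw [h5]
    exact abelianY.2 ⟨abelianS inf_le_left h.ab, cycle_abelian y,
      centsC.1 (inf_le_right.trans (cent_cycle y).ge)⟩
  · rw [h5, ← sup_assoc, h4.sup_eq, ← hH]

end Pre

theorem SB.exists_TB [hp : Fact p.Prime] (h : SB p K N) (hP : Syl p P N) (ha : IsMulCommutative P) :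
    ∃ H A S T, TB ⁅N, N⁆ H A S T ∧ A.relIndex H = N.relIndex ⊤ := by
  have h1 : Pre p K N ⁅N, N⁆ 𝐍[P] (N ⊓ 𝐂[P]) := ⟨h, rfl, (h.exists_sdprod hP ha).1,
    (h.exists_sdprod hP ha).2, inf_le_right.trans (cent_sub P)⟩
  obtain ⟨S, T, h2⟩ := h1.exists_TB
  exact ⟨_, _, S, T, h2, h1.idx⟩

end Cfsg.FT.ND
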