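import Cfsg.Agent.NDAD.B1
import Cfsg.Agent.FT.P.BG3a

/-! NDAD groups, type (b): stabilisers of characters of `B`. -/

set_option autoImplicit false
set_option linter.unusedSectionVars false
set_option linter.style.haveILetI false

namespace Cfsg.FT.ND

open scoped Pointwise commutatorElement Classical
open Subgroup Gar

variable {G : Type*} [Group G] [Finite G] {A B C E H I K L M N P R S T V W X Y Z : Subgroup G}
  {χ ψ θ φ φ' β l μ ν η : G → ℂ} {p n m : ℕ} {a g s w x y z e u : G}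

theorem card_mul_idx (h : K ≤ H) : Nat.card K * K.relIndex H = Nat.card H :=
  card_mul_relIndex_of_le h

namespace TB

theorem Bn (h : TB B H A S T) (X : Subgroup G) : X ≤ 𝐍[B] := le_top.trans h.sd.normal.2
theorem Bn' (h : TB B H A S T) (x : G) : x ∈ 𝐍[B] := h.Bn ⊤ trivial
theorem TH (h : TB B H A S T) : T ≤ H := h.ST.right_le
theorem SH (h : TB B H A S T) : S ≤ H := h.ST.left_le

theorem normal (h : TB B H A S T) (h1 : B ≤ 𝐍[X]) (h2 : H ≤ 𝐍[X]) : X ⊴ ⊤ :=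
  ⟨le_top, h.sd.sup_eq.ge.trans (sup_le h1 h2)⟩

theorem cent (h : TB B H A S T) : A ⊓ T ≤ 𝐂[H] := by
  rw [← h.ST.sup_eq]
  exact centsY (sub_abelian_cent2 h.ab inf_le_left h.SA) (inf_le_right.trans (abelian_iff.1 h.Tab))

theorem semi (h : TB B H A S T) : Semiregular B S := fun s h1 h2 =>
  h.fpf s (h.SA h1) fun e => h2 (mem_bot.1 (h.ST.inf_eq.le ⟨h1, e⟩))

theorem nil (h : TB B H A S T) : Group.IsNilpotent B := h.semi.nil (h.Bn S) h.S1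

theorem f_ne (h : TB B H A S T) : A.relIndex H ≠ 1 := mt relIndex_eq_one.1 h.ne

theorem degH (h : TB B H A S T) (hn : Deg H n) : n = 1 ∨ n = A.relIndex H :=
  or_iff_not_imp_left.2 fun e => h.nd _ _ (deg_pull h.sd.morphOnto hn) h.degf e
    (let ⟨_, h1, h2⟩ := hn; h2 ▸ h1.charDegree_dvd_of_abelian h.AH h.ab)

theorem inf_le (h : TB B H A S T) (hZ : Z ≤ B) (hμ : IsIrr Z μ) (h1 : μ ≠ cf1 Z) :
    H ⊓ inertia Z μ ⊓ A ≤ T := fun a ha => by_contra fun e => h1 (eq_cf1_of_cent1 ha.1.2 hμ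
  (eq_bot_iff.2 ((inf_le_inf_right _ hZ).trans (h.fpf a ha.2 e).le)))

theorem abel (h : TB B H A S T) (hE : E ≤ H) (h1 : E ⊓ A ≤ T) : IsMulCommutative E :=
  have h2 := (dergS hE).trans (h.ST.der_le h.Tab)
  derG1P.1 (eq_bot_iff.2 (h.ST.inf_eq.le.trans' (le_inf h2
    ((le_inf (der_sub E) (h2.trans h.SA)).trans h1))))

theorem abel' (h : TB B H A S T) (hZ : Z ≤ B) (hμ : IsIrr Z μ) (h1 : μ ≠ cf1 Z) :
    IsMulCommutative ↥(H ⊓ inertia Z μ) := h.abel inf_le_left (h.inf_le hZ hμ h1)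

theorem conjT (h : TB B H A S T) (hE : E ≤ H) (h1 : E ⊓ A ≤ T) : ∃ s ∈ S, s •ᶜ E ≤ T := by
  by_cases h2 : E ≤ A
  · exact ⟨1, one_mem S, (one_conj E).le.trans ((le_inf le_rfl h2).trans h1)⟩
  obtain ⟨y, h3, h4⟩ := SetLike.not_le_iff_exists.1 h2
  obtain ⟨s, h5, t, h6, rfl⟩ := h.ST.exists_mul (hE h3)
  have h7 := h.reg t (h.TH h6) fun e => h4 (mul_mem (h.SA h5) e)
  obtain ⟨n, h8, h9⟩ := exists_conj_eq_mul_of_fixedPointFree (h.ST.norm h6)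
    (fun n hn e => mem_bot.1 (h7.le ⟨hn, mem_cent1.2 e.symm⟩)) h5
  have h10 : n⁻¹ •ᶜ E ≤ H := conj_le_of_mem (inv_mem (h.SH h8)) hE
  have h11 : n⁻¹ •ᶜ E ≤ 𝐂₁[t] := by
    rw [← conj_le_conj (g := n), conj_inv_conj, ← cent1_conj, h9]
    exact le_cent1.2 (abelian_iff.1 (h.abel hE h1) h3)
  refine ⟨n⁻¹, inv_mem h8, fun x hx => ?_⟩
  obtain ⟨s', h12, t', h13, rfl⟩ := h.ST.exists_mul (h10 hx)
  rw [mem_bot.1 (h7.le ⟨h12, (mul_mem_cancel_right (le_cent1.2 (abelian_iff.1 h.Tab h6) h13)).1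
    (h11 hx)⟩), one_mul]
  exact h13

theorem ti (h : TB B H A S T) (hz : z ∈ H) (hz' : z ∉ A) (hw : w ∈ H) (hw' : w ∉ A) (hs : s ∈ S)
    (h1 : w ∈ 𝐂₁[z]) (h2 : s * w * s⁻¹ ∈ 𝐂₁[z]) : s = 1 := by
  have h3 : s * w * s⁻¹ * w⁻¹ = 1 := mem_bot.1 ((h.reg z hz hz').le ⟨by
    rw [mul_assoc, mul_assoc, ← mul_assoc w]
    exact mul_mem hs (h.ST.normal.conj_mem hw (inv_mem hs)), (𝐂₁[z]).mul_mem h2 (inv_mem h1)⟩)
  exact mem_bot.1 ((h.reg w hw hw').le ⟨hs, mem_cent1.2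
    (commutatorElement_eq_one_iff_mul_comm.1 h3)⟩)

theorem idx (h : TB B H A S T) (hθ : IsIrr B θ) :
    (⊤ ⊓ inertia B θ).relIndex ⊤ = (H ⊓ inertia B θ).relIndex H := by
  rw [(h.sd.mulEq.mono (hθ.isCF.sub_Inertia le_top) le_top le_rfl le_top).relIndex_eq,
    inf_relIndex_left, top_inf_eq]

theorem idx_ne (h : TB B H A S T) (hθ : IsIrr B θ) (h1 : θ ≠ cf1 B) :
    (H ⊓ inertia B θ).relIndex H ≠ 1 := fun e => h.S1 (eq_bot_iff.2 (h.ST.inf_eq.le.trans'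
  (le_inf le_rfl ((le_inf (h.SH.trans (relIndex_eq_one.1 e)) h.SA).trans (h.inf_le le_rfl hθ h1)))))

theorem deg_lin (h : TB B H A S T) (hν : IsLin B ν) (h1 : ν ≠ cf1 B) (hχ : IsIrr ⊤ χ)
    (h0 : dot B χ ν ≠ 0) : charDegree χ = (H ⊓ inertia B ν).relIndex H := by
  have hs := sdprod_modl h.sd hν.isCF.sub_inertia
  obtain ⟨ψ, h2, h3, -⟩ := extend_lin_sdprod hν hs inf_le_right
  rw [deg_over h.sd.normal hν.isIrr (hs.der_le (h.abel' le_rfl hν.isIrr h1)) ⟨ψ, h2.isIrr, h3⟩ hχ h0,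
    h.idx hν.isIrr, hν.charDegree_eq, mul_one]

end TB

/-- nontrivial linear characters of `B / Z` -/
def LL (B Z : Subgroup G) (ν : G → ℂ) : Prop := IsLin B ν ∧ Z ≤ cfker B ν ∧ ν ≠ cf1 B

/-- type (b) with a chief factor `B / Z` -/
structure TC (B H A S T Z : Subgroup G) : Prop extends TB B H A S T where
  ch : ChiefIn ⊤ Z B

namespace TC

theorem Zn (h : TC B H A S T Z) (X : Subgroup G) : X ≤ 𝐍[Z] := le_top.trans h.ch.normal'.2
theorem Zn' (h : TC B H A S T Z) (x : G) : x ∈ 𝐍[Z] := h.Zn ⊤ trivial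
theorem der (h : TC B H A S T Z) : ⁅B, B⁆ ≤ Z := h.ch.commg_le_of_nil h.sd.normal h.nil

theorem mem_cs (h : TC B H A S T Z) : a ∈ centSec B Z ↔ ⁅B, ⟪a⟫⁆ ≤ Z := by
  rw [← zpowers_le, sub_astabQR (h.Zn _) (h.Zn _), commGC]

theorem eq_or (h : TC B H A S T Z) (h1 : Z ≤ X) (h2 : X ≤ B) (h3 : H ≤ 𝐍[X]) : X = Z ∨ X = B :=
  h.ch.eq_or h1 h2 (h.normal (sub_der1_norm (h.der.trans h1) h2) h3).2

theorem sup_eq (h : TC B H A S T Z) (ha : a ∈ A ⊓ T) (h1 : a ∉ centSec B Z) : Z ⊔ ⁅B, ⟪a⟫⁆ = B :=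
  (h.eq_or le_sup_left (sup_le h.ch.le (commg_subl.2 (h.Bn _))) (normsY (h.Zn H) (normsR (h.Bn H)
    (norms_cycle (le_cent1.2 (h.cent ha)))))).resolve_left fun e =>
      h1 (h.mem_cs.2 (le_sup_right.trans e.le))

theorem le_inertia (h : TC B H A S T Z) (hν : LL B Z ν) : centSec B Z ≤ inertia B ν := fun _ ha =>
  (mem_inertia_lin hν.1 (h.Bn' _)).2 ((h.mem_cs.1 ha).trans hν.2.1)

theorem inf_le' (h : TC B H A S T Z) (hν : LL B Z ν) : H ⊓ inertia B ν ⊓ A ≤ T ⊓ centSec B Z :=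
  fun a ha => have h1 := h.inf_le le_rfl hν.1.isIrr hν.2.2 ha
  ⟨h1, by_contra fun e => hν.2.2 (hν.1.isIrr.le_cfker_self.1 ((h.sup_eq ⟨ha.2, h1⟩ e).ge.trans
    (sup_le hν.2.1 ((mem_inertia_lin hν.1 (h.Bn' _)).1 ha.1.2))))⟩

theorem exists_LL (h : TC B H A S T Z) (h1 : Z ≤ X) (h2 : X ≤ B) (h3 : ¬ B ≤ X) :
    ∃ ν, LL B Z ν ∧ X ≤ cfker B ν :=
  have ⟨ν, h4, h5, h6⟩ := exists_lin_le_cfker_ne (h.der.trans h1) (lt_of_le_not_ge h2 h3)
  ⟨ν, ⟨h4, h1.trans h5, h6⟩, h5⟩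

theorem not_le (h : TC B H A S T Z) : ¬ ⁅B, S⁆ ≤ Z := by
  rw [h.semi.commg_eq (h.Bn S) le_rfl h.S1]; exact h.ch.lt.not_ge

/-- a subgroup acting like a Frobenius complement has a fixed point -/
theorem fix (h : TC B H A S T Z) (hE : E ≤ H) (h1 : E ⊓ A ≤ T ⊓ centSec B Z) :
    ∃ ν, LL B Z ν ∧ E ≤ inertia B ν := by
  obtain ⟨e, h2, h3⟩ := exists_join_cycle_of_cyclic_quo (normalGI hE h.AH) (by
    obtain ⟨e⟩ := second_isog (hE.trans h.AH.2)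
    rw [inf_comm]
    exact e.isCyclic.2 (cyclicS (quotientS A hE) h.cyc))
  have h4 : A ⊓ T ⊓ centSec B Z ≤ H := inf_le_left.trans (inf_le_left.trans h.AH.1)
  have hW : Z ⊔ A ⊓ T ⊓ centSec B Z ⊴ ⊤ := h.normal (commg_subl.1 (commg_sup_le
    (normsG le_sup_left) (normsG le_sup_right) ((h.ch.normal'.commg_le le_top).trans le_sup_left)
    (((sub_astabQR (h.Zn _) (h.Zn _)).1 inf_le_right).trans le_sup_left)))
    (normsY (h.Zn H) (cents_norm (centsC.1 (inf_le_left.trans h.cent))))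
  set W := Z ⊔ A ⊓ T ⊓ centSec B Z
  have hn : ∀ X : Subgroup G, X ≤ 𝐍[W] := fun X => le_top.trans hW.2
  have h5 : W ⊓ B = Z := by
    rw [group_modl (h.Zn _) h.ch.le, eq_bot_iff.2 ((inf_le_inf_right B h4).trans h.sd.inf_eq'.le),
      sup_bot_eq]
  have hV : IsMulCommutative (B ⁄ W) := sub_der1_abelian (h.der.trans le_sup_left)
  have hr : Semiregular (S ⁄ W) (E ⁄ W) := fun x h7 h8 => by
    obtain ⟨x, h9, h10, rfl⟩ := mem_quo.1 h7
    exact fpf_quo (h.ST.normal.2 (hE h9)) h10 (h.reg x (hE h9) fun e => h8 (coset_id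
      (le_sup_right (a := Z) ⟨⟨e, (h1 ⟨h9, e⟩).1⟩, (h1 ⟨h9, e⟩).2⟩)))
  obtain ⟨ν, h6, h7⟩ := h.exists_LL (X := Z ⊔ ⁅B, ⟪e⟫⁆) le_sup_left
    (sup_le h.ch.le (commg_subl.2 (h.Bn _))) fun h6 => h.not_le (commGC S B ▸ (le_inf
      ((quotient_cents2 (hn S) (hn B)).1 (bg3_reg_cent (quotient_norms W
        (hE.trans h.ST.normal.2)) hr hV (quotient_norms W (h.Bn S))
        (quotient_norms W (h.Bn E)) (coprime_quo2 W (regular_norm_coprime (h.Bn S) h.semi).symm)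
        (eq_bot_iff.2 ((inf_le_inf_left _ (cent_le_cent1 (mem_quotient W h2))).trans
          (cent_eq_bot_of_commg hV (quotient_norm B W (mem_quotient W (h.Bn' e))) (by
      rw [← quotient_cycle (hn ⊤ trivial), ← quotientR (hn _) (hn _), quotientSK (hn _) (hn _)]
      exact h6.trans (sup_le_sup_right le_sup_left _))).le))))
      (commg_subr.2 (h.Bn S))).trans h5.le)
  exact ⟨ν, h6, h3.le.trans (sup_le (h1.trans (inf_le_right.trans (h.le_inertia h6)))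
    (zpowers_le.2 ((mem_inertia_lin h6.1 (h.Bn' e)).2 (le_sup_right.trans h7))))⟩

theorem conj (h : TC B H A S T Z) (hν : LL B Z ν) (g : G) : LL B Z (cfConj g ν) :=
  ⟨hν.1.cfConj_norm (h.Bn' g), (le_cfker_cfConj (h.Bn' g) (h.Zn' g)).2 hν.2.1,
    mt (cfConj_eq_cf1 (h.Bn' g)).1 hν.2.2⟩

theorem stab_conj (h : TC B H A S T Z) (hg : g ∈ H) (θ : G → ℂ) :
    H ⊓ inertia B (cfConj g θ) = g •ᶜ (H ⊓ inertia B θ) := by
  rw [inertia_cfConj_norm (h.Bn' g), conj_inf, conj_eq_of_mem hg]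

theorem exists_T (h : TC B H A S T Z) (hν : LL B Z ν) :
    ∃ s ∈ S, H ⊓ inertia B (cfConj s ν) ≤ T :=
  have ⟨s, h1, h2⟩ := h.conjT inf_le_left (h.inf_le le_rfl hν.1.isIrr hν.2.2)
  ⟨s, h1, (h.stab_conj (h.SH h1) ν).le.trans h2⟩

theorem deg (h : TC B H A S T Z) (hν : LL B Z ν) :
    Deg (⊤ : Subgroup G) ((H ⊓ inertia B ν).relIndex H) :=
  have ⟨χ, h1, h2⟩ := hν.1.isIrr.exists_over (le_top (a := B))
  ⟨χ, h1, h.deg_lin hν.1 hν.2.2 h1 h2⟩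

/-- all stabilisers have the same order -/
theorem card_eq (h : TC B H A S T Z) :
    ∃ c, ∀ ν, LL B Z ν → Nat.card ↥(H ⊓ inertia B ν) = c := by
  obtain ⟨ν₁, h0, -⟩ := h.exists_LL le_rfl h.ch.le h.ch.lt.not_ge
  obtain ⟨ν₀, h1, h2⟩ := Set.exists_max_image {ν | LL B Z ν} (fun ν => Nat.card ↥(H ⊓ inertia B ν))
    ((irr B).finite_toSet.subset fun ν hν => mem_irr.2 hν.1.isIrr) ⟨ν₁, h0⟩
  refine ⟨_, fun ν hν => by_contra fun h3 : _ ≠ Nat.card ↥(H ⊓ inertia B ν₀) => ?_⟩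
  obtain ⟨s, h4, h5⟩ := h.exists_T hν
  obtain ⟨s₀, h6, h7⟩ := h.exists_T h1
  have h8 := h.inf_le' (h.conj hν s)
  have h9 := h.inf_le' (h.conj h1 s₀)
  have h10 : ¬ Nat.card ↥(H ⊓ inertia B ν) ∣ Nat.card ↥(H ⊓ inertia B ν₀) := fun ⟨k, hk⟩ => by
    have h10 := card_mul_idx (inf_le_left : H ⊓ inertia B ν ≤ H)
    have h11 := card_mul_idx (inf_le_left : H ⊓ inertia B ν₀ ≤ H)
    have h12 := h.nd _ _ (h.deg h1) (h.deg hν) (h.idx_ne h1.1.isIrr h1.2.2) ⟨k,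
      Nat.eq_of_mul_eq_mul_left Nat.card_pos (h10.trans (by rw [← h11, hk]; ring))⟩
    exact h3 (Nat.eq_of_mul_eq_mul_right (relIndex_pos _ _) (h10.trans (h12 ▸ h11.symm)))
  rw [← card_conj s, ← card_conj s₀ (H ⊓ inertia B ν₀), ← h.stab_conj (h.SH h4),
    ← h.stab_conj (h.SH h6)] at h10
  rw [← card_conj s₀ (H ⊓ inertia B ν₀), ← h.stab_conj (h.SH h6)] at h2
  generalize H ⊓ inertia B (cfConj s ν) = E at *
  generalize H ⊓ inertia B (cfConj s₀ ν₀) = E₀ at *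
  rw [← Nat.factorization_prime_le_iff_dvd Nat.card_pos.ne' Nat.card_pos.ne'] at h10
  push Not at h10
  obtain ⟨r, hr, h10⟩ := h10
  have := Fact.mk hr
  have h11 := nilpotent_pcore_Hall {r} (abelian_nil (abelianS h5 h.Tab))
  have h12 := nilpotent_pcore_Hall {r}ᶜ (abelian_nil (abelianS h7 h.Tab))
  have h13 := h11.pi.coprime h12.pi
  have h14 := dprodEY (sub_abelian_cent2 h.Tab (h12.le.trans h7) (h11.le.trans h5)) (coprime_TIg h13)
  obtain ⟨ν', h15, h16⟩ := h.fix ((sup_le (h11.le.trans h5) (h12.le.trans h7)).trans h.TH)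
    ((coprime_dprod_setI h14 h13 inf_le_left).sup_eq.ge.trans (sup_le
      ((inf_le_inf h11.le inf_le_right).trans h8) ((inf_le_inf h12.le inf_le_right).trans h9)))
  have h17 := ((card_le_of_le (le_inf ((sup_le (h11.le.trans h5) (h12.le.trans h7)).trans h.TH)
    h16)).trans (h2 ν' h15)).trans_eq (piPart_mul_compl {r} Nat.card_pos.ne').symm
  rw [← dprod_card h14, card_Hall h11, card_Hall h12, Nat.mul_le_mul_right_iff (piPart_pos _ _),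
    piPart_singleton, piPart_singleton, Nat.pow_le_pow_iff_right hr.one_lt] at h17
  exact h10.not_ge h17

theorem three (h : TC B H A S T ⊥) :
    ∃ m, ∀ n, Deg (⊤ : Subgroup G) n → n = 1 ∨ n = A.relIndex H ∨ n = m := by
  obtain ⟨c, hc⟩ := h.card_eq
  refine ⟨Nat.card H / c, fun _ ⟨χ, h1, e⟩ => ?_⟩
  by_cases h2 : B ≤ cfker ⊤ χ
  · obtain ⟨φ, h3, rfl⟩ := h.sd.morphOnto.exists_irr h1 (h.sd.ker_morphOnto.le.trans h2)
    exact (h.degH ⟨φ, h3, (h.sd.morphOnto.charDegree_cfPull φ).symm.trans e⟩).imp_right .inl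
  obtain ⟨ν, h3, h4, h5⟩ := exists_under_ne_cf1 h.sd.normal h1 h2
  have h6 := h3.isLin_of_abelian (derG1P.1 (eq_bot_iff.2 h.der))
  rw [← e, h.deg_lin h6 h4 h1 h5, ← hc ν ⟨h6, bot_le, h4⟩,
    ← card_mul_idx (inf_le_left : H ⊓ inertia B ν ≤ H), Nat.mul_div_cancel_left _ Nat.card_pos]
  exact .inr (.inr rfl)

end TC

end Cfsg.FT.ND
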