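import Cfsg.Agent.NDAD.Cam4A

set_option autoImplicit false
set_option linter.style.haveILetI false

namespace Cfsg.NDAD

open Module
open scoped commutatorElement

universe u
variable {G : Type u} [Group G]

/-- `π` induces an isomorphism of the section `A/B` onto the additive group `S` -/
structure IsSec (A B : Subgroup G) {S : Type u} [AddCommGroup S] (π : G → S) : Prop where
  add : ∀ a ∈ A, ∀ b ∈ A, π (a * b) = π a + π b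
  surj : ∀ s, ∃ a ∈ A, π a = s
  ker : ∀ a ∈ A, π a = 0 ↔ a ∈ B

namespace IsSec
variable {A B : Subgroup G} {S : Type u} [AddCommGroup S] {π : G → S}

theorem one (h : IsSec A B π) : π 1 = 0 := (h.ker 1 A.one_mem).2 B.one_mem

theorem inv (h : IsSec A B π) {a : G} (ha : a ∈ A) : π a⁻¹ = -π a := by
  rw [eq_neg_iff_add_eq_zero, ← h.add _ (A.inv_mem ha) _ ha, inv_mul_cancel, h.one]

theorem eq_iff (h : IsSec A B π) {a b : G} (ha : a ∈ A) (hb : b ∈ A) :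
    π a = π b ↔ a * b⁻¹ ∈ B := by
  rw [← h.ker _ (A.mul_mem ha (A.inv_mem hb)), h.add _ ha _ (A.inv_mem hb), h.inv hb,
    add_neg_eq_zero]

theorem conj (h : IsSec A B π) (hBA : B ≤ A) {a g : G} (ha : a ∈ A) (hg : ⁅g, a⁆ ∈ B) :
    g * a * g⁻¹ ∈ A ∧ π (g * a * g⁻¹) = π a := by
  have e : g * a * g⁻¹ = ⁅g, a⁆ * a := by rw [commutatorElement_def]; group
  rw [e]
  exact ⟨A.mul_mem (hBA hg) ha, by rw [h.add _ (hBA hg) _ ha, (h.ker _ (hBA hg)).2 hg, zero_add]⟩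

end IsSec

theorem exists_sec [Finite G] {A B : Subgroup G} (hc : ⁅A, A⁆ ≤ B) :
    ∃ (S : Type u) (_ : AddCommGroup S) (_ : Finite S) (π : G → S),
      IsSec A B π ∧ Nat.card S = B.relIndex A := by
  classical
  haveI hn : (B.subgroupOf A).Normal := ⟨fun b hb a => by
    have := B.mul_mem (hc (Subgroup.commutator_mem_commutator a.2 b.2)) hb
    rw [Subgroup.mem_subgroupOf]
    simpa [commutatorElement_def] using this⟩
  letI : CommGroup (A ⧸ B.subgroupOf A) :=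
    { (inferInstance : Group (A ⧸ B.subgroupOf A)) with
      mul_comm := fun a b => by
        obtain ⟨a, rfl⟩ := QuotientGroup.mk_surjective a
        obtain ⟨b, rfl⟩ := QuotientGroup.mk_surjective b
        rw [← QuotientGroup.mk_mul, ← QuotientGroup.mk_mul, QuotientGroup.eq,
          Subgroup.mem_subgroupOf]
        have := hc (Subgroup.commutator_mem_commutator (A.inv_mem b.2) (A.inv_mem a.2))
        simpa [commutatorElement_def, mul_assoc] using this }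
  refine ⟨Additive (A ⧸ B.subgroupOf A), inferInstance, inferInstance,
    fun g => if h : g ∈ A then Additive.ofMul (QuotientGroup.mk ⟨g, h⟩) else 0,
    ⟨fun a ha b hb => ?_, fun s => ?_, fun a ha => ?_⟩, rfl⟩
  · simp only [dif_pos ha, dif_pos hb, dif_pos (A.mul_mem ha hb)]
    rfl
  · obtain ⟨a, ha⟩ := QuotientGroup.mk_surjective s.toMul
    refine ⟨a, a.2, ?_⟩
    simp only [dif_pos a.2]
    rw [ha]; rfl
  · simp only [dif_pos ha]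
    exact QuotientGroup.eq_one_iff (⟨a, ha⟩ : A)

/-- the bi-additive map induced by the commutator -/
theorem exists_biadd {P A₁ B₁ A₂ B₂ A₃ B₃ : Subgroup G} {S₁ S₂ S₃ : Type u} [AddCommGroup S₁]
    [AddCommGroup S₂] [AddCommGroup S₃] {π₁ : G → S₁} {π₂ : G → S₂} {π₃ : G → S₃}
    (h₁ : IsSec A₁ B₁ π₁) (h₂ : IsSec A₂ B₂ π₂) (h₃ : IsSec A₃ B₃ π₃) (l₁ : A₁ ≤ P) (l₂ : A₂ ≤ P)
    (l₃ : B₃ ≤ A₃) (c : ⁅A₁, A₂⁆ ≤ A₃) (c₁ : ⁅B₁, A₂⁆ ≤ B₃) (c₂ : ⁅B₂, A₁⁆ ≤ B₃)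
    (c₃ : ⁅A₃, P⁆ ≤ B₃) :
    ∃ β : S₁ →+ S₂ →+ S₃, ∀ a ∈ A₁, ∀ b ∈ A₂, β (π₁ a) (π₂ b) = π₃ ⁅a, b⁆ := by
  have cm : ∀ a ∈ A₁, ∀ b ∈ A₂, ⁅a, b⁆ ∈ A₃ := fun a ha b hb =>
    c (Subgroup.commutator_mem_commutator ha hb)
  have cj : ∀ g ∈ P, ∀ x ∈ A₃, g * x * g⁻¹ ∈ A₃ ∧ π₃ (g * x * g⁻¹) = π₃ x := fun g hg x hx =>
    h₃.conj l₃ hx (by
      rw [← commutatorElement_inv]
      exact B₃.inv_mem (c₃ (Subgroup.commutator_mem_commutator hx hg)))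
  have hl : ∀ a ∈ A₁, ∀ a' ∈ A₁, ∀ b ∈ A₂, π₃ ⁅a * a', b⁆ = π₃ ⁅a, b⁆ + π₃ ⁅a', b⁆ := by
    intro a ha a' ha' b hb
    have e : ⁅a * a', b⁆ = a * ⁅a', b⁆ * a⁻¹ * ⁅a, b⁆ := by
      simp only [commutatorElement_def]; group
    obtain ⟨k1, k2⟩ := cj a (l₁ ha) _ (cm a' ha' b hb)
    rw [e, h₃.add _ k1 _ (cm a ha b hb), k2, add_comm]
  have hr : ∀ a ∈ A₁, ∀ b ∈ A₂, ∀ b' ∈ A₂, π₃ ⁅a, b * b'⁆ = π₃ ⁅a, b⁆ + π₃ ⁅a, b'⁆ := by
    intro a ha b hb b' hb'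
    have e : ⁅a, b * b'⁆ = ⁅a, b⁆ * (b * ⁅a, b'⁆ * b⁻¹) := by
      simp only [commutatorElement_def]; group
    obtain ⟨k1, k2⟩ := cj b (l₂ hb) _ (cm a ha b' hb')
    rw [e, h₃.add _ (cm a ha b hb) _ k1, k2]
  have wl : ∀ a ∈ A₁, ∀ a' ∈ A₁, π₁ a = π₁ a' → ∀ b ∈ A₂, π₃ ⁅a, b⁆ = π₃ ⁅a', b⁆ := by
    intro a ha a' ha' h b hb
    have h1 := (h₁.eq_iff ha ha').1 h
    have h2 := A₁.mul_mem ha (A₁.inv_mem ha')
    conv_lhs => rw [← inv_mul_cancel_right a a', hl _ h2 _ ha' b hb,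
      (h₃.ker _ (cm _ h2 b hb)).2 (c₁ (Subgroup.commutator_mem_commutator h1 hb)), zero_add]
  have wr : ∀ b ∈ A₂, ∀ b' ∈ A₂, π₂ b = π₂ b' → ∀ a ∈ A₁, π₃ ⁅a, b⁆ = π₃ ⁅a, b'⁆ := by
    intro b hb b' hb' h a ha
    have h1 := (h₂.eq_iff hb hb').1 h
    have h2 := A₂.mul_mem hb (A₂.inv_mem hb')
    conv_lhs => rw [← inv_mul_cancel_right b b', hr a ha _ h2 _ hb',
      (h₃.ker _ (cm a ha _ h2)).2 (by
        rw [← commutatorElement_inv]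
        exact B₃.inv_mem (c₂ (Subgroup.commutator_mem_commutator h1 ha))), zero_add]
  choose σ₁ m₁ e₁ using h₁.surj
  choose σ₂ m₂ e₂ using h₂.surj
  have key : ∀ a ∈ A₁, ∀ b ∈ A₂, π₃ ⁅σ₁ (π₁ a), σ₂ (π₂ b)⁆ = π₃ ⁅a, b⁆ := fun a ha b hb => by
    rw [wl _ (m₁ _) a ha (e₁ _) _ (m₂ _), wr _ (m₂ _) b hb (e₂ _) a ha]
  refine ⟨AddMonoidHom.mk' (fun s => AddMonoidHom.mk' (fun t => π₃ ⁅σ₁ s, σ₂ t⁆) fun t t' => ?_)
    fun s s' => ?_, key⟩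
  · rw [← hr _ (m₁ _) _ (m₂ _) _ (m₂ _)]
    exact wr _ (m₂ _) _ (A₂.mul_mem (m₂ _) (m₂ _))
      (by rw [h₂.add _ (m₂ _) _ (m₂ _), e₂, e₂, e₂]) _ (m₁ _)
  · ext t
    show π₃ ⁅σ₁ (s + s'), σ₂ t⁆ = π₃ ⁅σ₁ s, σ₂ t⁆ + π₃ ⁅σ₁ s', σ₂ t⁆
    rw [← hl _ (m₁ _) _ (m₁ _) _ (m₂ _)]
    exact wl _ (m₁ _) _ (A₁.mul_mem (m₁ _) (m₁ _))
      (by rw [h₁.add _ (m₁ _) _ (m₁ _), e₁, e₁, e₁]) _ (m₂ _)

theorem exists_bilin (p : ℕ) {S₁ S₂ S₃ : Type*} [AddCommGroup S₁] [AddCommGroup S₂]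
    [AddCommGroup S₃] [Module (ZMod p) S₁] [Module (ZMod p) S₂] [Module (ZMod p) S₃]
    (β : S₁ →+ S₂ →+ S₃) : ∃ b : S₁ →ₗ[ZMod p] S₂ →ₗ[ZMod p] S₃, ∀ s t, b s t = β s t :=
  ⟨LinearMap.mk₂ (ZMod p) (fun s t => β s t) (fun s s' t => by rw [map_add]; rfl)
    (fun c s t => ZMod.map_smul (β.flip t) c s) (fun s t t' => map_add _ _ _)
    (fun c s t => ZMod.map_smul (β s) c t), fun _ _ => rfl⟩

/-- if `β s` is onto for every `s ≠ 0` and the target is a non-zero group of exponent `p`, then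
the source has exponent `p` -/
theorem nsmul_eq_zero_of_surj {S₁ S₂ S₃ : Type*} [AddCommGroup S₁] [AddCommGroup S₂]
    [AddCommGroup S₃] (β : S₁ →+ S₂ →+ S₃) (hs : ∀ s, s ≠ 0 → β s ≠ 0) {p : ℕ}
    (h : ∀ t : S₃, p • t = 0) (s : S₁) : p • s = 0 := by
  by_contra h0
  apply hs _ h0
  ext t
  rw [map_nsmul, AddMonoidHom.nsmul_apply, h]; rfl

theorem ses_bound [Finite G] {P Z2 Z3 : Subgroup G} (h3 : Z3 ≤ Z2) (h2 : Z2 < P)
    (c11 : ⁅P, P⁆ ≤ Z2) (c21 : ⁅Z2, P⁆ ≤ Z3)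
    (H1 : ∀ x ∈ P, x ∉ Z2 → ∀ u ∈ Z2, ∃ y ∈ P, ⁅x, y⁆ * u⁻¹ ∈ Z3) :
    Z3.relIndex Z2 ^ 2 ≤ Z2.relIndex P := by
  obtain ⟨W, _, _, πW, hW, cW⟩ := exists_sec c11
  obtain ⟨U, _, _, πU, hU, cU⟩ := exists_sec (A := Z2) (B := Z3)
    ((Subgroup.commutator_mono le_rfl h2.le).trans c21)
  obtain ⟨β, hβ⟩ := exists_biadd hW hW hU le_rfl le_rfl h3 c11 c21 c21 c21
  rw [← cW, ← cU]
  have hs : ∀ x, x ≠ 0 → Function.Surjective (β x) := by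
    intro x hx u
    obtain ⟨x, hxP, rfl⟩ := hW.surj x
    obtain ⟨u, hu, rfl⟩ := hU.surj u
    obtain ⟨y, hy, h⟩ := H1 x hxP (fun h => hx ((hW.ker x hxP).2 h)) u hu
    exact ⟨πW y, by
      rw [hβ x hxP y hy, hU.eq_iff (c11 (Subgroup.commutator_mem_commutator hxP hy)) hu]; exact h⟩
  rcases subsingleton_or_nontrivial U with hU0 | hU0
  · rw [Nat.card_of_subsingleton (0 : U), one_pow]
    exact Nat.card_pos
  obtain ⟨x, hxP, hx⟩ := SetLike.exists_of_lt h2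
  have hx0 : πW x ≠ 0 := fun h => hx ((hW.ker x hxP).1 h)
  haveI : Nontrivial W := ⟨_, _, hx0⟩
  obtain ⟨p, hp, hd⟩ := Nat.exists_prime_and_dvd (mt AddMonoid.addOrderOf_eq_one_iff.1 hx0)
  haveI := Fact.mk hp
  obtain ⟨z, hz⟩ := exists_prime_addOrderOf_dvd_card' (G := W) p (hd.trans (addOrderOf_dvd_natCard _))
  have hz0 : z ≠ 0 := fun h => by
    rw [h, addOrderOf_zero] at hz
    exact hp.one_lt.ne hz
  have eU : ∀ u : U, p • u = 0 := fun u => by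
    obtain ⟨y, rfl⟩ := hs z hz0 u
    rw [← AddMonoidHom.nsmul_apply, ← map_nsmul, ← hz, addOrderOf_nsmul_eq_zero, map_zero]; rfl
  have eW := nsmul_eq_zero_of_surj β (fun s hs' h => by
    obtain ⟨u, hu⟩ := exists_ne (0 : U)
    obtain ⟨y, rfl⟩ := hs s hs' u
    exact hu (by rw [h]; rfl)) eU
  obtain ⟨iU⟩ : Nonempty (Module (ZMod p) U) := ⟨AddCommGroup.zmodModule eU⟩
  obtain ⟨iW⟩ : Nonempty (Module (ZMod p) W) := ⟨AddCommGroup.zmodModule eW⟩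
  haveI : Module.Finite (ZMod p) U := Module.Finite.of_finite
  haveI : Module.Finite (ZMod p) W := Module.Finite.of_finite
  obtain ⟨b, hb⟩ := exists_bilin p β
  have := two_mul_finrank_le b (fun x => by
    obtain ⟨x, hxP, rfl⟩ := hW.surj x
    rw [hb, hβ x hxP x hxP, commutatorElement_self, hU.one]) (fun x hx u => by
    obtain ⟨y, hy⟩ := hs x hx u
    exact ⟨y, by rw [hb, hy]⟩)
  rw [Module.natCard_eq_pow_finrank (K := ZMod p) (V := U),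
    Module.natCard_eq_pow_finrank (K := ZMod p) (V := W), ← pow_mul, mul_comm, Nat.card_zmod]
  exact Nat.pow_le_pow_right hp.pos this

end Cfsg.NDAD
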