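import Cfsg.Agent.NDAD.B2
import Cfsg.Agent.NDAD.Cam4B

/-! NDAD groups, type (b): `B` is a minimal normal subgroup. -/

set_option autoImplicit false
set_option linter.unusedSectionVars false
set_option linter.style.haveILetI false

namespace Cfsg.FT.ND

open scoped Pointwise commutatorElement Classical
open Subgroup Gar

variable {G : Type*} [Group G] [Finite G] {A B C E H I K L M N P R S T V W X Y Z : Subgroup G}
  {χ ψ θ θ' φ φ' β l μ ν η : G → ℂ} {p n m c : ℕ} {a b g s t w x y z e u : G}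

theorem mem_inertia_of_mul (hl : IsLin B l) (hν : IsCF B ν) (h1 : g ∈ inertia B l)
    (h2 : g ∈ inertia B (l * ν)) : g ∈ inertia B ν :=
  ⟨h1.1, hl.mul_left_cancel (hν.cfConj_norm h1.1) hν (by
    conv_lhs => rw [← inertiaJ h1]
    rw [← cfConj_mul, inertiaJ h2])⟩

namespace TC

theorem Zc (h : TC B H A S T Z) (hm : MinNormalIn Z ⊤) : B ≤ 𝐂[Z] :=
  hm.normal_nil_cents le_top h.sd.normal h.nil

theorem star (h : TC B H A S T Z) (hc : ∀ ν, LL B Z ν → Nat.card ↥(H ⊓ inertia B ν) = c)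
    (hθ : IsIrr B θ) (h1 : H ⊓ inertia B θ ⊓ A ≤ T ⊓ centSec B Z) :
    charDegree θ = 1 ∧ Nat.card ↥(H ⊓ inertia B θ) = c := by
  obtain ⟨ν, h2, h3⟩ := h.fix inf_le_left h1
  obtain ⟨χ, h4, h5⟩ := hθ.exists_over (le_top (a := B))
  have h6 := over_dvd h.sd.normal h4 hθ h5
  have h7 := indexgS H (le_inf inf_le_left h3)
  rw [h.idx hθ] at h6
  rw [← h.nd _ _ (h.deg h2) (deg_irr h4) (h.idx_ne h2.1.isIrr h2.2.2)
    (h7.trans ((dvd_mul_left _ _).trans h6))] at h6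
  have h8 := Nat.dvd_antisymm h7 ((dvd_mul_left _ _).trans h6)
  refine ⟨Nat.dvd_one.1 (Nat.dvd_of_mul_dvd_mul_right (relIndex_pos _ H)
    (h6.trans (h8.trans (one_mul _).symm).dvd)), Nat.eq_of_mul_eq_mul_right (relIndex_pos _ H)
      ((card_mul_idx inf_le_left).trans ?_)⟩
  rw [← h8, ← hc ν h2, card_mul_idx inf_le_left]

theorem Res_ne (hθ : IsLin B θ) (hZ : Z ≤ B) (h1 : ¬ Z ≤ cfker B θ) :
    IsIrr Z (Res Z θ) ∧ Res Z θ ≠ cf1 Z := ⟨(hθ.Res hZ).isIrr, mt hθ.Res_eq_cf1.1 h1⟩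

theorem ab1 (h : TC B H A S T Z) (hm : MinNormalIn Z ⊤) (ha : IsMulCommutative B)
    (h0 : A ⊓ T ⊓ 𝐂[Z] ≤ centSec B Z) : False := by
  obtain ⟨c, hc⟩ := h.card_eq
  obtain ⟨θ, hθ, h1⟩ := exists_irr_not_le_cfker h.ch.le hm.ne_bot
  have hl := hθ.isLin_of_abelian ha
  obtain ⟨h2, h3⟩ := Res_ne hl h.ch.le h1
  have h4 : H ⊓ inertia Z (Res Z θ) ⊓ A ≤ T ⊓ centSec B Z := fun a h4 => by
    have h5 := h.inf_le h.ch.le h2 h3 h4
    refine ⟨h5, h0 ⟨⟨h4.2, h5⟩, le_cent1.1 ((hm.TI_or_le (h.normal (cents_norm (centsS inf_le_left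
      (h.Zc hm))) (normsI (h.Zn H) (norms_cent1 (le_cent1.2 (h.cent ⟨h4.2, h5⟩))))).2).elim
        (fun e => (h3 (eq_cf1_of_cent1 h4.1.2 h2 (by rwa [← inf_assoc, inf_idem] at e))).elim)
        (·.trans inf_le_right))⟩⟩
  obtain ⟨ν, h5, h6⟩ := h.fix inf_le_left h4
  have h7 : ∀ θ', IsIrr B θ' → Res Z θ' = Res Z θ →
      H ⊓ inertia B θ' = H ⊓ inertia Z (Res Z θ) := fun θ' h7 h8 =>
    have h9 : H ⊓ inertia B θ' ≤ H ⊓ inertia Z (Res Z θ) := inf_le_inf_left H (h8 ▸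
      (le_inf le_rfl (h.Zn _)).trans (inertia_le_inertia_Res θ'))
    card_eq_of_le h9 ((card_le_of_le (le_inf inf_le_left h6)).trans ((hc ν h5).trans
      (h.star hc h7 ((inf_le_inf_right A h9).trans h4)).2.symm).le)
  obtain ⟨y, h8, h9⟩ := SetLike.not_le_iff_exists.1 (h.nA θ hθ fun e => h1
    (h.ch.le.trans (hθ.le_cfker_self.2 e)))
  have h10 : y ∈ centSec B Z := h.mem_cs.2 (by_contra fun h10 => by
    obtain ⟨ν', h11, h12, h13⟩ := exists_lin_le_cfker_not_le h.der h.ch.le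
      (commg_subl.2 (h.Bn _)) h10
    refine h13 ((mem_inertia_lin h11 (h.Bn' y)).1 (mem_inertia_of_mul hl h11.isCF h8.2
      (((h7 θ hθ rfl).trans (h7 _ (hl.mul h11).isIrr ?_).symm).le h8).2))
    rw [mul_comm, Res_ker_mul h12, h11.one, one_smul])
  exact h.not_le (commGC S B ▸ (sub_astabQR (h.Zn _) (h.Zn _)).1 ((fpf_le_commg
    (h.ST.normal.2 h8.1) (h.reg y h8.1 h9)).trans ((commgS S (zpowers_le.2 h10)).trans
      (commg_subr.2 (norms_centSec (h.Bn S) (h.Zn S))))))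

theorem ab2 (h : TC B H A S T Z) (hm : MinNormalIn Z ⊤) (hb : IsMulCommutative B)
    (ha : a ∈ A ⊓ T ⊓ 𝐂[Z]) (h0 : a ∉ centSec B Z) : False := by
  have h1 := h.sup_eq ha.1 h0
  have hY : ⁅B, ⟪a⟫⁆ ≤ B := commg_subl.2 (h.Bn _)
  have hn : H ≤ 𝐍[⁅B, ⟪a⟫⁆] := normsR (h.Bn H) (norms_cycle (le_cent1.2 (h.cent ha.1)))
  obtain ⟨θ, hθ, h2, h3⟩ := exists_lin_le_cfker_not_le ((derG1P.2 hb).le.trans bot_le) hY h.ch.le
    fun e => hm.ne_bot (eq_bot_iff.2 ((le_inf h.ch.le (le_cent1.2 ha.2)).trans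
      (cent_eq_bot_of_commg hb (h.Bn' a) (h1.ge.trans (sup_le e le_rfl))).le))
  have h4 : ∀ ν, LL B Z ν → ∃ z ∈ H ⊓ inertia B θ ⊓ inertia B ν, z ∉ A := fun ν hν => by
    have h4 : ∀ x ∈ Z, (θ * ν) x = θ x := fun x hx => by
      rw [Pi.mul_apply, hν.1.le_cfker.1 hν.2.1 x hx, mul_one]
    obtain ⟨z, h5, h6⟩ := SetLike.not_le_iff_exists.1 (h.nA _ (hθ.mul hν.1).isIrr fun e => h3
      (hθ.le_cfker.2 fun x hx => by rw [← h4 x hx, e, cf1_of_mem (h.ch.le hx)]))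
    have h7 : z ∈ inertia B θ := ⟨h.Bn' z, (hθ.cfConj_norm (h.Bn' z)).ext_of_join hθ h1
      (fun x hx => by rw [cfConj_apply, ← h4 _ ((memJ_norm' (h.Zn' z)).2 hx), ← cfConj_apply z (θ * ν),
        inertiaJ h5.2, h4 x hx]) fun x hx => by
      rw [cfConj_apply, hθ.le_cfker.1 h2 x hx, hθ.le_cfker.1 h2 _ ((memJ_norm' (hn h5.1)).2 hx)]⟩
    exact ⟨z, ⟨⟨h5.1, h7⟩, mem_inertia_of_mul hθ hν.1.isCF h7 h5.2⟩, h6⟩
  obtain ⟨ν, hν, -⟩ := h.exists_LL le_rfl h.ch.le h.ch.lt.not_ge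
  obtain ⟨s, h5, h6⟩ := exists_ne_one h.S1
  obtain ⟨z, h7, h8⟩ := h4 ν hν
  obtain ⟨w, h9, h10⟩ := h4 _ (h.conj hν s)
  obtain ⟨w, h11, rfl⟩ := mem_conj_iff_exists.1 ((h.stab_conj (h.SH h5) ν).le ⟨h9.1.1, h9.2⟩)
  exact h6 (h.ti h7.1.1 h8 h11.1 (fun e => h10 (h.AH.conj_mem (h.SH h5) e)) h5
    (mem_cent1.2 (comm_of_abelian (h.abel' le_rfl hν.1.isIrr hν.2.2) h11 ⟨h7.1.1, h7.2⟩))
    (mem_cent1.2 (comm_of_abelian (h.abel' le_rfl hθ.isIrr fun e => h3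
      (h.ch.le.trans (hθ.isIrr.le_cfker_self.2 e))) h9.1 h7.1)))

theorem frob (h : TC B H A S T Z) (ha : a ∈ A ⊓ T) (h0 : a ∉ centSec B Z) (hb : b ∈ B)
    (h1 : ⁅a, b⁆ ∈ Z) : b ∈ Z := by
  refine ((h.eq_or (le_inf h.ch.le (le_centSec_self _ _)) inf_le_left (normsI (h.Bn H)
    (norms_centSec (norms_cycle (le_cent1.2 (h.cent ha))) (h.Zn H)))).resolve_right fun e => h0
      (h.mem_cs.2 ((sub_astabQR (h.Zn _) (h.Zn _)).1 (e.ge.trans inf_le_right)))).le ⟨hb, ?_⟩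
  rw [SetLike.mem_coe, mem_toSubmonoid, centSec, mem_pre, quotient_cycle (h.Zn' a), cent_cycle, mem_cent1, eq_comm,
    ← commutatorElement_eq_one_iff_mul_comm, ← coset_commg (h.Zn' a) (h.Zn' b)]
  exact ⟨h.Zn' b, coset_id h1⟩

theorem Z_le (h : TC B H A S T Z) (hm : MinNormalIn Z ⊤) (hθ : IsIrr B θ) : Z ≤ cfcenter B θ :=
  (le_inf h.ch.le (centsC.1 (h.Zc hm))).trans hθ.center_le_cfcenter

theorem mul_eq (h : TC B H A S T Z) (hm : MinNormalIn Z ⊤) (hθ : IsIrr B θ) (hβ : IsLin B β)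
    (hk : Z ≤ cfker B β) (ha : a ∈ A ⊓ T) (h0 : a ∉ centSec B Z) (h1 : a ∈ inertia B θ)
    (h2 : a ∈ inertia B (β * θ)) : β * θ = θ := by
  have hZ := h.Z_le hm hθ
  have hR := cfcenter_le B θ
  have h3 : a ∈ 𝐍[cfcenter B θ] := mem_norm_of_conj_le (conj_le_iff_forall.2 fun x hx =>
    hθ.isChar.mem_cfcenter.2 ⟨(memJ_norm h1.1).2 (hR hx), by
      rw [inertia_valJ h1, (hθ.isChar.mem_cfcenter.1 hx).2]⟩)
  have h4 : a ∈ inertia (cfcenter B θ) (Res (cfcenter B θ) β) :=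
    mem_inertia_of_forall (fun _ => Res_of_not_mem _) h3 fun x hx => by
      have h4 := inertia_valJ h2 x
      rw [Pi.mul_apply, Pi.mul_apply, inertia_valJ h1] at h4
      rw [Res_of_mem _ hx, Res_of_mem _ ((memJ_norm h3).2 hx), mul_right_cancel₀ (fun e => ?_) h4]
      have h5 := (hθ.isChar.mem_cfcenter.1 hx).2
      rw [e, norm_zero] at h5
      exact hθ.charDegree_pos.ne (Nat.cast_injective (R := ℝ) (Nat.cast_zero.trans h5))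
  have h5 := (hβ.Res hR).le_cfker.1 ((le_sup_of_fpf ⟨hZ, h.Zn _⟩ h3 (h.Zn' a) fun b hb =>
    h.frob ha h0 (hR hb)).trans (sup_le (sub_cfker_Res hZ hk)
      ((mem_inertia_lin (hβ.Res hR) h3).1 h4)))
  have h6 := (hθ.sq_charDegree_eq_iff le_rfl).1 (hθ.sq_charDegree_eq (h.der.trans hZ))
  funext x
  by_cases hx : x ∈ cfcenter B θ
  · rw [Pi.mul_apply, ← Res_of_mem β hx, h5 x hx, one_mul]
  · rw [Pi.mul_apply, h6.off hx, mul_zero]

theorem center_le (h : TC B H A S T Z) (hm : MinNormalIn Z ⊤) (hb : Z ≤ ⁅B, B⁆) (hθ : IsIrr B θ)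
    (h1 : ¬ Z ≤ cfker B θ) : cfcenter B θ ≤ Z := by
  obtain ⟨c, hc⟩ := h.card_eq
  have h2 : ∀ θ, IsIrr B θ → ¬ Z ≤ cfker B θ →
      ∃ a ∈ A ⊓ T, a ∉ centSec B Z ∧ a ∈ inertia B θ := fun θ hθ h1 => by
    obtain ⟨a, h2, h3⟩ := SetLike.not_le_iff_exists.1 fun e => h1
      (hb.trans (hθ.isLin_iff.2 (h.star hc hθ e).1).der_le_cfker)
    have h4 := h.inf_le le_rfl hθ (fun e => h1 (h.ch.le.trans (hθ.le_cfker_self.2 e))) h2
    exact ⟨a, ⟨h2.2, h4⟩, fun e => h3 ⟨h4, e⟩, h2.1.2⟩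
  by_contra h3
  obtain ⟨β, h4, h5, h6⟩ := exists_lin_le_cfker_not_le h.der h.ch.le (cfcenter_le B θ) h3
  have h7 : ¬ Z ≤ cfker B (β * θ) := fun e => h1 (by
    rw [← h4.star_mul_cancel hθ.isCF]
    exact (le_inf ((cfker_star B β).symm ▸ h5) e).trans (cfker_mul _ _ _))
  obtain ⟨a, h8, h9, h10⟩ := h2 θ hθ h1
  obtain ⟨a', h11, h12, h13⟩ := h2 _ (h4.mul_irr hθ) h7
  obtain ⟨μ, hμ, h14⟩ := hθ.exists_under h.ch.le
  obtain ⟨l, h15, h16, -⟩ := hθ.isChar.exists_lin_of_le_cfcenter hθ.ne_zero (h.Z_le hm hθ)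
  have h17 : a' ∈ inertia Z l := by
    rw [← inertia_smul hθ.one_ne_zero, ← h16, ← one_smul ℂ (Res Z θ), ← h4.one, ← Res_ker_mul h5]
    exact inertia_le_inertia_Res _ ⟨h13, h.Zn' a'⟩
  have h18 : dot Z θ l ≠ 0 := by
    rw [← dot_Res_left, h16, dot_smul_left, h15.isIrr.dot_self, mul_one]; exact hθ.one_ne_zero
  obtain ⟨γ, h19, h20, h21⟩ := exists_lin_mul_of_over h.ch.le h.der h15.isIrr hθ
    (hθ.cfConj_norm (h.Bn' a')) h18 (by rwa [← inertiaJ h17, dot_cfConj_norm (h.Zn' a')])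
  have h22 : a' ∈ inertia B θ := ⟨h.Bn' a', h21.trans (h.mul_eq hm hθ h19 h20 h8 h9 h10 (by
    rw [← h21, inertia_cfConj_norm (h.Bn' a'), mem_conj, mul_assoc,
      comm_of_abelian h.ab h8.1 h11.1, inv_mul_cancel_left]
    exact h10))⟩
  have h23 := h.mul_eq hm hθ h4 h5 h11 h12 h22 h13
  refine h6 (h4.le_cfker.2 fun x hx => mul_right_cancel₀ (fun e => ?_)
    ((congrFun h23 x).trans (one_mul _).symm))
  have h5 := (hθ.isChar.mem_cfcenter.1 hx).2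
  rw [e, norm_zero] at h5
  exact hθ.charDegree_pos.ne (Nat.cast_injective (R := ℝ) (Nat.cast_zero.trans h5))

theorem bound (h : TC B H A S T Z) (hm : MinNormalIn Z ⊤) (hb : Z ≤ ⁅B, B⁆) :
    Nat.card Z ^ 2 ≤ Z.relIndex B := by
  have hc := h.Zc hm
  rw [← relIndex_bot_left]
  refine NDAD.ses_bound bot_le h.ch.lt h.der (commG1P'.2 hc).le fun x hx h1 u hu => ?_
  have h2 : ⁅B, ⟪x⟫⁆ ≤ Z := (commgS B (zpowers_le.2 hx)).trans h.der
  have h3 : Z ≤ ⁅B, ⟪x⟫⁆ := by_contra fun h3 => by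
    obtain ⟨θ, hθ, h4, h5⟩ : ∃ θ, IsIrr B θ ∧ ⁅B, ⟪x⟫⁆ ≤ cfker B θ ∧ ¬ Z ≤ cfker B θ := by
      obtain ⟨z, h4, h5⟩ := SetLike.not_le_iff_exists.1 h3
      obtain ⟨θ, h6, h7, h8⟩ := exists_irr_le_cfker_notMem (commg_normall (h.Bn _)) (h.ch.le h4) h5
      exact ⟨θ, h6, h7, fun e => h8 (e h4)⟩
    exact h1 (h.center_le hm hb hθ h5 (zpowers_le.1 ((hθ.le_cfcenter (zpowers_le.2 hx)).2
      (commGC B _ ▸ h4))))
  obtain ⟨y, h4, rfl⟩ := exists_comm_eq' (h2.trans (centsC.1 hc)) (h.Bn' x) (h3 hu)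
  exact ⟨y, h4, mem_bot.2 (mul_inv_cancel _)⟩

theorem exists_t (h : TC B H A S T Z) :
    ∃ t ∈ T, t ∉ A ∧ ∀ ν, LL B Z ν → H ⊓ inertia B ν ≤ T → t ∈ inertia B ν := by
  obtain ⟨c, hc⟩ := h.card_eq
  obtain ⟨ν₁, h0, -⟩ := h.exists_LL le_rfl h.ch.le h.ch.lt.not_ge
  obtain ⟨s, -, h1⟩ := h.exists_T h0
  have h2 := h.conj h0 s
  generalize cfConj s ν₁ = ν₀ at h1 h2
  set A₁ := A ⊓ T ⊓ centSec B Z
  have hn : ∀ ν, H ⊓ inertia B ν ≤ 𝐍[A] := fun _ => inf_le_left.trans h.AH.2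
  have h3 : ∀ ν, LL B Z ν → Nat.card A₁ * Nat.card ((H ⊓ inertia B ν) ⁄ A) = c := fun ν hν => by
    rw [← hc ν hν, ← card_quo_mul' (hn ν), show A ⊓ (H ⊓ inertia B ν) = A₁ from le_antisymm
      (fun a ha => have := h.inf_le' hν ⟨ha.2, ha.1⟩; ⟨⟨ha.1, this.1⟩, this.2⟩)
      fun a ha => ⟨ha.1.1, h.TH ha.1.2, h.le_inertia hν ha.2⟩]
  have h4 : A₁ ⊴ A ⊓ T := sub_abelian_normal (abelianS inf_le_left h.ab) inf_le_left
  obtain ⟨x, h5, h6⟩ : ∃ x ∈ H ⊓ inertia B ν₀, x ^ A₁.relIndex (A ⊓ T) ∉ A := by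
    by_contra h5
    push Not at h5
    obtain ⟨j, h6⟩ : Nat.card ((H ⊓ inertia B ν₀) ⁄ A) ∣ A₁.relIndex (A ⊓ T) := by
      rw [← exponent_cyclic (cyclicS (quotientS A inf_le_left) h.cyc)]
      refine Monoid.exponent_dvd_of_forall_pow_eq_one fun ⟨x, hx⟩ => Subtype.ext ?_
      obtain ⟨x, h6, h7, rfl⟩ := mem_quo.1 hx
      exact (coset_pow h7 _).symm.trans (coset_id (h5 x h6))
    have h7 := card_mul_idx (inf_le_left : H ⊓ inertia B ν₀ ≤ H)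
    have h8 := card_mul_idx (inf_le_right : A ⊓ T ≤ T)
    rw [inf_relIndex_right, ← (h.ST.mulEq.mono h.SA h.AH.1 le_rfl h.TH).relIndex_eq,
      ← card_mul_idx h4.1, h6] at h8
    rw [hc _ h2, ← h3 _ h2, ← sdprod_card h.ST, ← h8] at h7
    have h9 : (H ⊓ inertia B ν₀).relIndex H = A.relIndex H * (Nat.card S * j) :=
      Nat.eq_of_mul_eq_mul_left (Nat.mul_pos Nat.card_pos Nat.card_pos) (h7.trans (by ring))
    exact h.S1 (card_eq_one.1 (Nat.eq_one_of_mul_eq_one_right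
      (h.nd.eq_one h.degf (h9 ▸ h.deg h2) h.f_ne)))
  refine ⟨_, pow_mem (h1 h5) _, h6, fun ν hν h7 => ?_⟩
  have h8 := eq_of_card_eq_of_isCyclic h.cyc (quotientS A (inf_le_left (b := inertia B ν₀)))
    (quotientS A (inf_le_left (b := inertia B ν)))
    (Nat.eq_of_mul_eq_mul_left Nat.card_pos ((h3 _ h2).trans (h3 _ hν).symm))
  obtain ⟨a, h9, y, h10, rfl⟩ := (mem_join_norm (hn ν)).1 ((quotientSK (hn _) (hn _)).1 h8.le h5)
  have h11 : a ∈ T := (mul_mem_cancel_right (h7 h10)).1 (h1 h5)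
  rw [(show Commute a y from comm_of_abelian h.Tab h11 (h7 h10)).mul_pow]
  have := h4.normal
  exact mul_mem (h.le_inertia hν (pow_index_mem (A₁.subgroupOf (A ⊓ T)) ⟨a, h9, h11⟩).2)
    (pow_mem h10.2 _)

theorem count (h : TC B H A S T Z) : ∃ q, q ^ 2 ≤ Z.relIndex B ∧
    Z.relIndex B - 1 ≤ Nat.card S * (q - 1) := by
  obtain ⟨t, h1, h2, h3⟩ := h.exists_t
  have hX : Z ⊔ ⁅B, ⟪t⟫⁆ ≤ B := sup_le h.ch.le (commg_subl.2 (h.Bn _))
  refine ⟨(Z ⊔ ⁅B, ⟪t⟫⁆).relIndex B, ?_, ?_⟩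
  · obtain ⟨s, h4, h5⟩ := exists_ne_one h.S1
    have h6 : s •ᶜ (Z ⊔ ⁅B, ⟪t⟫⁆) ≤ B := conj_le_of_mem_norm (h.Bn' s) hX
    have h7 : B ≤ Z ⊔ ⁅B, ⟪t⟫⁆ ⊔ s •ᶜ (Z ⊔ ⁅B, ⟪t⟫⁆) := by_contra fun h7 => by
      obtain ⟨ν, h8, h9⟩ := h.exists_LL (le_sup_left.trans le_sup_left) (sup_le hX h6) h7
      refine h5 (h.ti (h.TH h1) h2 (h.TH h1) h2 h4 (cent1id t) (mem_cent1.2 (comm_of_abelian
        (h.abel' le_rfl h8.1.isIrr h8.2.2) ⟨H.mul_mem (mul_mem (h.SH h4) (h.TH h1))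
          (inv_mem (h.SH h4)), (mem_inertia_lin h8.1 (h.Bn' _)).2 ?_⟩ ⟨h.TH h1,
          (mem_inertia_lin h8.1 (h.Bn' _)).2 (le_sup_right.trans (le_sup_left.trans h9))⟩)))
      rw [← conj_zpowers, ← conj_eq_of_mem_norm (h.Bn' s), ← conj_commutator,
        conj_eq_of_mem_norm (h.Bn' s)]
      exact (conj_le_conj.2 le_sup_right).trans (le_sup_right.trans h9)
    rw [← relIndex_mul_relIndex Z _ B le_sup_left hX, sq]
    refine Nat.mul_le_mul_right _ ?_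
    rw [(mulEq_of_sup (h6.trans (sub_der1_norm (h.der.trans le_sup_left) hX))
      (le_antisymm (sup_le hX h6) h7)).relIndex_eq, ← relIndex_conj s Z, conj_eq_of_mem_norm (h.Zn' s)]
    exact Nat.le_of_dvd (relIndex_pos _ _) (indexgS _ le_sup_left)
  · have h4 : ∀ X, Z ≤ X → X ≤ B → X.relIndex B - 1 =
        (((irr B).filter fun χ => X ≤ cfker B χ).erase (cf1 B)).card := fun X h4 h5 => by
      rw [Finset.card_erase_of_mem (Finset.mem_filter.2 ⟨mem_irr.2 (isIrr_cf1 B),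
        h5.trans (cfker_cf1 B).ge⟩), card_irr_ker_abelian (sub_der1_normal (h.der.trans h4) h5)
          (h.der.trans h4)]
    have := Fintype.ofFinite S
    rw [h4 Z le_rfl h.ch.le, h4 _ le_sup_left hX, Nat.card_eq_fintype_card, ← Finset.card_univ,
      ← Finset.card_product]
    refine Finset.card_le_card_of_surjOn (fun x => cfConj (x.1 : G)⁻¹ x.2) fun ν hν => ?_
    simp only [Finset.coe_erase, Finset.coe_filter, mem_irr, Set.mem_sdiff, Set.mem_ofPred_eq,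
      Set.mem_singleton_iff] at hν
    have h5 : LL B Z ν := ⟨hν.1.1.isLin_of_le_cfker h.der hν.1.2, hν.1.2, hν.2⟩
    obtain ⟨s, h6, h7⟩ := h.exists_T h5
    have h8 := h.conj h5 s
    exact ⟨(⟨s, h6⟩, cfConj s ν), Finset.mem_coe.2 (Finset.mem_product.2 ⟨Finset.mem_univ _,
      Finset.mem_erase.2 ⟨h8.2.2, Finset.mem_filter.2 ⟨mem_irr.2 h8.1.isIrr, sup_le h8.2.1
        ((mem_inertia_lin h8.1 (h.Bn' t)).1 (h3 _ h8 h7))⟩⟩⟩), cfConj_inv_cfConj s ν⟩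

theorem two (h : TC B H A S T Z) (hm : MinNormalIn Z ⊤) : False := by
  rcases hm.eq_or h.der h.sd.normal.der.2 with h1 | h1
  · exact h.ab1 hm (derG1P.1 h1) fun a ha => by_contra (h.ab2 hm (derG1P.1 h1) ha)
  have h2 := h.bound hm h1.ge
  obtain ⟨q, h3, h4⟩ := h.count
  have h5 := regular_norm_lt (h.Zn S) (h.semi.mono h.ch.le le_rfl) hm.ne_bot
  have h6 : 0 < Nat.card S := Nat.card_pos
  generalize Z.relIndex B = u, Nat.card S = s, Nat.card Z = z at *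
  have h7 : (s + 1) ^ 2 ≤ u := (Nat.pow_le_pow_left h5 2).trans h2
  obtain _ | q := q
  · have h8 : u ≤ 1 := by simp at h4; omega
    nlinarith
  have h8 : u ≤ s * q + 1 := by simp at h4; omega
  rcases le_or_gt q s with h9 | h9 <;> nlinarith

end TC

theorem SB.typeB [Fact p.Prime] (h : SB p K N) (hP : Syl p P N) (ha : IsMulCommutative P) :
    ∃ m, ∀ n, Deg (⊤ : Subgroup G) n → n = 1 ∨ n = N.relIndex ⊤ ∨ n = m := by
  obtain ⟨H, A, S, T, h1, h2⟩ := h.exists_TB hP ha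
  by_cases h3 : ⁅N, N⁆ = ⊥
  · exact ⟨1, fun _ ⟨χ, h4, e⟩ => .imp_right .inl (h2 ▸ h1.degH ⟨χ,
      (h3 ▸ h1.sd).eq_of_left_bot.symm ▸ h4, e⟩)⟩
  obtain ⟨Z, h4, -⟩ := chief_factor_exists (normal1 _) h.Nn.der (bot_lt_iff_ne_bot.2 h3)
  by_cases h5 : Z = ⊥
  · exact h2 ▸ TC.three ⟨h1, h5 ▸ h4⟩
  obtain ⟨W, h6, -⟩ := chief_factor_exists (normal1 _) h4.normal' (bot_lt_iff_ne_bot.2 h5)
  have hW := h6.normal'
  obtain ⟨_, _, _, _, h7, -⟩ := (h.quo hW (h6.le.trans (h4.le.trans h.der))).exists_TB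
    (hP.quo (le_top.trans hW.2)) (quotient_abelian W ha)
  have h8 := h4.quo h6.le hW.2
  have h9 := chief_factor_minnormal h6
  rw [quotientT] at h8 h9
  rw [quotient_der (le_top.trans hW.2)] at h8
  exact (TC.two ⟨h7, h8⟩ h9).elim

end Cfsg.FT.ND
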