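import Cfsg.Agent.NDAD.C3

/-! NDAD groups, normal nonabelian Sylow subgroup: conclusion. -/

set_option autoImplicit false
set_option linter.unusedSectionVars false
set_option linter.style.haveILetI false
set_option maxHeartbeats 400000

namespace Cfsg.FT.ND

open scoped Pointwise commutatorElement Classical ComplexConjugate
open Subgroup Gar

variable {G : Type*} [Group G] [Finite G] {A B C E H I K K' L M N P R S T V W X Y Z : Subgroup G}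
  {χ ψ θ φ φ' β l l' μ η : G → ℂ} {p n m : ℕ} {g x y e u s t w : G}

local notation:max "Γ2[" P "]" => ⁅P, P⁆
local notation:max "Γ3[" P "]" => ⁅⁅P, P⁆, P⁆
local notation:max "Γ4[" P "]" => ⁅⁅⁅P, P⁆, P⁆, P⁆
local notation:max "Γ5[" P "]" => ⁅⁅⁅⁅P, P⁆, P⁆, P⁆, P⁆

variable [hp : Fact p.Prime]

theorem PT.beta (h : PT p P T M) (hα : ¬ ⁅Γ2[P], T⁆ ≤ Γ3[P]) (hβ : Γ2[P] ⊓ 𝐂[T] ≤ Γ3[P]) :
    (∃ a b, ∀ φ, IsIrr P φ → charDegree φ ≠ 1 → (T ⊓ inertia P φ).relIndex T * charDegree φ = a ∨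
      (T ⊓ inertia P φ).relIndex T * charDegree φ = b) ∧ D (D P) = ⊥ := by
  have n2 := der_normal P
  have n3 := cnrm n2.1
  have n4 := cnrm n3.1
  have n5 := cnrm n4.1
  have l3 := n2.commg_le le_rfl
  have l4 := n3.commg_le le_rfl
  have l5 := n4.commg_le le_rfl
  have t2 := normsR h.nT h.nT
  have t3 := normsR t2 h.nT
  have t4 := normsR t3 h.nT
  have t5 := normsR t4 h.nT
  have l0 : P ⊓ 𝐂[T] ≤ P := inf_le_left
  have hL : P ⊓ 𝐂[T] ⊔ Γ2[P] ≤ P := sup_le l0 n2.1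
  have hnl := fun φ hφ {Y} (hY : Y ≤ Γ2[P]) h1 =>
    SetLike.not_le_iff_exists.1 (h.nl φ hφ (nonlin_of hφ hY h1))
  have z2 := h.slem' (commSg P l0) le_rfl le_rfl n3 (commgS _ l0) hβ
  obtain ⟨v2, w2⟩ := h.level t2 t3 l3 le_rfl z2 fun φ hφ _ h1 => by
    obtain ⟨e, h2, h3⟩ := hnl φ hφ le_rfl h1
    exact ⟨e, h2, h.cent_le h2.1 h3⟩
  obtain ⟨φ2, a1, a2, a3⟩ := exists_level n3 n2.1 fun e => hα ((commg_subl.2 t2).trans e)
  obtain ⟨t, a4, a5⟩ := hnl φ2 a1 le_rfl a3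
  rw [(v2 φ2 a1 a2 a3).2.2] at a4
  have s3 : ∀ t ∈ T ⊓ commStab Γ2[P] Γ3[P], t ∉ M → Γ3[P] ≤ ⁅Γ3[P], ⟪t⟫⁆ ⊔ Γ4[P] :=
    fun t ht ht' => h.step ht.1 ht' n2 t2 ((mem_commStab_iff (t3 ht.1)).1 ht.2) h.g2L
  have z3 := h.slem' ((commSg P le_sup_left).trans z2) l3 le_rfl n4
    ((commgS _ le_sup_left).trans h.g2L) (fpf_cent t3 t4 l4 (commgS _ n3.1) (h.copS n3.1 le_rfl)
      ((s3 t a4 a5).trans (sup_le_sup_right (commgS _ (zpowers_le_of_mem a4.1)) _)))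
  have c3 : ∀ e ∈ T, e ∉ M → e ∉ commStab Γ2[P] Γ3[P] → P ⊓ 𝐂₁[e] ≤ P ⊓ 𝐂[T] ⊔ Γ3[P] :=
    fun e h1 h2 h3 => h.cent_step h1 n2 t2 t3 l3 le_rfl (w2 e h1 h3) (h.cent_le h1 h2)
  obtain ⟨v3, w3⟩ := h.level t3 t4 l4 l3 z3 fun φ hφ h0 h1 => by
    obtain ⟨e, h2, h3⟩ := hnl φ hφ l3 h1
    exact ⟨e, h2, c3 e h2.1 h3 fun h4 => h1 (fix_ker hφ h2.2 n3.1 h0 le_rfl (s3 e ⟨h2.1, h4⟩ h3))⟩
  by_cases h4 : Γ4[P] = ⊥
  · refine ⟨⟨(T ⊓ commStab Γ2[P] Γ3[P]).relIndex T * Nat.sqrt ((P ⊓ 𝐂[T] ⊔ Γ2[P]).relIndex P),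
      (T ⊓ commStab Γ3[P] Γ4[P]).relIndex T * Nat.sqrt ((P ⊓ 𝐂[T] ⊔ Γ3[P]).relIndex P),
      fun φ hφ h1 => ?_⟩, le_bot_iff.1 (h4 ▸ (commgS _ le_sup_right).trans h.g2L)⟩
    by_cases h2 : Γ3[P] ≤ cfker P φ
    · obtain ⟨-, b1, b2⟩ := v2 φ hφ h2 fun e => h1 (hφ.isLin_iff_der.2 e).charDegree_eq
      left; rw [← b1, ← b2, Nat.sqrt_eq']
    · obtain ⟨-, b1, b2⟩ := v3 φ hφ (h4.le.trans bot_le) h2
      right; rw [← b1, ← b2, Nat.sqrt_eq']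
  exfalso
  have z0 : ⁅P ⊓ 𝐂[T], P⁆ ≤ Γ4[P] := (commSg P le_sup_left).trans z3
  have g20 : ⁅Γ2[P], P ⊓ 𝐂[T]⁆ ≤ Γ5[P] := three_subgroup_mod n5.2 (l0.trans n5.2) n5.2
    (commSg P ((commGC _ _).le.trans z0)) (commSg P z0)
  have g3L : ⁅Γ3[P], P ⊓ 𝐂[T] ⊔ Γ2[P]⁆ ≤ Γ5[P] := (commGC _ _).le.trans (commg_sup_le
    (l0.trans n5.2) (n2.1.trans n5.2) ((commGC _ _).le.trans ((commSg _ l3).trans g20))
    (three_subgroup_mod n5.2 (n3.1.trans n5.2) n5.2 (commSg P (commGC _ _).le) le_rfl))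
  have s4 : ∀ t ∈ T ⊓ commStab Γ3[P] Γ4[P], t ∉ M → Γ4[P] ≤ ⁅Γ4[P], ⟪t⟫⁆ ⊔ Γ5[P] :=
    fun t ht ht' => h.step ht.1 ht' n3 t3 ((mem_commStab_iff (t4 ht.1)).1 ht.2) g3L
  obtain ⟨φ3, b1, b2, b3⟩ := exists_level n4 n3.1 fun e => h4 (by
    rw [h.eq_bot n3 e, commutator_bot_left])
  obtain ⟨t', b4, b5⟩ := hnl φ3 b1 l3 b3
  rw [(v3 φ3 b1 b2 b3).2.2] at b4
  have z4 := h.slem' z0 (l4.trans l3) le_rfl n5 g20 (fpf_cent t4 t5 l5 (commgS _ n4.1)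
    (h.copS n4.1 le_rfl) ((s4 t' b4 b5).trans
      (sup_le_sup_right (commgS _ (zpowers_le_of_mem b4.1)) _)))
  obtain ⟨v4, -⟩ := h.level t4 t5 l5 (l4.trans l3) z4 fun φ hφ h0 h1 => by
    have h2 := nonlin_of hφ (l4.trans l3) h1
    obtain ⟨c1, c2⟩ := vanish_bound hφ hL (h.van φ hφ h2)
    obtain ⟨-, c3', c4⟩ := v2 φ2 a1 a2 a3
    have h3 : ¬ T ⊓ inertia P φ ≤ T ⊓ commStab Γ2[P] Γ3[P] := fun e =>
      h1 (l4.trans ((commSg P le_sup_right).trans ((hφ.le_cfcenter hL).1 (c2 (by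
        rw [← c3', (h.h3 φ2 φ a1 hφ (nonlin_of a1 le_rfl a3) ((Nat.pow_le_pow_iff_left
          two_ne_zero).1 (c3' ▸ c1)) (c4 ▸ e)).1])))))
    obtain ⟨e, h5, h6⟩ := SetLike.not_le_iff_exists.1 h3
    have h7 : e ∉ commStab Γ2[P] Γ3[P] := fun h7 => h6 ⟨h5.1, h7⟩
    have h8 : e ∉ M := fun h8 => h7 ((mem_commStab_iff (t3 h5.1)).2 ((commG1P'.2
      ((zpowers_le_of_mem h8).trans (h.Mc.trans (centS n2.1)))).trans_le bot_le))
    exact ⟨e, h5, h.cent_step h5.1 n3 t3 t4 l4 le_rfl (w3 e h5.1 fun h9 =>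
      h1 (fix_ker hφ h5.2 n4.1 h0 le_rfl (s4 e ⟨h5.1, h9⟩ h8))) (c3 e h5.1 h8 h7)⟩
  exact PT.four h.toPT0 a4.1 a5 ((mem_commStab_iff (t3 a4.1)).1 a4.2) hα (s3 t a4 a5) h4 h.g2L g3L
    z4 h.van (fun φ a b c => (v3 φ a b c).1) fun φ a b c => (v4 φ a b c).1

theorem PT.main (h : PT p P T M) :
    (∃ a b, ∀ φ, IsIrr P φ → charDegree φ ≠ 1 → (T ⊓ inertia P φ).relIndex T * charDegree φ = a ∨
      (T ⊓ inertia P φ).relIndex T * charDegree φ = b) ∧ D (D P) = ⊥ := by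
  by_cases h1 : ⁅Γ2[P], T⁆ ≤ Γ3[P]
  · obtain ⟨⟨a, h2⟩, h3⟩ := h.alpha h1
    exact ⟨⟨a, a, fun φ h4 h5 => .inl (h2 φ h4 h5)⟩, h3⟩
  · exact h.beta h1 (h.two.resolve_left h1)

theorem SB.typeC (h : SB p K N) (hP : Syl p P N) (ha : ¬ IsMulCommutative P)
    (hc : core {p}ᶜ N ≤ 𝐂[N]) : (∃ a b, ∀ n, Deg (⊤ : Subgroup G) n →
      n = 1 ∨ n = N.relIndex ⊤ ∨ n = a ∨ n = b) ∧ D (D (D (⊤ : Subgroup G))) = ⊥ := by
  set M := core {p}ᶜ N with hM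
  have hd : DProd M P N := (h.pnil.sdprod hP).dprod (centsC.1 (hc.trans (centS hP.le)))
  have hPn : P ⊴ ⊤ := char_normal_trans (hP.char hd.normal') h.Nn
  have hMn : M ⊴ ⊤ := h.Nn.core _
  have nP : ∀ g, g ∈ 𝐍[P] := fun g => hPn.2 trivial
  have nM : ∀ g, g ∈ 𝐍[M] := fun g => hMn.2 trivial
  obtain ⟨T, hs, hT⟩ := (hP.trans_index le_top h.cop).hall.exists_sdprod hPn
  have hMT : M ≤ T := hT.le_of_normal (pcore_pgroup _ N) hMn
  have hTN : T ⊓ N = M := ((sdprod_modl' hs hP.le le_top).eq_of_le_right hd.symm.sdprod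
    ((sub_Hall_pcore (hd.sdprod.hall_iff.2 ⟨pcore_pgroup _ N, by
      rw [compl_compl]; exact hP.hall.pi⟩) inf_le_right).2 (hT.pi.inf_left N)))
  have hi : ∀ l φ, IsIrr M l → IsIrr P φ → inertia N (cfDprod l φ) = inertia M l ⊓ inertia P φ :=
    fun l φ h1 h2 => Subgroup.ext fun g => hd.mem_inertia h1 h2 (nM g) (nP g)
  have hi1 : ∀ φ, IsIrr P φ → inertia N (cfDprod (cf1 M) φ) = inertia P φ := fun φ h1 => by
    rw [hi _ _ (isIrr_cf1 M) h1, inertia_cf1, eq_top_iff.2 hMn.2, top_inf_eq]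
  have hdeg : ∀ l φ, IsLin M l → IsIrr P φ → charDegree (cfDprod l φ) = charDegree φ :=
    fun l φ h1 h2 => charDegree_congr (by rw [hd.cfDprod_one h1.isCF h2.isCF, h1.one, one_mul])
  have hMa : IsMulCommutative M := abelian_iff.2 (hc.trans (centS hd.left_le))
  have hMZ : ⁅M, (⊤ : Subgroup G)⁆ ≤ ⊥ := by
    by_contra h1
    obtain ⟨l, h2, -, h3⟩ := exists_lin_le_cfker_not_le (derG1P.2 hMa).le bot_le
      (hMn.commg_le le_rfl) h1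
    obtain ⟨φ, h4⟩ := not_forall.1 (mt abelian_iff_forall_isLin.2 ha)
    obtain ⟨h4, h5⟩ := Classical.not_imp.1 h4
    have h6 := h.lin (hd.isLin h2 (isLin_cf1 P))
    rw [hi _ _ h2.isIrr (isIrr_cf1 P), inertia_cf1, eq_top_iff.2 hPn.2, inf_top_eq] at h6
    refine h.nl (hd.isIrr h2.isIrr h4) (by rw [hdeg _ _ h2 h4]; exact mt h4.isLin_iff.2 h5) ?_
    rw [hi _ _ h2.isIrr h4]
    exact inf_le_left.trans (h6.resolve_left fun e => h3 ((le_inertia_lin h2 hMn.2).1 e.ge)).le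
  have hNT : N ⊔ T = ⊤ := eq_top_iff.2 (hs.sup_eq.ge.trans (sup_le_sup_right hP.le T))
  have hTa : IsMulCommutative T := by
    refine cyclic_factor_abelian (le_inf hMT ((commG1P.1 (le_bot_iff.1 hMZ)).trans (centS le_top))) ?_
    obtain ⟨e⟩ := second_isog (X := T) (le_top.trans h.Nn.2)
    rw [inf_comm, hTN] at e
    exact e.isCyclic.2 (cyclicS (quotientS N le_top) h.cyc)
  have hder : D ⊤ ≤ P := hs.der_le hTa
  have hcop : ¬ p ∣ Nat.card T := piSub_compl.1 hT.pi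
  have h0 : PT0 p P T M := ⟨hP.pgroup, hs.norm, hcop, hTa, fun l hl => by
    rw [← hi1 l hl.isIrr]
    exact (h.lin (hd.isLin (isLin_cf1 M) hl)).imp (fun e => le_top.trans e.ge)
      fun e => by rw [e, hTN]⟩
  have hidx : ∀ φ, IsIrr P φ → (⊤ ⊓ inertia P φ).relIndex ⊤ = (T ⊓ inertia P φ).relIndex T :=
    fun φ hφ => by
      rw [inf_relIndex_left T, top_inf_eq, ← (hs.mulEq.mono hφ.isCF.sub_inertia le_top le_rfl
        le_top).relIndex_eq]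
  have hext : ∀ φ, IsIrr P φ → ∃ ψ, IsIrr (⊤ ⊓ inertia P φ) ψ ∧ Res P ψ = φ := fun φ hφ =>
    extend_coprime hφ (hφ.isCF.sub_Inertia le_top) inf_le_right (index_sdprod (sdprod_modl' hs
      (hφ.isCF.sub_Inertia le_top) le_top) ▸ h0.copS le_rfl inf_le_left)
  have hD : ∀ φ, IsIrr P φ → Deg (⊤ : Subgroup G) ((T ⊓ inertia P φ).relIndex T * charDegree φ) :=
    fun φ hφ => hidx φ hφ ▸ deg_ext1 hPn hφ (hext φ hφ)
  have hL : P ⊓ 𝐂[T] ⊔ Γ2[P] ≤ P := sup_le inf_le_left (der_sub P)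
  have hLn : P ⊓ 𝐂[T] ⊔ Γ2[P] ⊴ ⊤ := ⟨le_top, hs.sup_eq.ge.trans (sup_le
    (sub_der1_norm le_sup_right hL) (normsY (cents_norm (centsC.1 inf_le_right))
      (normsR hs.norm hs.norm)))⟩
  have hPT : PT p P T M := by
    refine ⟨h0, hd.cent', fun e => ?_, fun φ hφ h1 h2 => ?_, fun φ φ' hφ hφ' h1 h2 h3 => ?_,
      fun φ hφ h1 x hx => ?_⟩
    · obtain ⟨t, h1, h2⟩ := SetLike.not_le_iff_exists.1 fun e : T ≤ N => h.ne (by
        rw [← hNT, sup_eq_left.2 e])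
      refine h.lt.not_ge ((h.le_sup h2).trans (sup_le le_rfl ((commG1P'.2 ((zpowers_le_of_mem
        h1).trans ?_)).trans_le bot_le)))
      rw [← hd.sup_eq]
      exact centsY (sub_abelian_cent hTa hMT) e
    · refine h.nl (hd.isIrr (isIrr_cf1 M) hφ) (by rwa [hdeg _ _ (isLin_cf1 M) hφ]) ?_
      rw [hi1 φ hφ]
      exact (sdprod_modl' hs hφ.isCF.sub_inertia le_top).sup_eq.ge.trans
        (sup_le hP.le (h2.trans hd.left_le))
    · obtain ⟨a, ha⟩ := hφ.exists_charDegree_eq_pow hP.pgroup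
      obtain ⟨b, hb⟩ := hφ'.exists_charDegree_eq_pow hP.pgroup
      have h4 : charDegree φ ∣ charDegree φ' := by
        rw [ha, hb] at h2 ⊢; exact pow_dvd_pow p ((Nat.pow_le_pow_iff_right hp.out.one_lt).1 h2)
      have h5 := indexgS T h3
      have h6 := h.nd _ _ (hD φ hφ) (hD φ' hφ') (fun e => h1 (Nat.eq_one_of_mul_eq_one_left e))
        (mul_dvd_mul h5 h4)
      have h7 := Nat.le_of_dvd (relIndex_pos _ _) h5
      have h8 : charDegree φ = charDegree φ' := le_antisymm h2 (by_contra fun h8 =>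
        (Nat.mul_lt_mul_of_le_of_lt h7 (not_le.1 h8) (relIndex_pos _ _)).ne h6)
      refine ⟨h8, (eq_of_le_of_relIndex h3 ?_).ge⟩
      rw [h8] at h6
      have h9 := relIndex_mul_relIndex _ _ T h3 inf_le_left
      rw [← Nat.eq_of_mul_eq_mul_right hφ'.charDegree_pos h6] at h9
      exact Nat.eq_of_mul_eq_mul_right (relIndex_pos _ _) (h9.trans (one_mul _).symm)
    by_cases hxP : x ∈ P
    swap
    · exact hφ.isCF.off hxP
    set L := P ⊓ 𝐂[T] ⊔ Γ2[P] with hLe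
    have hLM : (M ⊔ L) ⊓ P = L := by
      rw [group_modr (le_top.trans hMn.2) hL, hd.inf_eq, bot_sup_eq]
    have := h.vanish' (K' := M ⊔ L) (x := x) (normalY hMn hLn) (by
        rw [hd.cprod.der, derG1P.2 hMa, bot_sup_eq]; exact le_sup_right.trans le_sup_right)
      (fun x hx n hn h2 => ?_) (hd.isIrr (isIrr_cf1 M) hφ) (by rwa [hdeg _ _ (isLin_cf1 M) hφ])
      fun e => hx (hLM.le ⟨e, hxP⟩)
    · rwa [hd.cfDprod_right (isCF_cf1 M) hφ.isCF hxP, cf1_one, one_mul] at this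
    obtain ⟨y, hy, t, ht, rfl⟩ := hs.exists_mul (x := x) trivial
    obtain ⟨m, hm, u, hu, rfl⟩ := hd.sdprod.exists_mul hn
    have ht' : t ∉ M := fun e => hx (mul_mem (hP.le hy) (hd.left_le e))
    have hK : ∀ g, g ∈ 𝐍[M ⊔ L] := fun g => (normalY hMn hLn).2 trivial
    have h3 : ⁅t, u⁆ ∈ L := by
      refine hLM.le ⟨?_, hder (mem_commg trivial trivial)⟩
      have e1 : ⁅y * t, m⁆ = 1 := mem_bot.1 (((commGC _ _).le.trans hMZ) (mem_commg trivial hm))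
      rw [commutatorElement_mul_right_eq_mul_conj, e1, one_mul, memJ_norm (hK m),
        commutatorElement_mul_left_eq_conj_mul, mul_mem_cancel_right
          (mem_sup_right (mem_sup_right (mem_commg hy hu))), memJ_norm (hK y)] at h2
      exact h2
    have h4 := zpowers_le_of_mem ht
    refine mul_mem (mem_sup_left hm) (mem_sup_right (((coprime_sub_join_cent hL
      (le_top.trans hLn.2) (h0.copS hL h4) (solOr_cycle _ t) (zpowers_le_of_mem hu)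
      (le_top.trans hLn.2) ((commGC _ _).le.trans (commg_cycles_le (hLn.2 trivial) (hLn.2 trivial)
        h3))).trans (sup_le le_rfl ?_)) (mem_zpowers u)))
    rw [cent_cycle]
    exact h0.cent_le ht ht'
  obtain ⟨⟨a, b, h1⟩, h2⟩ := hPT.main
  refine ⟨⟨a, b, fun n ⟨χ, h3, e⟩ => ?_⟩, le_bot_iff.1 (h2 ▸ dergS (dergS hder))⟩
  obtain ⟨φ, h4, h5⟩ := h3.exists_under (le_top (a := P))
  have h6 := ND.deg_over hPn h4 ((dergS le_top).trans hder) (hext φ h4) h3 h5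
  rw [e] at h6
  by_cases h7 : charDegree φ = 1
  · rw [h7, mul_one, top_inf_eq, ← hi1 φ h4] at h6
    rcases h.lin (hd.isLin (isLin_cf1 M) (h4.isLin_iff.2 h7)) with h8 | h8
    · left; rw [h6, h8, relIndex_self]
    · right; left; rw [h6, h8]
  · rw [hidx φ h4] at h6
    exact .inr (.inr (h6 ▸ h1 φ h4 h7))

end Cfsg.FT.ND
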