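import Cfsg.Agent.NDAD.SB
import Cfsg.Agent.Deg.PalfyC

/-! NDAD groups, normal nonabelian Sylow subgroup: character theoretic tools. -/

set_option autoImplicit false
set_option linter.unusedSectionVars false
set_option linter.style.haveILetI false

namespace Cfsg.FT.ND

open scoped Pointwise commutatorElement Classical ComplexConjugate
open Subgroup Gar

variable {G : Type*} [Group G] [Finite G] {A B C E H I K K' L M N P R S T V W X Y Z : Subgroup G}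
  {χ ψ θ φ φ' β l l' μ η : G → ℂ} {p n m : ℕ} {g x y e u s t w : G}

theorem le_of_forall_irr (hW : W ⊴ P) (hX : X ≤ P)
    (h : ∀ φ, IsIrr P φ → W ≤ cfker P φ → X ≤ cfker P φ) : X ≤ W := fun x hx => by_contra fun h1 => by
  obtain ⟨χ, h2, h3, h4⟩ := exists_irr_le_cfker_notMem hW (hX hx) h1
  exact h4 (h χ h2 h3 hx)

theorem commg_cfcenter_inertia (hS : S ≤ inertia P φ) : ⁅cfcenter P φ, S⁆ ≤ cfker P φ :=
  Subgroup.commutator_le.2 fun z hz s hs => by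
    obtain ⟨h1, c, hc⟩ := mem_cfcenter.1 hz
    have h2 := inertia_le_norm _ _ (hS hs)
    refine mem_cfker.2 ⟨?_, fun x => ?_⟩
    · rw [commutatorElement_def, mul_assoc z, mul_assoc z]
      exact mul_mem h1 ((memJ_norm h2).2 (inv_mem h1))
    · have h3 := hc (z⁻¹ * (s⁻¹ * x * s))
      have h4 := inertia_valJ (hS hs) (z⁻¹ * (s⁻¹ * x * s))
      have h5 := inertia_valJ (hS hs) (s⁻¹ * x * s)
      rw [show ⁅z, s⁆ * x = z * (s * (z⁻¹ * (s⁻¹ * x * s)) * s⁻¹) by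
        rw [commutatorElement_def]; group, hc, h4, ← h3, mul_inv_cancel_left, ← h5]
      congr 1; group

theorem mem_commStab_iff (hs : s ∈ 𝐍[W]) : s ∈ commStab Y W ↔ ⁅Y, ⟪s⟫⁆ ≤ W := by
  rw [← zpowers_le, le_commStab, commGC, and_iff_right (zpowers_le_of_mem hs)]

/-- Glauberman uniqueness -/
theorem uniq_fixed (hc : (Nat.card P).Coprime (orderOf e)) (hZ : P ⊓ 𝐂₁[e] ≤ Z)
    (hφ : IsIrr P φ) (hψ : IsIrr P ψ) (h1 : e ∈ inertia P φ) (h2 : e ∈ inertia P ψ)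
    (hη : IsLin Z η) (h3 : Res Z φ = φ 1 • η) (h4 : Res Z ψ = ψ 1 • η) : φ = ψ := by
  haveI := Fintype.ofFinite ↥(P ⊓ 𝐂[⟪e⟫])
  obtain ⟨f, hf⟩ := constBij_of_isSolvable (S := ⟪e⟫) (G := P) (C := P ⊓ 𝐂[⟪e⟫]) inferInstance
    (zpowers_le_of_mem (inertia_le_norm _ _ h1)) (by rwa [Nat.card_zpowers]) rfl inf_le_left
  have hC : P ⊓ 𝐂[⟪e⟫] ≤ Z := by rwa [cent_cycle]
  have hη' := (hη.Res hC).isIrr
  have key : ∀ {χ : G → ℂ} (hχ : IsIrr P χ) (h1 : e ∈ inertia P χ) (_ : Res Z χ = χ 1 • η),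
      ∃ h : ∀ s ∈ ⟪e⟫, CharInv s hχ.toIrr.1, (f ⟨_, h⟩).1 = hη'.toIrr := fun {χ} hχ h1 h3 => by
    have h : ∀ s ∈ ⟪e⟫, CharInv s hχ.toIrr.1 := fun s hs g g' e => by
      rw [hχ.toIrr_apply, hχ.toIrr_apply, e, inertia_valJ (zpowers_le_of_mem h1 hs)]
    refine ⟨h, ?_⟩
    · have h5 := hf ⟨_, h⟩
      have h6 := isIrr_extendByZero (f ⟨_, h⟩).1
      rw [← toIrr_extendByZero (f ⟨_, h⟩).1, h6.toIrr_inj]
      refine (hη'.eq_of_dot_ne_zero h6 fun h7 => h5 ?_).symm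
      have h8 : dot (P ⊓ 𝐂[⟪e⟫]) χ (extendByZero _ (f ⟨_, h⟩).1.1) = 0 := by
        rw [← dot_Res_left_of_le hC, h3, dot_smul_left, ← dot_Res_left, h7, mul_zero]
      rw [dot_eq] at h8
      convert h8 using 2
      exacts [rfl, funext fun n => (extendByZero_coe _ _ n).symm]
  obtain ⟨a, ha⟩ := key hφ h1 h3
  obtain ⟨b, hb⟩ := key hψ h2 h4
  exact (hφ.toIrr_inj hψ).1 (congrArg Subtype.val (f.injective (Subtype.ext (ha.trans hb.symm))))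

/-- conjugacy modulo a normal subgroup -/
theorem comm_mod (hW : W ⊴ P) (hu : u ∈ P) (hw : w ∈ P)
    (h : ∀ φ, IsIrr P φ → W ≤ cfker P φ → φ u⁻¹ = φ (u⁻¹ * w)) : ∃ y ∈ P, ⁅u, y⁆ * w⁻¹ ∈ W := by
  obtain ⟨g, hg, h1⟩ := exists_conj_of_forall_irr (L := P ⁄ W) (x := coset W u⁻¹)
    (y := coset W (u⁻¹ * w)) (mem_quotient W (inv_mem hu)) fun χ hχ => by
      have := h _ (hχ.cfMod hW.2) (cfker_mod hW χ)
      rwa [cfMod_of_mem _ (inv_mem hu), cfMod_of_mem _ (mul_mem (inv_mem hu) hw)] at this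
  obtain ⟨y, hy, h2, rfl⟩ := mem_quo.1 hg
  rw [← coset_conj h2 (hW.2 (inv_mem hu)), eq_comm, coset_eq_iff' (hW.2 (mul_mem (mul_mem hy
    (inv_mem hu)) (inv_mem hy))) (hW.2 (mul_mem (inv_mem hu) hw))] at h1
  refine ⟨y, hy, ?_⟩
  convert hW.conj_mem hu h1 using 1
  rw [commutatorElement_def]; group

theorem vanish_bound (hφ : IsIrr P φ) (hL : L ≤ P) (h : ∀ x, x ∉ L → φ x = 0) :
    L.relIndex P ≤ charDegree φ ^ 2 ∧ (charDegree φ ^ 2 = L.relIndex P → L ≤ cfcenter P φ) := by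
  have h1 := dot_Res_on (φ := φ) (ψ := φ) hL fun x _ hx => .inl (h x hx)
  rw [hφ.dot_self, mul_one, dot_self] at h1
  have h2 : nsq L φ = L.relIndex P := by exact_mod_cast h1
  haveI := Fintype.ofFinite L
  have h3 : (0 : ℝ) < Nat.card L := by exact_mod_cast Nat.card_pos
  have h4 : ∑ x : L, ‖φ x‖ ^ 2 = ∑ _x : L, (L.relIndex P : ℝ) := by
    rw [← h2, nsq_eq_sum, Finset.sum_const, Finset.card_univ, ← Nat.card_eq_fintype_card,
      nsmul_eq_mul, mul_inv_cancel_left₀ h3.ne']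
  have h5 : ∀ x : L, ‖φ x‖ ^ 2 ≤ (charDegree φ : ℝ) ^ 2 := fun x =>
    pow_le_pow_left₀ (norm_nonneg _) (hφ.isChar.norm_le x) 2
  refine ⟨by_contra fun h6 => ?_, fun h6 x hx => hφ.isChar.mem_cfcenter.2 ⟨hL hx, ?_⟩⟩
  · have h7 : (charDegree φ : ℝ) ^ 2 < L.relIndex P := by exact_mod_cast not_le.1 h6
    exact (Finset.sum_lt_sum_of_nonempty Finset.univ_nonempty fun x _ => (h5 x).trans_lt h7).ne h4
  · have h7 : (L.relIndex P : ℝ) = (charDegree φ : ℝ) ^ 2 := by exact_mod_cast h6.symm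
    rw [h7] at h4
    exact (pow_left_inj₀ (norm_nonneg _) (Nat.cast_nonneg _) two_ne_zero).1
      ((Finset.sum_eq_sum_iff_of_le fun x _ => h5 x).1 h4 ⟨x, hx⟩ (Finset.mem_univ _))

theorem fpf_cent (hB : T ≤ 𝐍[B]) (hC : T ≤ 𝐍[C]) (hCB : C ≤ B) (ha : ⁅B, B⁆ ≤ C)
    (hc : (Nat.card B).Coprime (Nat.card T)) (h : B ≤ ⁅B, T⁆ ⊔ C) : B ⊓ 𝐂[T] ≤ C := by
  have h1 : B ≤ 𝐍[C] := sub_der1_norm ha hCB
  rw [← quotient_sub1 (inf_le_left.trans h1), eq_bot_iff,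
    ← coprime_abel_cent_TI (quotient_norms C hB) (coprime_quo2 C hc) (sub_der1_abelian ha)]
  refine (quotient_subcent B T C).trans (inf_le_inf_right _ ?_)
  rw [← quotientR h1 hC, quotientSK h1 ((commg_subl.2 hB).trans h1), sup_comm]
  exact h

theorem cfConj_comm (ha : IsMulCommutative T) (hs : s ∈ T) (ht : t ∈ T) (h : t ∈ inertia P φ)
    (hn : s ∈ 𝐍[P]) : t ∈ inertia P (cfConj s φ) := by
  rw [inertia_cfConj_norm hn, mem_conj, mul_assoc, ← comm_of_abelian ha hs ht, inv_mul_cancel_left]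
  exact h

theorem antichain (ha : IsMulCommutative T) (hY : T ≤ 𝐍[Y]) (hW : T ≤ 𝐍[W])
    (h : ∀ l l', IsLin Y l → W ≤ cfker Y l → l ≠ cf1 Y → IsLin Y l' → W ≤ cfker Y l' → l' ≠ cf1 Y →
      T ⊓ inertia Y l ≤ T ⊓ inertia Y l' → T ⊓ inertia Y l' ≤ T ⊓ inertia Y l)
    (h1 : IsLin Y l) (h2 : W ≤ cfker Y l) (h3 : l ≠ cf1 Y) (h4 : IsLin Y l') (h5 : W ≤ cfker Y l')
    (h6 : l' ≠ cf1 Y) : T ⊓ inertia Y l ≤ T ⊓ inertia Y l' := by
  by_contra h7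
  have h8 : ¬ T ⊓ inertia Y l' ≤ T ⊓ inertia Y l := fun e => h7 (h _ _ h4 h5 h6 h1 h2 h3 e)
  have hm : ∀ {a b : G → ℂ}, IsLin Y a → IsCF Y b →
      inertia Y a ⊓ inertia Y (a * b) ≤ inertia Y b := fun {a b} ha hb => by
    have := inertia_mul (H := Y) (star a) (a * b)
    rwa [ha.star_mul_cancel hb, inertia_star] at this
  have k1 := h1.mul h4
  have k2 : W ≤ cfker Y (l * l') := (le_inf h2 h5).trans (cfker_mul _ _ _)
  have k3 : l * l' ≠ cf1 Y := fun e => h7 (inf_le_inf_left T fun x hx =>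
    hm h1 h4.isCF ⟨hx, by rw [e, inertia_cf1]; exact inertia_le_norm _ _ hx⟩)
  refine h7 fun t ht => ⟨ht.1, by_contra fun h9 => ?_⟩
  have n1 := (h4.cfConj_norm (hY ht.1)).mul h4.star
  have n2 : W ≤ cfker Y (cfConj t l' * star l') := (le_inf ((le_cfker_cfConj (hY ht.1)
    (hW ht.1)).2 h5) (by rwa [cfker_star])).trans (cfker_mul _ _ _)
  have n3 : cfConj t l' * star l' ≠ cf1 Y := fun e => h9 (mem_inertia.2 ⟨hY ht.1,
    ((h4.cfConj_norm (hY ht.1)).mul_star_eq_cf1 h4).1 e⟩)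
  have hf : ∀ a : G → ℂ, T ⊓ inertia Y a ≤ T ⊓ inertia Y (cfConj t a * star a) := fun a s hs =>
    ⟨hs.1, inertia_mul _ _ ⟨cfConj_comm ha ht.1 hs.1 hs.2 (hY ht.1), by
      rw [inertia_star]; exact hs.2⟩⟩
  have n4 : cfConj t (l * l') * star (l * l') = cfConj t l' * star l' := by
    rw [cfConj_mul, inertiaJ ht.2, star_mul', mul_mul_mul_comm, h1.mul_star, cf1_mul, n1.isCF.Res_eq]
  have n6 := h _ _ k1 k2 k3 n1 n2 n3 (n4 ▸ hf _)
  exact h8 fun s hs => ⟨hs.1, hm h4 h1.isCF ⟨hs.2, by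
    rw [mul_comm]; exact (n6 (hf l' hs)).2⟩⟩

end Cfsg.FT.ND
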