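import Cfsg.Agent.NDAD.C1

/-! NDAD groups, normal nonabelian Sylow subgroup: abstract setting and the level lemma. -/

set_option autoImplicit false
set_option linter.unusedSectionVars false
set_option linter.style.haveILetI false
set_option maxHeartbeats 400000

namespace Cfsg.FT.ND

open scoped Pointwise commutatorElement Classical ComplexConjugate
open Subgroup Gar

variable {G : Type*} [Group G] [Finite G] {A B C E H I K K' L M N P R S T V W X Y Z : Subgroup G}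
  {χ ψ θ φ φ' β l l' μ η : G → ℂ} {p n m : ℕ} {g x y e u s t w : G}

structure PT0 (p : ℕ) (P T M : Subgroup G) : Prop where
  pP : IsPGroup p P
  nT : T ≤ 𝐍[P]
  cop : ¬ p ∣ Nat.card T
  ab : IsMulCommutative T
  lin : ∀ l, IsLin P l → T ≤ inertia P l ∨ T ⊓ inertia P l ≤ M

structure PT (p : ℕ) (P T M : Subgroup G) : Prop extends PT0 p P T M where
  Mc : M ≤ 𝐂[P]
  nc : ¬ T ≤ 𝐂[P]
  nl : ∀ φ, IsIrr P φ → charDegree φ ≠ 1 → ¬ T ⊓ inertia P φ ≤ M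
  h3 : ∀ φ φ', IsIrr P φ → IsIrr P φ' → charDegree φ ≠ 1 → charDegree φ ≤ charDegree φ' →
    T ⊓ inertia P φ' ≤ T ⊓ inertia P φ →
      charDegree φ = charDegree φ' ∧ T ⊓ inertia P φ ≤ T ⊓ inertia P φ'
  van : ∀ φ, IsIrr P φ → charDegree φ ≠ 1 → ∀ x, x ∉ P ⊓ 𝐂[T] ⊔ ⁅P, P⁆ → φ x = 0

theorem sl3 (hφ : IsIrr P φ) (ht : t ∈ inertia P φ) (hX : X ≤ P ⊓ 𝐂₁[t])
    (h : ⁅P, X⁆ ≤ cfcenter P φ) : ⁅⁅P, ⟪t⟫⁆, X⁆ ≤ cfker P φ :=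
  three_subgroup_mod ((zpowers_le_of_mem ht).trans (inertia_le_norm_cfker _ _))
    ((hX.trans inf_le_left).trans hφ.isCF.cfker_normal.2) hφ.isCF.cfker_normal.2
    (by rw [commG1P'.2 ((hX.trans inf_le_right).trans (cent_cycle t).ge), commutator_bot_left]
        exact bot_le)
    ((commSg _ (commGC X P ▸ h)).trans (commg_cfcenter_inertia (zpowers_le_of_mem ht)))

theorem fix_ker (hφ : IsIrr P φ) (ht : t ∈ inertia P φ) (hB : B ≤ P) (hW : W ≤ cfker P φ)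
    (h1 : ⁅B, P⁆ ≤ W) (h2 : B ≤ ⁅B, ⟪t⟫⁆ ⊔ W) : B ≤ cfker P φ :=
  h2.trans (sup_le ((commSg _ ((hφ.le_cfcenter hB).2 (h1.trans hW))).trans
    (commg_cfcenter_inertia (zpowers_le_of_mem ht))) hW)

theorem nonlin_of (hφ : IsIrr P φ) (hY : Y ≤ ⁅P, P⁆) (h : ¬ Y ≤ cfker P φ) : charDegree φ ≠ 1 :=
  fun e => h (hY.trans (hφ.isLin_iff.2 e).der_le_cfker)

theorem norm_of_commg (h : ⁅B, P⁆ ≤ K) (hK : K ≤ B) : P ≤ 𝐍[K] :=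
  commg_subl.1 ((commSg P hK).trans h)

variable [hp : Fact p.Prime]

namespace PT0

theorem copS (h : PT0 p P T M) (hX : X ≤ P) (hS : S ≤ T) : (Nat.card X).Coprime (Nat.card S) :=
  coprime_pgroup (h.pP.to_le hX) fun e => h.cop (e.trans (card_dvd_of_le hS))

theorem sup_eq (h : PT0 p P T M) (hX : X ≤ P) (hS : S ≤ T) (hn : S ≤ 𝐍[X]) :
    ⁅X, S⁆ ⊔ (X ⊓ 𝐂[S]) = X :=
  coprime_cent_prod hn (h.copS hX hS) (.inl (pgroup_sol (h.pP.to_le hX)))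

theorem commg_le (h : PT0 p P T M) (ht : t ∈ T) (ht' : t ∉ M) : ⁅P, T⁆ ≤ ⁅P, P⁆ ⊔ ⁅P, ⟪t⟫⁆ := by
  by_contra h1
  obtain ⟨l, h2, h3, h4⟩ := exists_lin_le_cfker_not_le le_sup_left
    (sup_le (der_sub P) (commg_subl.2 ((zpowers_le_of_mem ht).trans h.nT))) (commg_subl.2 h.nT) h1
  exact (h.lin l h2).elim (fun e => h4 ((le_inertia_lin h2 h.nT).1 e))
    fun e => ht' (e ⟨ht, (mem_inertia_lin h2 (h.nT ht)).2 (le_sup_right.trans h3)⟩)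

theorem cent_le (h : PT0 p P T M) (ht : t ∈ T) (ht' : t ∉ M) :
    P ⊓ 𝐂₁[t] ≤ P ⊓ 𝐂[T] ⊔ ⁅P, P⁆ := fun u hu => by
  have h0 := zpowers_le_of_mem ht
  have h1 : ⟪t⟫ ≤ 𝐍[P] := h0.trans h.nT
  have h2 : ⁅P, P⁆ ⊔ ⁅P, ⟪t⟫⁆ ≤ P := sup_le (der_sub P) (commg_subl.2 h1)
  have h3 := fpf_cent (B := ⁅P, P⁆ ⊔ ⁅P, ⟪t⟫⁆) (normsY (normsR h1 h1) (commg_normr _ _))
    (normsR h1 h1) le_sup_left (dergS h2) (h.copS h2 h0) (sup_le le_sup_right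
      ((coprime_commGid h1 (h.copS le_rfl h0)).ge.trans ((commSg _ le_sup_right).trans le_sup_left)))
  obtain ⟨q, hq, c, hc, rfl⟩ := (mem_join_norm (inf_le_left.trans (commg_norml P T))).1
    ((h.sup_eq le_rfl le_rfl h.nT).ge hu.1)
  refine mul_mem (mem_sup_right (h3 ⟨h.commg_le ht ht' hq, ?_⟩)) (mem_sup_left hc)
  rw [cent_cycle]
  exact (mul_mem_cancel_right (cent_le_cent1 ht hc.2)).1 hu.2

theorem cent_step (h : PT0 p P T M) (he : e ∈ T) (hY : Y ⊴ P) (hYT : T ≤ 𝐍[Y]) (hWT : T ≤ 𝐍[W])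
    (hWY : W ≤ Y) (hYW : ⁅Y, P⁆ ≤ W) (h1 : Y ≤ ⁅Y, ⟪e⟫⁆ ⊔ W) (h2 : P ⊓ 𝐂₁[e] ≤ P ⊓ 𝐂[T] ⊔ Y) :
    P ⊓ 𝐂₁[e] ≤ P ⊓ 𝐂[T] ⊔ W := fun u hu => by
  have h0 := zpowers_le_of_mem he
  have h3 := fpf_cent (h0.trans hYT) (h0.trans hWT) hWY ((commgS Y hY.1).trans hYW)
    (h.copS hY.1 h0) h1
  obtain ⟨q, hq, c, hc, rfl⟩ := (mem_join_norm (inf_le_left.trans hY.2)).1
    ((h2.trans (sup_comm _ _).le) hu)
  refine mul_mem (mem_sup_right (h3 ⟨hq, ?_⟩)) (mem_sup_left hc)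
  rw [cent_cycle]
  exact (mul_mem_cancel_right (cent_le_cent1 he hc.2)).1 hu.2

theorem step (h : PT0 p P T M) (ht : t ∈ T) (ht' : t ∉ M) (hA : A ⊴ P) (hAT : T ≤ 𝐍[A])
    (h1 : ⁅A, ⟪t⟫⁆ ≤ ⁅A, P⁆) (h2 : ⁅A, P ⊓ 𝐂[T] ⊔ ⁅P, P⁆⁆ ≤ ⁅⁅A, P⁆, P⁆) :
    ⁅A, P⁆ ≤ ⁅⁅A, P⁆, ⟪t⟫⁆ ⊔ ⁅⁅A, P⁆, P⁆ := by
  have h0 := zpowers_le_of_mem ht
  set B := ⁅A, P⁆ with hB
  set K := ⁅B, ⟪t⟫⁆ ⊔ ⁅B, P⁆ with hK
  have hBP : B ≤ P := comm_subG hA.1 le_rfl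
  have hKB : K ≤ B := sup_le (commg_subl.2 (h0.trans (normsR hAT h.nT)))
    (commg_subl.2 (commg_normr _ _))
  have hP : P ≤ 𝐍[K] := norm_of_commg le_sup_right hKB
  have hC : A ⊓ 𝐂[⟪t⟫] ≤ P := inf_le_left.trans hA.1
  have h3 : ⁅⁅P, ⟪t⟫⁆, A ⊓ 𝐂[⟪t⟫]⁆ ≤ K := three_subgroup_mod (norm_of_commg le_sup_left hKB)
    (hC.trans hP) hP (by rw [commG1P'.2 inf_le_right, commutator_bot_left]; exact bot_le)
    ((commSg _ (commSg _ inf_le_left)).trans le_sup_left)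
  have h4 : ∀ X ≤ P ⊓ 𝐂[T] ⊔ ⁅P, P⁆, ⁅X, A ⊓ 𝐂[⟪t⟫]⁆ ≤ K := fun X hX => commGC _ X ▸
    (commgSS inf_le_left hX).trans (h2.trans le_sup_right)
  have h5 : ⁅P, ⟪t⟫⁆ ≤ P := commg_subl.2 (h0.trans h.nT)
  have h6 : ⁅P, A ⊓ 𝐂[⟪t⟫]⁆ ≤ K := (commSg _ ((h.sup_eq le_rfl le_rfl h.nT).ge.trans
    (sup_le_sup_right (h.commg_le ht ht') _))).trans (commg_sup_le
      ((sup_le (der_sub P) h5).trans hP) (inf_le_left.trans hP) (commg_sup_le ((der_sub P).trans hP)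
        (h5.trans hP) (h4 _ le_sup_right) h3) (h4 _ le_sup_left))
  exact (commSg P ((h.sup_eq hA.1 h0 (h0.trans hAT)).ge.trans (sup_le_sup_right h1 _))).trans
    (commg_sup_le (hBP.trans hP) (hC.trans hP) le_sup_right (commGC P _ ▸ h6))

end PT0

namespace PT

theorem slem (h : PT p P T M) (hXY : ⁅P, P ⊓ 𝐂[T]⁆ ≤ Y) (hY : Y ≤ ⁅P, P⁆) (hYW : ⁅Y, P⁆ ≤ W)
    (hW : W ⊴ P) (h2 : ⁅⁅P, P⁆, P ⊓ 𝐂[T]⁆ ≤ W) : ⁅⁅P, T⁆, P ⊓ 𝐂[T]⁆ ≤ W := by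
  have h0 : ⁅P, T⁆ ≤ P := commg_subl.2 h.nT
  refine le_of_forall_irr hW (comm_subG h0 inf_le_left) fun φ hφ h1 => ?_
  by_cases h3 : Y ≤ cfker P φ
  · exact (commSg _ h0).trans (hXY.trans h3)
  obtain ⟨t, ht, ht'⟩ := SetLike.not_le_iff_exists.1 (h.nl φ hφ (nonlin_of hφ hY h3))
  have hn := hφ.isCF.cfker_normal.2
  exact (commSg _ (h.commg_le ht.1 ht')).trans (commg_sup_le ((der_sub P).trans hn)
    ((commg_subl.2 ((zpowers_le_of_mem ht.1).trans h.nT)).trans hn) (h2.trans h1)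
    (sl3 hφ ht.2 (inf_le_inf_left P (cent_le_cent1 ht.1)) (hXY.trans
      ((hφ.le_cfcenter (hY.trans (der_sub P))).2 (hYW.trans h1)))))

theorem slem' (h : PT p P T M) (hXY : ⁅P ⊓ 𝐂[T], P⁆ ≤ Y) (hY : Y ≤ ⁅P, P⁆) (hYW : ⁅Y, P⁆ ≤ W)
    (hW : W ⊴ P) (h2 : ⁅⁅P, P⁆, P ⊓ 𝐂[T]⁆ ≤ W) (h3 : Y ⊓ 𝐂[T] ≤ W) : ⁅P ⊓ 𝐂[T] ⊔ Y, P⁆ ≤ W := by
  refine commg_sup_le (inf_le_left.trans hW.2) ((hY.trans (der_sub P)).trans hW.2) ?_ hYW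
  rw [commGC]
  exact (commSg _ (h.sup_eq le_rfl le_rfl h.nT).ge).trans (commg_sup_le
    ((commg_subl.2 h.nT).trans hW.2) (inf_le_left.trans hW.2)
    (h.slem (commGC _ P ▸ hXY) hY hYW hW h2) ((le_inf ((commgS _ inf_le_left).trans hXY)
      ((der_sub _).trans inf_le_right)).trans h3))

/-- fully ramified characters -/
theorem fr (h : PT p P T M) (hYT : T ≤ 𝐍[Y]) (hWY : W ≤ Y) (hY : Y ≤ P)
    (hZ : ⁅P ⊓ 𝐂[T] ⊔ Y, P⁆ ≤ W) (hE : ∀ φ, IsIrr P φ → W ≤ cfker P φ → ¬ Y ≤ cfker P φ →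
      ∃ e ∈ T ⊓ inertia P φ, P ⊓ 𝐂₁[e] ≤ P ⊓ 𝐂[T] ⊔ Y)
    (hφ : IsIrr P φ) (h1 : W ≤ cfker P φ) (h2 : ¬ Y ≤ cfker P φ) :
    (∀ x, x ∉ P ⊓ 𝐂[T] ⊔ Y → φ x = 0) ∧ charDegree φ ^ 2 = (P ⊓ 𝐂[T] ⊔ Y).relIndex P ∧
      ∀ s ∈ T, s ∈ inertia P φ ↔ ⁅Y, ⟪s⟫⁆ ≤ cfker P φ := by
  set Z := P ⊓ 𝐂[T] ⊔ Y with hZe
  have hZP : Z ≤ P := sup_le inf_le_left hY
  have hYZ : Y ≤ Z := le_sup_right
  have hZn : P ≤ 𝐍[Z] := norm_of_commg (hZ.trans (hWY.trans hYZ)) le_rfl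
  have hZT : T ≤ 𝐍[Z] := normsY (cents_norm (centsC.1 inf_le_right)) hYT
  have hZc := (hφ.le_cfcenter hZP).2 (hZ.trans h1)
  obtain ⟨η, a1, a2, -, a3⟩ := hφ.isChar.exists_lin_of_le_cfcenter hφ.ne_zero hZc
  have hI : P ≤ inertia Z η := (le_inertia_lin a1 hZn).2
    (a3 ▸ le_inf (hZ.trans (hWY.trans hYZ)) (hZ.trans h1))
  have b1 : ∀ ψ, IsIrr P ψ → dot Z ψ η ≠ 0 → Res Z ψ = ψ 1 • η := fun ψ hψ h0 => by
    simpa only [a1.one, div_one] using clifford_invariant' hZP hψ a1.isIrr hI h0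
  have b2 : ∀ ψ, IsIrr P ψ → Res Z ψ = ψ 1 • η →
      ∃ e ∈ T ⊓ inertia P ψ, P ⊓ 𝐂₁[e] ≤ Z := fun ψ hψ h0 => by
    have : Z ⊓ cfker P ψ = Z ⊓ cfker P φ := by
      rw [← hψ.isChar.cfker_Res hZP, h0, cfker_smul hψ.one_ne_zero, a3]
    exact hE ψ hψ ((le_inf (hWY.trans hYZ) h1).trans (this.ge.trans inf_le_right))
      fun e => h2 ((le_inf hYZ e).trans (this.le.trans inf_le_right))
  have hc : ∀ e ∈ T, (Nat.card P).Coprime (orderOf e) := fun e he => by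
    rw [← Nat.card_zpowers]; exact h.copS le_rfl (zpowers_le_of_mem he)
  have b3 : ∀ s ∈ T, s ∈ inertia Z η → s ∈ inertia P φ := fun s hs hs' => by
    obtain ⟨e, he, h3⟩ := b2 φ hφ a2
    refine mem_inertia.2 ⟨h.nT hs, uniq_fixed (hc e he.1) h3 (hφ.cfConj_norm (h.nT hs)) hφ
      (cfConj_comm h.ab hs he.1 he.2 (h.nT hs)) he.2 a1 ?_ a2⟩
    rw [← cfConj_Res_norm (hZT hs), a2, cfConj_smul, inertiaJ hs', cfConj_apply_one]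
  have b4 : ∀ ψ, IsIrr P ψ → dot Z ψ η ≠ 0 → ψ = φ := fun ψ hψ h0 => by
    obtain ⟨e, he, h3⟩ := b2 ψ hψ (b1 ψ hψ h0)
    refine uniq_fixed (hc e he.1) h3 hψ hφ he.2 (b3 e he.1 ?_) a1 (b1 ψ hψ h0) a2
    rw [← inertia_smul hψ.one_ne_zero, ← b1 ψ hψ h0]
    exact inertia_le_inertia_Res ψ ⟨he.2, hZT he.1⟩
  have b5 : ∀ x, x ∉ Z → φ x = 0 := fun x hx => by
    have h3 := (Ind_normal_on hZn η).2 x hx
    rw [Ind_eq_sum_over hZP, Finset.sum_eq_single φ (fun ψ hψ h4 => by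
      rw [dot_symm_zero (by_contra fun h5 => h4 (b4 ψ (mem_irr.1 hψ) h5)), zero_smul])
      fun h4 => (h4 (mem_irr.2 hφ)).elim, Pi.smul_apply, smul_eq_mul, mul_eq_zero] at h3
    refine h3.resolve_left fun h4 => hφ.one_ne_zero ?_
    have h5 := dot_symm_zero h4
    rwa [← dot_Res_left, a2, dot_smul_left, a1.isIrr.dot_self, mul_one] at h5
  refine ⟨b5, (hφ.sq_charDegree_eq_iff hZc).2 ⟨hφ.isCF, b5⟩, fun s hs => ⟨fun h3 => (commSg _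
    (hYZ.trans hZc)).trans (commg_cfcenter_inertia (zpowers_le_of_mem h3)), fun h3 => b3 s hs ?_⟩⟩
  have h4 := zpowers_le_of_mem hs
  refine (mem_inertia_lin a1 (hZT hs)).2 (a3 ▸ le_inf (commg_subl.2 (h4.trans hZT)) ?_)
  have hn := hφ.isCF.cfker_normal.2
  refine commg_sup_le (inf_le_left.trans hn) (hY.trans hn) ?_ h3
  rw [commG1P.2 (inf_le_right.trans (centS h4))]
  exact bot_le

/-- the level lemma -/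
theorem level (h : PT p P T M) (hYT : T ≤ 𝐍[Y]) (hWT : T ≤ 𝐍[W]) (hWY : W ≤ Y) (hY : Y ≤ ⁅P, P⁆)
    (hZ : ⁅P ⊓ 𝐂[T] ⊔ Y, P⁆ ≤ W) (hE : ∀ φ, IsIrr P φ → W ≤ cfker P φ → ¬ Y ≤ cfker P φ →
      ∃ e ∈ T ⊓ inertia P φ, P ⊓ 𝐂₁[e] ≤ P ⊓ 𝐂[T] ⊔ Y) :
    (∀ φ, IsIrr P φ → W ≤ cfker P φ → ¬ Y ≤ cfker P φ → (∀ x, x ∉ P ⊓ 𝐂[T] ⊔ Y → φ x = 0) ∧
      charDegree φ ^ 2 = (P ⊓ 𝐂[T] ⊔ Y).relIndex P ∧ T ⊓ inertia P φ = T ⊓ commStab Y W) ∧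
      ∀ s ∈ T, s ∉ commStab Y W → Y ≤ ⁅Y, ⟪s⟫⁆ ⊔ W := by
  have hYP := hY.trans (der_sub P)
  have hYW : ⁅Y, P⁆ ≤ W := (commSg P le_sup_right).trans hZ
  have hf := fun φ => h.fr (φ := φ) hYT hWY hYP hZ hE
  have a1 : ∀ φ l, IsIrr P φ → IsLin Y l → W ≤ cfker Y l → l ≠ cf1 Y → dot Y φ l ≠ 0 →
      W ≤ cfker P φ ∧ ¬ Y ≤ cfker P φ ∧ T ⊓ inertia P φ = T ⊓ inertia Y l :=
    fun φ l hφ h1 h2 h3 h4 => by
    have h5 : cfker Y l = Y ⊓ cfker P φ := by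
      rw [← hφ.isChar.cfker_Res hYP, clifford_invariant' hYP hφ h1.isIrr ((le_inertia_lin h1
        (norm_of_commg (hYW.trans hWY) le_rfl)).2 (hYW.trans h2)) h4, cfker_smul]
      rw [h1.one, div_one]; exact hφ.one_ne_zero
    have h6 : W ≤ cfker P φ := h2.trans (h5.le.trans inf_le_right)
    have h7 : ¬ Y ≤ cfker P φ := fun e => h3 (h1.isIrr.le_cfker_self.1 (h5 ▸ le_inf le_rfl e))
    refine ⟨h6, h7, Subgroup.ext fun s => and_congr_right fun hs => ?_⟩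
    show s ∈ inertia P φ ↔ s ∈ inertia Y l
    rw [(hf φ hφ h6 h7).2.2 s hs, mem_inertia_lin h1 (hYT hs), h5,
      le_inf_iff, and_iff_right (commg_subl.2 ((zpowers_le_of_mem hs).trans hYT))]
  have a2 := fun l l' => antichain (l := l) (l' := l') h.ab hYT hWT
    fun l l' h1 h2 h3 h4 h5 h6 h7 => by
      obtain ⟨φ, b1, b2⟩ := h1.isIrr.exists_over hYP
      obtain ⟨φ', b3, b4⟩ := h4.isIrr.exists_over hYP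
      obtain ⟨c1, c2, c3⟩ := a1 φ l b1 h1 h2 h3 b2
      obtain ⟨c4, c5, c6⟩ := a1 φ' l' b3 h4 h5 h6 b4
      rw [← c3, ← c6] at h7 ⊢
      exact (h.h3 φ' φ b3 b1 (nonlin_of b3 hY c5) ((Nat.pow_left_injective two_ne_zero
        ((hf φ' b3 c4 c5).2.1.trans (hf φ b1 c1 c2).2.1.symm)).le) h7).2
  have a3 : ∀ φ, IsIrr P φ → W ≤ cfker P φ → ¬ Y ≤ cfker P φ →
      T ⊓ inertia P φ = T ⊓ commStab Y W := fun φ hφ h1 h2 => by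
    refine le_antisymm (fun s hs => ⟨hs.1, (mem_commStab_iff (hWT hs.1)).2 (by_contra fun h3 => ?_)⟩)
      fun s hs => ⟨hs.1, ((hf φ hφ h1 h2).2.2 s hs.1).2 (((mem_commStab_iff (hWT hs.1)).1 hs.2).trans h1)⟩
    have h4 : ⁅Y, ⟪s⟫⁆ ≤ Y := commg_subl.2 ((zpowers_le_of_mem hs.1).trans hYT)
    obtain ⟨l', b1, b2, b3⟩ := exists_lin_le_cfker_not_le ((commgS Y hYP).trans hYW) hWY h4 h3
    obtain ⟨l, b4, b5, b6⟩ := exists_under_ne_cf1 ⟨hYP, norm_of_commg (hYW.trans hWY) le_rfl⟩ hφ h2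
    have b7 := IsIrr.cfker_le_of_under hφ.isChar hYP b4 b6
    have b8 : W ≤ cfker Y l := (le_inf hWY h1).trans b7
    have b9 := b4.isLin_of_le_cfker ((commgS Y hYP).trans hYW) b8
    rw [(a1 φ l hφ b9 b8 b5 b6).2.2] at hs
    exact b3 ((mem_inertia_lin b1 (hYT hs.1)).1 (a2 l l' b9 b8 b5 b1 b2
      (fun e => b3 (h4.trans (e ▸ (cfker_cf1 Y).ge))) hs).2)
  refine ⟨fun φ hφ h1 h2 => ⟨(hf φ hφ h1 h2).1, (hf φ hφ h1 h2).2.1, a3 φ hφ h1 h2⟩,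
    fun s hs h1 => ?_⟩
  have h4 : ⁅Y, ⟪s⟫⁆ ⊔ W ≤ Y := sup_le (commg_subl.2 ((zpowers_le_of_mem hs).trans hYT)) hWY
  refine le_of_forall_irr ⟨h4.trans hYP, norm_of_commg (hYW.trans le_sup_right) h4⟩ hYP
    fun φ hφ h2 => by_contra fun h3 => h1 ?_
  have h5 := le_sup_right.trans h2
  exact ((a3 φ hφ h5 h3).le ⟨hs, ((hf φ hφ h5 h3).2.2 s hs).2 (le_sup_left.trans h2)⟩).2

end PT

end Cfsg.FT.ND
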