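import Cfsg.Agent.NDAD.Cam4A

set_option autoImplicit false
set_option linter.style.haveILetI false

namespace Cfsg.NDAD

open Module

theorem skew_of_alt {F W U : Type*} [Field F] [AddCommGroup W] [Module F W]
    [AddCommGroup U] [Module F U] {b : W →ₗ[F] W →ₗ[F] U} (halt : ∀ x, b x x = 0) (x y : W) :
    b y x = -b x y := by
  have := halt (x + y)
  simp only [map_add, LinearMap.add_apply, halt, zero_add, add_zero] at this
  exact eq_neg_of_add_eq_zero_left this

/-- the final step: an alternating form compatible with a field structure vanishes -/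
theorem alt_eq_zero_of_field {F K : Type*} [Field F] [Field K] [Finite K] [Algebra F K]
    (f : K →ₗ[F] K →ₗ[F] F) (halt : ∀ c, f c c = 0)
    (h : ∀ e c d, f (e * c) d - f c (e * d) = f e (c * d) - f 1 (e * (c * d))) (c d : K) :
    f c d = 0 := by
  haveI := Fintype.ofFinite K
  obtain ⟨p, hp⟩ := CharP.exists K
  haveI : Fact p.Prime := ⟨CharP.char_is_prime K p⟩
  haveI : CharP F p := (algebraMap F K).charP (algebraMap F K).injective p
  have hsurj := Finite.injective_iff_surjective.1 (frobenius K p).injective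
  have key : ∀ c d : K, f c d = f 1 (c * d) := by
    intro c d
    by_cases hc : c = 0
    · simp [hc]
    obtain ⟨c, rfl⟩ := hsurj c
    rw [frobenius_def] at hc ⊢
    have hc0 : c ≠ 0 := fun h => hc (by rw [h, zero_pow (Fact.out : p.Prime).ne_zero])
    set s := c ^ p * d with hs
    have hn : ∀ n : ℕ, f (c ^ n) (s / c ^ n) - f 1 s = n * (f c (s / c) - f 1 s) := by
      intro n
      induction n with
      | zero => simp
      | succ n ih =>
        have h1 := h c (c ^ n) (s / c ^ (n + 1))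
        have e1 : c * (s / c ^ (n + 1)) = s / c ^ n := by field_simp; ring
        have e2 : c ^ n * (s / c ^ (n + 1)) = s / c := by field_simp; ring
        have e3 : c * (s / c) = s := by field_simp
        rw [e1, e2, e3, ← pow_succ'] at h1
        push_cast
        linear_combination h1 + ih
    have := hn p
    rw [CharP.cast_eq_zero, zero_mul, hs, mul_div_cancel_left₀ _ hc] at this
    exact sub_eq_zero.1 this
  by_cases h2 : p = 2
  · subst h2
    obtain ⟨e, he⟩ := hsurj (c * d)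
    rw [key, ← he, frobenius_def, sq, ← key, halt]
  · have h3 : (2 : F) ≠ 0 := fun h => h2 ((Nat.prime_dvd_prime_iff_eq Fact.out Nat.prime_two).1
      ((CharP.cast_eq_zero_iff F p 2).1 (by exact_mod_cast h)))
    have h4 := skew_of_alt halt c d
    rw [key d c, mul_comm, ← key] at h4
    have : 2 * f c d = 0 := by linear_combination h4
    exact (mul_eq_zero.1 this).resolve_left h3

theorem cam4_lin {F W U V : Type*} [Field F] [Finite F] [AddCommGroup W] [Module F W]
    [AddCommGroup U] [Module F U] [AddCommGroup V] [Module F V] [Finite W] [Finite U] [Finite V]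
    [Nontrivial U] [Nontrivial V] (b1 : W →ₗ[F] W →ₗ[F] U) (b2 : U →ₗ[F] W →ₗ[F] V)
    (b3 : V →ₗ[F] W →ₗ[F] F) (γ : U →ₗ[F] U →ₗ[F] F) (alt1 : ∀ x, b1 x x = 0)
    (altγ : ∀ u, γ u u = 0)
    (J3 : ∀ x y z, b2 (b1 x y) z + b2 (b1 y z) x + b2 (b1 z x) y = 0)
    (J4 : ∀ u y z, γ u (b1 y z) = b3 (b2 u y) z - b3 (b2 u z) y)
    (h1 : ∀ x, x ≠ 0 → Function.Surjective (b1 x)) (h2 : ∀ u, u ≠ 0 → Function.Surjective (b2 u))
    (h3 : ∀ v, v ≠ 0 → b3 v ≠ 0)
    (h4 : ∀ x, x ≠ 0 → finrank F V + 1 ≤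
      finrank F (LinearMap.ker (b1 x)) + finrank F (LinearMap.range (b2.flip x)))
    (h5 : γ = 0 ∨ ∀ u, u ≠ 0 → γ u ≠ 0) : False := by
  haveI : Module.Finite F W := Module.Finite.of_finite
  haveI : Module.Finite F U := Module.Finite.of_finite
  haveI : Module.Finite F V := Module.Finite.of_finite
  obtain ⟨u₀, hu₀⟩ := exists_ne (0 : U)
  obtain ⟨v₀, hv₀⟩ := exists_ne (0 : V)
  haveI : Nontrivial W := by
    obtain ⟨y, hy⟩ := h2 u₀ hu₀ v₀
    exact ⟨y, 0, fun h => hv₀ (by rw [← hy, h, map_zero])⟩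
  have sk := skew_of_alt alt1
  have skγ := skew_of_alt altγ
  have hI := two_mul_finrank_le b1 alt1 h1
  have ha : 0 < finrank F U := Module.finrank_pos
  have hker : ∀ x, x ≠ 0 → finrank F U + finrank F (LinearMap.ker (b1 x)) = finrank F W :=
    fun x hx => by
      rw [← (b1 x).finrank_range_add_finrank_ker, LinearMap.range_eq_top.2 (h1 x hx), finrank_top]
  -- abelian subspaces of large dimension are centralisers
  have cent : ∀ A : Submodule F W, finrank F W ≤ finrank F U + finrank F A →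
      (∀ y ∈ A, ∀ z ∈ A, b1 y z = 0) → ∀ y ∈ A, y ≠ 0 → LinearMap.ker (b1 y) = A := by
    intro A hA hab y hy hy0
    have := hker y hy0
    exact (Submodule.eq_of_le_of_finrank_le (fun z hz => hab y hy z hz) (by omega)).symm
  let Aμ : Dual F V → Submodule F W := fun μ => LinearMap.ker (b2.compr₂ μ).flip
  have hAμ : ∀ μ z, z ∈ Aμ μ ↔ ∀ u, μ (b2 u z) = 0 := fun μ z => LinearMap.ext_iff
  have dAμ : ∀ μ, finrank F W ≤ finrank F U + finrank F (Aμ μ) := fun μ => by
    have h6 := (b2.compr₂ μ).flip.finrank_range_add_finrank_ker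
    have h7 := Submodule.finrank_le (LinearMap.range (b2.compr₂ μ).flip)
    rw [Subspace.dual_finrank_eq] at h7
    simp only [Aμ]
    omega
  have abAμ : ∀ μ, μ ≠ 0 → ∀ y ∈ Aμ μ, ∀ z ∈ Aμ μ, b1 y z = 0 := by
    intro μ hμ y hy z hz
    by_contra h0
    apply hμ
    ext v
    obtain ⟨t, rfl⟩ := h2 _ h0 v
    have := congrArg μ (J3 y z t)
    rwa [map_add, map_add, (hAμ μ y).1 hy, (hAμ μ z).1 hz, add_zero, add_zero, map_zero] at this
  have cAμ := fun μ hμ => cent _ (dAμ μ) (abAμ μ hμ)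
  obtain ⟨μ₀, hμ₀⟩ : ∃ μ : Dual F V, μ ≠ 0 := by
    obtain ⟨f, hf⟩ := Module.Projective.exists_dual_ne_zero F hv₀
    exact ⟨f, fun h => hf (by rw [h]; rfl)⟩
  have dA0 : finrank F U + finrank F (Aμ μ₀) = finrank F W := by
    have h6 := dAμ μ₀
    obtain ⟨y, hy, hy0⟩ := Submodule.exists_mem_ne_zero_of_ne_bot (p := Aμ μ₀) (fun h => by
      rw [h, finrank_bot] at h6; omega)
    rw [← cAμ μ₀ hμ₀ y hy hy0]
    exact hker y hy0
  have hw : finrank F W = 2 * finrank F U := by
    obtain ⟨t, -, ht⟩ := SetLike.exists_of_lt (lt_top_iff_ne_top.2 fun h : Aμ μ₀ = ⊤ => by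
      rw [h, finrank_top] at dA0; omega)
    have := LinearMap.finrank_le_finrank_of_injective (f := b1.flip t ∘ₗ (Aμ μ₀).subtype) (by
      rw [injective_iff_map_eq_zero]
      intro y hy
      by_contra h0
      exact ht (cAμ μ₀ hμ₀ y y.2 (fun h => h0 (Subtype.ext h)) ▸ hy))
    omega
  let W3 : Submodule F W := LinearMap.ker b3.flip
  have hW3 : ∀ t, t ∈ W3 ↔ ∀ v, b3 v t = 0 := fun t => LinearMap.ext_iff
  have dW3 : finrank F W ≤ finrank F V + finrank F W3 := by
    have h6 := b3.flip.finrank_range_add_finrank_ker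
    have h7 := Submodule.finrank_le (LinearMap.range b3.flip)
    rw [Subspace.dual_finrank_eq] at h7
    simp only [W3]
    omega
  obtain ⟨x₀, hx₀, hx0⟩ := Submodule.exists_mem_ne_zero_of_ne_bot (p := W3) (fun h => by
    obtain ⟨x, hx⟩ := exists_ne (0 : W)
    have h6 := h4 x hx
    have h7 := hker x hx
    have h8 := (b2.flip x).finrank_range_le
    rw [h, finrank_bot] at dW3
    omega)
  have β3 : ∀ x ∈ W3, ∀ u y, b3 (b2 u x) y = γ u (b1 x y) := fun x hx u y => by
    rw [J4, (hW3 x).1 hx, sub_zero]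
  rcases h5 with h5 | h5
  · have h6 : ∀ x ∈ W3, ∀ u, b2 u x = 0 := fun x hx u => by
      by_contra h0
      apply h3 _ h0
      ext y
      rw [β3 x hx, h5]; rfl
    have h7 := h4 x₀ hx0
    have h8 : b2.flip x₀ = 0 := LinearMap.ext (h6 x₀ hx₀)
    rw [h8, LinearMap.range_zero, finrank_bot] at h7
    have h9 := hker x₀ hx0
    have h10 : finrank F W3 ≤ finrank F (Aμ μ₀) :=
      Submodule.finrank_mono fun x hx => (hAμ μ₀ x).2 fun u => by rw [h6 x hx, map_zero]
    omega
  have nd : ∀ u, (∀ u', γ u u' = 0) → u = 0 := fun u hu => by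
    by_contra h0
    exact h5 u h0 (LinearMap.ext hu)
  set A := LinearMap.ker (b1 x₀) with hA
  have βA : ∀ u, ∀ y ∈ A, ∀ z ∈ A, b3 (b2 u y) z = 0 := by
    intro u y hy z hz
    by_cases hz3 : z ∈ W3
    · exact (hW3 z).1 hz3 _
    · have hx : x₀ ∈ Aμ (b3.flip z) := (hAμ _ _).2 fun u => by
        show b3 (b2 u x₀) z = 0
        rw [β3 x₀ hx₀, LinearMap.mem_ker.1 hz, map_zero]
      rw [hA, cAμ _ hz3 x₀ hx hx0] at hy
      exact (hAμ _ _).1 hy u
  have abA : ∀ y ∈ A, ∀ z ∈ A, b1 y z = 0 := fun y hy z hz => nd _ fun u => by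
    rw [skγ, J4, βA u y hy z hz, βA u z hz y hy, sub_self, neg_zero]
  have cA := cent A (hker x₀ hx0).ge abA
  obtain ⟨σ, hσ⟩ := (b1 x₀).exists_rightInverse_of_surjective (LinearMap.range_eq_top.2 (h1 x₀ hx0))
  have hσ' : ∀ u, b1 x₀ (σ u) = u := fun u => LinearMap.congr_fun hσ u
  let R : A →ₗ[F] End F U := (b1.compl₂ σ) ∘ₗ A.subtype
  have hR : ∀ (y : A) u, R y u = b1 y (σ u) := fun _ _ => rfl
  have hR' : ∀ (y : A) t, R y (b1 x₀ t) = b1 y t := fun y t => by
    rw [hR, ← sub_eq_zero, ← map_sub]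
    exact abA y y.2 _ (by rw [LinearMap.mem_ker, map_sub, hσ', sub_self])
  have hx₀A : x₀ ∈ A := alt1 x₀
  have hR1 : R ⟨x₀, hx₀A⟩ = 1 := LinearMap.ext hσ'
  have hRi : ∀ (y : A) u, R y u = 0 → y = 0 ∨ u = 0 := fun y u h => by
    by_cases hy : y = 0
    · exact Or.inl hy
    · right
      have : σ u ∈ A := cA y y.2 (fun h => hy (Subtype.ext h)) ▸ h
      rw [← hσ' u]; exact this
  have a0 : ∀ (y : A) u, b2 u y = b2 (R y u) x₀ := fun y u => by
    have := J3 x₀ (σ u) y
    rw [hσ', abA y y.2 x₀ hx₀A, map_zero, LinearMap.zero_apply, add_zero, sk, map_neg,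
      LinearMap.neg_apply] at this
    rw [hR]
    exact add_neg_eq_zero.1 this
  have hb : ∀ (y : A) u s, b3 (b2 u s) y = γ (R y u) (b1 x₀ s) - γ u (R y (b1 x₀ s)) :=
    fun y u s => by
      rw [← β3 x₀ hx₀, ← a0, hR', J4]; ring
  have hc : ∀ y y' : A, R y * R y' = R y' * R y := fun y y' => by
    ext u
    have := J3 y y' (σ u)
    rw [abA y y.2 y' y'.2, map_zero, LinearMap.zero_apply, zero_add, sk y, map_neg,
      LinearMap.neg_apply, ← hR, ← hR, a0, a0, ← sub_eq_add_neg, ← LinearMap.sub_apply,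
      ← map_sub] at this
    refine sub_eq_zero.1 (nd _ fun u' => ?_)
    rw [← hσ' u', ← β3 x₀ hx₀]
    show b3 (b2 (R y (R y' u) - R y' (R y u)) x₀) _ = 0
    rw [this, map_zero, LinearMap.zero_apply]
  have hd : ∀ (y y' : A) s t, γ (R y' (R y s)) t - γ (R y s) (R y' t) =
      γ (R y' s) (R y t) - γ s (R y' (R y t)) := fun y y' s t => by
    have := congrArg (fun v => b3 v y') (J3 y (σ s) (σ t))
    simp only [map_add, LinearMap.add_apply, map_zero, LinearMap.zero_apply] at this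
    rw [βA _ y y.2 y' y'.2, add_zero, sk y, map_neg, LinearMap.neg_apply, map_neg,
      LinearMap.neg_apply, ← hR, ← hR, hb, hb, hσ', hσ', skγ s, skγ (R y' s)] at this
    linear_combination this
  have hev : Function.Surjective (LinearMap.applyₗ u₀ ∘ₗ R) := by
    have h6 := hker x₀ hx0
    refine (LinearMap.injective_iff_surjective_of_finrank_eq_finrank (by
      rw [← hA] at h6; omega)).1 ?_
    rw [injective_iff_map_eq_zero]
    exact fun y hy => (hRi y u₀ hy).resolve_right hu₀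
  have hev' : ∀ u, ∃ y : A, R y u₀ = u := hev
  let K : Subalgebra F (End F U) := (LinearMap.range R).toSubalgebra ⟨_, hR1⟩ (by
    rintro _ _ ⟨y, rfl⟩ ⟨y', rfl⟩
    obtain ⟨y'', h⟩ := hev' (R y (R y' u₀))
    refine ⟨y'', LinearMap.ext fun u => ?_⟩
    obtain ⟨z, rfl⟩ := hev' u
    rw [← End.mul_apply, hc, End.mul_apply, h, ← End.mul_apply, ← End.mul_apply, ← hc,
      mul_assoc, ← hc, ← mul_assoc]
    rfl)
  have hK : ∀ c : K, ∃ y, R y = c := fun c => c.2
  letI : CommRing K := { (inferInstance : Ring K) with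
    mul_comm := fun c d => by
      obtain ⟨y, hy⟩ := hK c
      obtain ⟨z, hz⟩ := hK d
      exact Subtype.ext (by
        show (c : End F U) * d = d * c
        rw [← hy, ← hz, hc]) }
  haveI : Finite (End F U) := Finite.of_injective _ (DFunLike.coe_injective (F := U →ₗ[F] U))
  haveI : Nontrivial K := ⟨0, 1, fun h => zero_ne_one (congrArg Subtype.val h)⟩
  haveI : NoZeroDivisors K := ⟨fun {c d} h => by
    obtain ⟨y, hy⟩ := hK c
    obtain ⟨z, hz⟩ := hK d
    have h6 : R y (R z u₀) = 0 := by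
      rw [hy, hz]; exact LinearMap.congr_fun (congrArg Subtype.val h) u₀
    rcases hRi _ _ h6 with h7 | h7
    · exact Or.inl (Subtype.ext (by rw [← hy, h7, map_zero]; rfl))
    · exact Or.inr (Subtype.ext (by rw [← hz, (hRi _ _ h7).resolve_right hu₀, map_zero]; rfl))⟩
  haveI : IsDomain K := NoZeroDivisors.to_isDomain K
  letI : Field K := (Finite.isField_of_domain K).toField
  let ev : K →ₗ[F] U := LinearMap.applyₗ u₀ ∘ₗ K.val.toLinearMap
  have hf := alt_eq_zero_of_field (F := F) (K := K) (γ.compl₁₂ ev ev) (fun c => altγ _)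
    (fun e c d => by
      obtain ⟨y', hy'⟩ := hK e
      obtain ⟨y, hy⟩ := hK c
      have := hd y y' u₀ ((d : End F U) u₀)
      rw [hy, hy'] at this
      exact this)
  apply hu₀
  refine nd _ fun u => ?_
  obtain ⟨y, rfl⟩ := hev' u
  exact hf 1 ⟨R y, y, rfl⟩

end Cfsg.NDAD
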