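import Cfsg.Agent.NDAD.Cam4B
import Cfsg.Agent.NDAD.Cam4C

set_option autoImplicit false
set_option linter.style.haveILetI false

namespace Cfsg.NDAD

open Module
open scoped commutatorElement

theorem finrank_succ_le_of_graph {F W V : Type*} [Field F] [AddCommGroup W] [Module F W]
    [AddCommGroup V] [Module F V] [Module.Finite F W] [Module.Finite F V] (S : Submodule F (W × V))
    (C : Submodule F W) (D : Submodule F V) (h1 : ∀ v, ∃ w, (w, v) ∈ S) {x : W} (hx : x ≠ 0)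
    (h2 : (x, 0) ∈ S) (h3 : ∀ s ∈ S, s.1 ∈ C) (h4 : ∀ v, (0, v) ∈ S → v ∈ D) :
    finrank F V + 1 ≤ finrank F C + finrank F D := by
  let f := LinearMap.snd F W V ∘ₗ S.subtype
  let g := LinearMap.fst F W V ∘ₗ S.subtype
  have e1 := f.finrank_range_add_finrank_ker
  have e2 := g.finrank_range_add_finrank_ker
  rw [LinearMap.range_eq_top.2 (fun v => by
    obtain ⟨w, hw⟩ := h1 v
    exact ⟨⟨_, hw⟩, rfl⟩), finrank_top] at e1
  have e3 : finrank F (LinearMap.ker f) ≠ 0 := fun h => by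
    have : (⟨_, h2⟩ : S) ∈ LinearMap.ker f := rfl
    rw [Submodule.finrank_eq_zero.1 h, Submodule.mem_bot] at this
    exact hx (congrArg (fun s : S => s.1.1) this)
  have e4 : finrank F (LinearMap.range g) ≤ finrank F C :=
    Submodule.finrank_mono (by rintro _ ⟨s, rfl⟩; exact h3 s s.2)
  have e5 : finrank F (LinearMap.ker g) ≤ finrank F D :=
    LinearMap.finrank_le_finrank_of_injective (f := (f ∘ₗ (LinearMap.ker g).subtype).codRestrict D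
      fun s => h4 _ (by
        have h : s.1.1.1 = 0 := s.2
        rw [← h]; exact s.1.2)) (by
      rw [injective_iff_map_eq_zero]
      intro s hs
      exact Subtype.ext (Subtype.ext (Prod.ext s.2 (congrArg Subtype.val hs))))
  omega

universe u
variable {G : Type u} [Group G]

theorem hall_witt_left (x y z : G) :
    ⁅⁅x, y⁆, y * z * y⁻¹⁆ * ⁅⁅y, z⁆, z * x * z⁻¹⁆ * ⁅⁅z, x⁆, x * y * x⁻¹⁆ = 1 := by
  simp only [commutatorElement_def]; group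

theorem cam4 [Finite G] {p : ℕ} [Fact p.Prime] {P Z2 Z3 Z4 Y K : Subgroup G}
    (h2 : Z2 ≤ P) (h3 : Z3 < Z2) (h4 : Z4 < Z3) (hY : Y ≤ Z4) (hK : K ≤ Y)
    (hKY : K.relIndex Y = p) (c11 : ⁅P, P⁆ ≤ Z2) (c21 : ⁅Z2, P⁆ ≤ Z3) (c31 : ⁅Z3, P⁆ ≤ Y)
    (c22 : ⁅Z2, Z2⁆ ≤ Y) (c41 : ⁅Z4, P⁆ ≤ K) (c32 : ⁅Z3, Z2⁆ ≤ K)
    (H1 : ∀ x ∈ P, x ∉ Z2 → ∀ u ∈ Z2, ∃ y ∈ P, ⁅x, y⁆ * u⁻¹ ∈ Z4)
    (H2 : ∀ u ∈ Z2, u ∉ Z3 → ∀ v ∈ Z3, ∃ y ∈ P, ⁅u, y⁆ * v⁻¹ ∈ Z4)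
    (H3 : ∀ v ∈ Z3, v ∉ Z4 → ∃ y ∈ P, ⁅v, y⁆ ∉ K)
    (H5 : ⁅Z2, Z2⁆ ≤ K ∨ ∀ u ∈ Z2, u ∉ Z3 → ∃ u' ∈ Z2, ⁅u, u'⁆ ∉ K) : False := by
  have cm := @Subgroup.commutator_mem_commutator G _
  have l3 : Z3 ≤ P := h3.le.trans h2
  have lY : Y ≤ P := hY.trans (h4.le.trans l3)
  have cY : ⁅Y, P⁆ ≤ K := (Subgroup.commutator_mono hY le_rfl).trans c41
  obtain ⟨W, _, _, πW, hW, -⟩ := exists_sec c11
  obtain ⟨U, _, _, πU, hU, -⟩ := exists_sec (A := Z2) (B := Z3)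
    ((Subgroup.commutator_mono le_rfl h2).trans c21)
  obtain ⟨V, _, _, πV, hV, -⟩ := exists_sec (A := Z3) (B := Z4)
    ((Subgroup.commutator_mono le_rfl l3).trans (c31.trans hY))
  obtain ⟨T, _, _, πT, hT, cT⟩ := exists_sec (A := Y) (B := K)
    ((Subgroup.commutator_mono le_rfl lY).trans cY)
  obtain ⟨β1, hβ1⟩ := exists_biadd hW hW hU le_rfl le_rfl h3.le c11 c21 c21 c21
  obtain ⟨β2, hβ2⟩ := exists_biadd hU hW hV h2 le_rfl h4.le c21 (c31.trans hY) (c22.trans hY)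
    (c31.trans hY)
  obtain ⟨β3, hβ3⟩ := exists_biadd hV hW hT l3 le_rfl hK c31 c41
    (Subgroup.commutator_comm Z2 Z3 ▸ c32) cY
  obtain ⟨γ, hγ⟩ := exists_biadd hU hU hT h2 h2 hK c22 c32 c32 cY
  haveI : Nontrivial U := by
    obtain ⟨x, hx, hx'⟩ := SetLike.exists_of_lt h3
    exact ⟨_, _, fun h => hx' ((hU.ker x hx).1 h)⟩
  haveI : Nontrivial V := by
    obtain ⟨x, hx, hx'⟩ := SetLike.exists_of_lt h4
    exact ⟨_, _, fun h => hx' ((hV.ker x hx).1 h)⟩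
  have s1 : ∀ x, x ≠ 0 → Function.Surjective (β1 x) := by
    intro x hx u
    obtain ⟨x, hxP, rfl⟩ := hW.surj x
    obtain ⟨u, hu, rfl⟩ := hU.surj u
    obtain ⟨y, hy, h⟩ := H1 x hxP (fun h => hx ((hW.ker x hxP).2 h)) u hu
    exact ⟨πW y, by rw [hβ1 x hxP y hy, hU.eq_iff (c11 (cm hxP hy)) hu]; exact h4.le h⟩
  have s2 : ∀ u, u ≠ 0 → Function.Surjective (β2 u) := by
    intro x hx u
    obtain ⟨x, hxP, rfl⟩ := hU.surj x
    obtain ⟨u, hu, rfl⟩ := hV.surj u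
    obtain ⟨y, hy, h⟩ := H2 x hxP (fun h => hx ((hU.ker x hxP).2 h)) u hu
    exact ⟨πW y, by rw [hβ2 x hxP y hy, hV.eq_iff (c21 (cm hxP hy)) hu]; exact h⟩
  have s3 : ∀ v, v ≠ 0 → β3 v ≠ 0 := by
    intro v hv h0
    obtain ⟨v, hv3, rfl⟩ := hV.surj v
    obtain ⟨y, hy, h⟩ := H3 v hv3 (fun h => hv ((hV.ker v hv3).2 h))
    refine h ((hT.ker _ (c31 (cm hv3 hy))).1 ?_)
    rw [← hβ3 v hv3 y hy, h0]; rfl
  have eT : ∀ t : T, p • t = 0 := fun t => by rw [← hKY, ← cT]; exact card_nsmul_eq_zero'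
  have eV := nsmul_eq_zero_of_surj β3 s3 eT
  have eU := nsmul_eq_zero_of_surj β2 (fun s hs' h => by
    obtain ⟨u, hu⟩ := exists_ne (0 : V)
    obtain ⟨y, rfl⟩ := s2 s hs' u
    exact hu (by rw [h]; rfl)) eV
  have eW := nsmul_eq_zero_of_surj β1 (fun s hs' h => by
    obtain ⟨u, hu⟩ := exists_ne (0 : U)
    obtain ⟨y, rfl⟩ := s1 s hs' u
    exact hu (by rw [h]; rfl)) eU
  obtain ⟨iT⟩ : Nonempty (Module (ZMod p) T) := ⟨AddCommGroup.zmodModule eT⟩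
  obtain ⟨iV⟩ : Nonempty (Module (ZMod p) V) := ⟨AddCommGroup.zmodModule eV⟩
  obtain ⟨iU⟩ : Nonempty (Module (ZMod p) U) := ⟨AddCommGroup.zmodModule eU⟩
  obtain ⟨iW⟩ : Nonempty (Module (ZMod p) W) := ⟨AddCommGroup.zmodModule eW⟩
  haveI : Module.Finite (ZMod p) T := Module.Finite.of_finite
  haveI : Module.Finite (ZMod p) V := Module.Finite.of_finite
  haveI : Module.Finite (ZMod p) W := Module.Finite.of_finite
  have dT : finrank (ZMod p) T = finrank (ZMod p) (ZMod p) := by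
    rw [hKY, Module.natCard_eq_pow_finrank (K := ZMod p), Nat.card_zmod] at cT
    rw [finrank_self]
    exact Nat.pow_right_injective (Fact.out : p.Prime).two_le (cT.trans (pow_one p).symm)
  let ν : T ≃ₗ[ZMod p] ZMod p := LinearEquiv.ofFinrankEq _ _ dT
  obtain ⟨b1, e1⟩ := exists_bilin p β1
  obtain ⟨b2, e2⟩ := exists_bilin p β2
  obtain ⟨b3, e3⟩ := exists_bilin p β3
  obtain ⟨g, e4⟩ := exists_bilin p γ
  have cW : ∀ y ∈ P, ∀ z ∈ P, y * z * y⁻¹ ∈ P ∧ πW (y * z * y⁻¹) = πW z := fun y hy z hz =>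
    hW.conj h2 hz (c11 (cm hy hz))
  refine cam4_lin b1 b2 (b3.compr₂ ν.toLinearMap) (g.compr₂ ν.toLinearMap) (fun x => ?_)
    (fun u => ?_) (fun x y z => ?_) (fun u y z => ?_) (fun x hx u => ?_) (fun x hx u => ?_)
    (fun v hv h => s3 v hv ?_) (fun x hx => ?_) ?_
  · obtain ⟨x, hxP, rfl⟩ := hW.surj x
    rw [e1, hβ1 x hxP x hxP, commutatorElement_self, hU.one]
  · obtain ⟨x, hxP, rfl⟩ := hU.surj u
    rw [LinearMap.compr₂_apply, e4, hγ x hxP x hxP, commutatorElement_self, hT.one, map_zero]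
  · obtain ⟨x, hx, rfl⟩ := hW.surj x
    obtain ⟨y, hy, rfl⟩ := hW.surj y
    obtain ⟨z, hz, rfl⟩ := hW.surj z
    have key : ∀ x ∈ P, ∀ y ∈ P, ∀ z ∈ P, ⁅⁅x, y⁆, y * z * y⁻¹⁆ ∈ Z3 ∧
        b2 (b1 (πW x) (πW y)) (πW z) = πV ⁅⁅x, y⁆, y * z * y⁻¹⁆ := fun x hx y hy z hz =>
      ⟨c21 (cm (c11 (cm hx hy)) (cW y hy z hz).1), by
        rw [e1, e2, hβ1 x hx y hy, ← (cW y hy z hz).2, hβ2 _ (c11 (cm hx hy)) _ (cW y hy z hz).1]⟩
    obtain ⟨a1, a2⟩ := key x hx y hy z hz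
    obtain ⟨a3, a4⟩ := key y hy z hz x hx
    obtain ⟨a5, a6⟩ := key z hz x hx y hy
    rw [a2, a4, a6, ← hV.add _ a1 _ a3, ← hV.add _ (Z3.mul_mem a1 a3) _ a5, hall_witt_left, hV.one]
  · obtain ⟨u, hu, rfl⟩ := hU.surj u
    obtain ⟨y, hy, rfl⟩ := hW.surj y
    obtain ⟨z, hz, rfl⟩ := hW.surj z
    have m1 := c21 (cm hu hy)
    have m2 := c11 (cm hy hz)
    have m3 := c21 (cm hu hz)
    have m4 : ⁅z, u⁆ ∈ Z3 := commutatorElement_inv u z ▸ Z3.inv_mem m3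
    obtain ⟨n1, n2⟩ := cW y hy z hz
    obtain ⟨n3, n4⟩ := hU.conj h3.le hu m4
    obtain ⟨n5, n6⟩ := cW u (h2 hu) y hy
    have := congrArg πT (hall_witt_left u y z)
    rw [hT.add _ (Y.mul_mem (c31 (cm m1 n1)) (c22 (cm m2 n3))) _ (c31 (cm m4 n5)),
      hT.add _ (c31 (cm m1 n1)) _ (c22 (cm m2 n3)), hT.one, ← hβ3 _ m1 _ n1, ← hβ3 _ m4 _ n5,
      ← hγ _ m2 _ n3, n2, n4, n6, ← commutatorElement_inv u z, hV.inv m3, map_neg,
      AddMonoidHom.neg_apply, hγ _ m2 _ hu, ← commutatorElement_inv u, hT.inv (c22 (cm hu m2)),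
      ← hγ _ hu _ m2, ← hβ1 _ hy _ hz, ← hβ2 _ hu _ hy, ← hβ2 _ hu _ hz] at this
    simp only [LinearMap.compr₂_apply, e1, e2, e3, e4, ← map_sub]
    congr 1
    rw [← sub_eq_zero, ← neg_eq_zero, ← this]
    abel
  · obtain ⟨y, hy⟩ := s1 x hx u
    exact ⟨y, by rw [e1, hy]⟩
  · obtain ⟨y, hy⟩ := s2 x hx u
    exact ⟨y, by rw [e2, hy]⟩
  · ext y
    have := LinearMap.congr_fun h y
    rw [LinearMap.compr₂_apply, e3] at this
    exact ν.map_eq_zero_iff.1 this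
  · obtain ⟨x, hxP, rfl⟩ := hW.surj x
    let S₀ : AddSubmonoid (W × V) :=
      { carrier := {s | ∃ y ∈ P, ⁅x, y⁆ ∈ Z3 ∧ πW y = s.1 ∧ πV ⁅x, y⁆ = s.2}
        zero_mem' := ⟨1, P.one_mem, by simp, hW.one, by simp [hV.one]⟩
        add_mem' := by
          rintro s t ⟨y, hy, a1, a2, a3⟩ ⟨z, hz, a4, a5, a6⟩
          have e : ⁅x, y * z⁆ = ⁅x, y⁆ * (y * ⁅x, z⁆ * y⁻¹) := by
            simp only [commutatorElement_def]; group
          obtain ⟨k1, k2⟩ := hV.conj h4.le a4 (g := y) (by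
            rw [← commutatorElement_inv]
            exact Z4.inv_mem (hY (c31 (cm a4 hy))))
          exact ⟨y * z, P.mul_mem hy hz, e ▸ Z3.mul_mem a1 k1, by
            rw [hW.add _ hy _ hz, a2, a5]; rfl, by rw [e, hV.add _ a1 _ k1, k2, a3, a6]; rfl⟩ }
    let S : Submodule (ZMod p) (W × V) :=
      { S₀ with
        smul_mem' := fun c s hs => by
          rw [← ZMod.natCast_zmod_val c, Nat.cast_smul_eq_nsmul]
          exact S₀.nsmul_mem hs _ }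
    refine finrank_succ_le_of_graph S _ _ (fun v => ?_) hx
      ⟨x, hxP, by simp, rfl, by simp [hV.one]⟩ ?_ ?_
    · obtain ⟨v, hv, rfl⟩ := hV.surj v
      obtain ⟨y, hy, h⟩ := H1 x hxP (fun h => hx ((hW.ker x hxP).2 h)) v (h3.le hv)
      have h' : ⁅x, y⁆ ∈ Z3 := by
        simpa using Z3.mul_mem (h4.le h) hv
      exact ⟨πW y, y, hy, h', rfl, (hV.eq_iff h' hv).2 h⟩
    · rintro s ⟨y, hy, a1, a2, -⟩
      rw [LinearMap.mem_ker, ← a2, e1, hβ1 x hxP y hy]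
      exact (hU.ker _ (h3.le a1)).2 a1
    · rintro v ⟨y, hy, a1, a2, a3⟩
      have hy2 := (hW.ker y hy).1 a2
      refine ⟨-πU y, ?_⟩
      rw [map_neg, LinearMap.flip_apply, e2, hβ2 y hy2 x hxP, ← hV.inv (c21 (cm hy2 hxP)),
        commutatorElement_inv]
      exact a3
  · rcases H5 with H5 | H5
    · left
      ext u u'
      obtain ⟨u, hu, rfl⟩ := hU.surj u
      obtain ⟨u', hu', rfl⟩ := hU.surj u'
      rw [LinearMap.compr₂_apply, e4, hγ u hu u' hu', (hT.ker _ (c22 (cm hu hu'))).2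
        (H5 (cm hu hu')), map_zero]
      rfl
    · right
      intro u hu0 h
      obtain ⟨u, hu, rfl⟩ := hU.surj u
      obtain ⟨u', hu', h'⟩ := H5 u hu (fun h => hu0 ((hU.ker u hu).2 h))
      have := LinearMap.congr_fun h (πU u')
      rw [LinearMap.compr₂_apply, e4, hγ u hu u' hu'] at this
      exact h' ((hT.ker _ (c22 (cm hu hu'))).1 (ν.map_eq_zero_iff.1 this))

end Cfsg.NDAD
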