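import Cfsg.Agent.NDAD.C2
import Cfsg.Agent.NDAD.Cam4

/-! NDAD groups, normal nonabelian Sylow subgroup: the analysis of the lower central series. -/

set_option autoImplicit false
set_option linter.unusedSectionVars false
set_option linter.style.haveILetI false
set_option maxHeartbeats 400000

namespace Cfsg.FT.ND

open scoped Pointwise commutatorElement Classical ComplexConjugate
open Subgroup Gar

variable {G : Type*} [Group G] [Finite G] {A B C E H I K K' L M N P R S T V W X Y Z : Subgroup G}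
  {χ ψ θ φ φ' β l l' μ η : G → ℂ} {p n m : ℕ} {g x y e u s t w : G}

local notation:max "Γ2[" P "]" => ⁅P, P⁆
local notation:max "Γ3[" P "]" => ⁅⁅P, P⁆, P⁆
local notation:max "Γ4[" P "]" => ⁅⁅⁅P, P⁆, P⁆, P⁆
local notation:max "Γ5[" P "]" => ⁅⁅⁅⁅P, P⁆, P⁆, P⁆, P⁆

theorem cnrm (hX : X ≤ P) : ⁅X, P⁆ ⊴ P := commg_normalr (normsG hX)

theorem commg_cycles_le (hx : x ∈ 𝐍[W]) (hy : y ∈ 𝐍[W]) (h : ⁅x, y⁆ ∈ W) : ⁅⟪x⟫, ⟪y⟫⁆ ≤ W := by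
  rw [← quotient_cents2 (zpowers_le_of_mem hx) (zpowers_le_of_mem hy), quotient_cycle hx,
    quotient_cycle hy, cent_cycle, zpowers_le, mem_cent1, ← commutatorElement_eq_one_iff_mul_comm,
    ← coset_commg hx hy]
  exact coset_id h

theorem over_lin (hY : Y ≤ P) (hφ : IsIrr P φ) (hl : IsLin Y l) (h : ⁅Y, P⁆ ≤ cfker Y l)
    (h0 : dot Y φ l ≠ 0) : cfker Y l = Y ⊓ cfker P φ := by
  rw [← hφ.isChar.cfker_Res hY, clifford_invariant' hY hφ hl.isIrr ((le_inertia_lin hl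
    (norm_of_commg (h.trans (cfker_le _ _)) le_rfl)).2 h) h0, cfker_smul]
  rw [hl.one, div_one]; exact hφ.one_ne_zero

theorem ker_of_mul (hl : IsLin Y l) (hl' : IsLin Y l') (h : X ≤ cfker Y (l * l'))
    (h' : X ≤ cfker Y l) : X ≤ cfker Y l' := hl'.le_cfker.2 fun x hx => by
  have := (hl.mul hl').le_cfker.1 h x hx
  rwa [Pi.mul_apply, hl.le_cfker.1 h' x hx, one_mul] at this

theorem exists_level (hW : W ⊴ P) (hY : Y ≤ P) (h : ¬ Y ≤ W) :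
    ∃ φ, IsIrr P φ ∧ W ≤ cfker P φ ∧ ¬ Y ≤ cfker P φ := by
  by_contra h1
  exact h (le_of_forall_irr hW hY fun φ h2 h3 => by_contra fun h4 => h1 ⟨φ, h2, h3, h4⟩)

theorem comm_level (hW : W ⊴ P) (hY : Y ≤ P) (hZ : Y ≤ Z)
    (h : ∀ φ, IsIrr P φ → W ≤ cfker P φ → ¬ Y ≤ cfker P φ → ∀ x, x ∉ Z → φ x = 0)
    (hu : u ∈ P) (hu' : u ∉ Z) (hw : w ∈ Y) : ∃ y ∈ P, ⁅u, y⁆ * w⁻¹ ∈ W :=
  comm_mod hW hu (hY hw) fun φ h1 h2 => by
    by_cases h3 : Y ≤ cfker P φ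
    · exact (h1.isCF.cfkerMr (h3 hw) _).symm
    · rw [h φ h1 h2 h3 _ (mt inv_mem_iff.1 hu'), h φ h1 h2 h3 _
        fun e => hu' (inv_mem_iff.1 ((mul_mem_cancel_right (hZ hw)).1 e))]

variable [hp : Fact p.Prime]

theorem PT0.eq_bot (h : PT0 p P T M) (hB : B ⊴ P) (h1 : B ≤ ⁅B, P⁆) : B = ⊥ := by_contra fun h2 =>
  (nil_comm_properl (pgroup_nil h.pP) hB.1 h2 (le_inf le_rfl hB.2)).not_ge h1

theorem PT0.inv_over (h : PT0 p P T M) (hμ : IsIrr Γ2[P] μ) (hI : T ≤ inertia Γ2[P] μ) :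
    ∃ χ, IsIrr P χ ∧ dot Γ2[P] χ μ ≠ 0 ∧ T ≤ inertia P χ :=
  Deg.exists_inv_over (der_sub P) le_rfl h.nT (((h.copS le_rfl le_rfl).coprime_dvd_left
    (relIndex_dvd_card _ _)).coprime_dvd_right (relIndex_dvd_card _ _)) hμ hI

namespace PT

theorem le_L (h : PT p P T M) (hφ : IsIrr P φ) (h1 : charDegree φ ≠ 1) :
    cfcenter P φ ≤ P ⊓ 𝐂[T] ⊔ Γ2[P] := fun x hx => by_contra fun h2 => by
  have h3 := (hφ.isChar.mem_cfcenter.1 hx).2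
  rw [h.van φ hφ h1 x h2, norm_zero] at h3
  exact hφ.charDegree_pos.ne (by exact_mod_cast h3)

theorem qL (h : PT p P T M) : ⁅⁅P, T⁆, P ⊓ 𝐂[T] ⊔ Γ2[P]⁆ ≤ Γ3[P] := by
  have h1 := cnrm (der_sub P)
  rw [commGC]
  exact commg_sup_le (inf_le_left.trans h1.2) ((der_sub P).trans h1.2) (commGC _ (P ⊓ 𝐂[T]) ▸
    h.slem (commgS P inf_le_left) le_rfl le_rfl h1 (commgS _ inf_le_left))
    (commgS _ (commg_subl.2 h.nT))

theorem g2L (h : PT p P T M) : ⁅Γ2[P], P ⊓ 𝐂[T] ⊔ Γ2[P]⁆ ≤ Γ4[P] := by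
  have hR : ⁅P, T⁆ ≤ P := commg_subl.2 h.nT
  have hL : P ⊓ 𝐂[T] ⊔ Γ2[P] ≤ P := sup_le inf_le_left (der_sub P)
  have h3 := cnrm (der_sub P)
  have h4 := cnrm h3.1
  have h1 : Γ2[P] ≤ ⁅⁅P, T⁆, P⁆ := le_of_forall_irr (cnrm hR) (der_sub P) fun φ hφ h1 =>
    by_contra fun h2 => h.nc (coprime_nil_cent_der1 (h.copS le_rfl le_rfl) (pgroup_nil h.pP)
      ((coprime_commGid h.nT (h.copS le_rfl le_rfl)).ge.trans ((commSg T (((hφ.le_cfcenter hR).2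
        h1).trans (h.le_L hφ (nonlin_of hφ le_rfl h2)))).trans (commg_sup_le
          (inf_le_left.trans (der_norm P)) (normG _) ((commG1P.2 inf_le_right).trans_le bot_le)
          (commg_subl.2 (normsR h.nT h.nT))))))
  have h2 : ⁅⁅P, T⁆, P⁆ ≤ ⁅⁅P, T⁆, ⁅P, T⁆⁆ ⊔ Γ3[P] := by
    have hn : P ≤ 𝐍[⁅⁅P, T⁆, ⁅P, T⁆⁆ ⊔ Γ3[P]] := norm_of_commg le_sup_right
      (sup_le (dergS hR) ((der_normal P).commg_le le_rfl))
    rw [commGC]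
    exact (commSg _ (h.sup_eq le_rfl le_rfl h.nT).ge).trans (commg_sup_le (hR.trans hn)
      (inf_le_left.trans hn) le_sup_left ((commGC _ _).le.trans ((commgS _ le_sup_left).trans
        (h.qL.trans le_sup_right))))
  exact (commSg _ (h1.trans h2)).trans (commg_sup_le ((comm_subG hR hR).trans h4.2)
    (h3.1.trans h4.2) (three_subgroup_mod (hR.trans h4.2) (hL.trans h4.2) (hR.trans h4.2)
      (commgSS h.qL hR) (commgSS ((commGC _ _).le.trans h.qL) hR)) (commgS _ hL))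

theorem two (h : PT p P T M) : ⁅Γ2[P], T⁆ ≤ Γ3[P] ∨ Γ2[P] ⊓ 𝐂[T] ≤ Γ3[P] := by
  by_contra h0
  obtain ⟨h1, h2⟩ := not_or.1 h0
  have t2 : T ≤ 𝐍[Γ2[P]] := normsR h.nT h.nT
  have t3 : T ≤ 𝐍[Γ3[P]] := normsR t2 h.nT
  have n3 := cnrm (der_sub P)
  have l3 : Γ3[P] ≤ Γ2[P] := (der_normal P).commg_le le_rfl
  have d2 : ⁅Γ2[P], Γ2[P]⁆ ≤ Γ3[P] := commgS _ (der_sub P)
  have hH : ⁅Γ2[P], T⁆ ≤ Γ2[P] := commg_subl.2 t2
  have hc := h.copS (der_sub P) le_rfl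
  obtain ⟨μ1, a1, a2, a3⟩ := exists_lin_le_cfker_ne (d2.trans le_sup_right)
    (lt_of_le_not_ge (sup_le hH l3) fun e => h2 (fpf_cent t2 t3 l3 d2 hc e))
  have hK : Γ2[P] ⊓ 𝐂[T] ⊔ Γ3[P] ≤ Γ2[P] := sup_le inf_le_left l3
  obtain ⟨μ2, b1, b2, b3⟩ := exists_lin_le_cfker_not_le (d2.trans le_sup_right) hK hH fun e =>
    h1 ((coprime_commGid t2 hc).ge.trans ((commSg T e).trans (commg_sup_le
      ((inf_le_left.trans (der_sub P)).trans n3.2) (normG _)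
      ((commG1P.2 inf_le_right).trans_le bot_le) (commg_subl.2 t3))))
  obtain ⟨φ1, c1, c2, c3⟩ := h.inv_over a1.isIrr ((le_inertia_lin a1 t2).2 (le_sup_left.trans a2))
  obtain ⟨φ3, d1, d3⟩ := (a1.mul b1).isIrr.exists_over (der_sub P)
  have k1 := over_lin (der_sub P) c1 a1 (le_sup_right.trans a2) c2
  have k2 : Γ3[P] ≤ cfker _ (μ1 * μ2) :=
    (le_inf (le_sup_right.trans a2) (le_sup_right.trans b2)).trans (cfker_mul _ _ _)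
  have k3 := over_lin (der_sub P) d1 (a1.mul b1) k2 d3
  have k4 : ¬ ⁅Γ2[P], T⁆ ≤ cfker P φ3 := fun e =>
    b3 (ker_of_mul a1 b1 (k3 ▸ le_inf hH e) (le_sup_left.trans a2))
  have k5 : Γ3[P] ≤ cfker P φ1 := (le_sup_right.trans a2).trans (k1.le.trans inf_le_right)
  have k6 := (c1.le_cfcenter (der_sub P)).2 k5
  have k7 := (d1.le_cfcenter (der_sub P)).2 (k2.trans (k3.le.trans inf_le_right))
  have k8 := h.le_L d1 (nonlin_of d1 hH k4)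
  have hn := c1.isCF.cfker_normal.2
  have hn' : P ≤ 𝐍[Γ2[P] ⊓ 𝐂[T] ⊔ Γ3[P]] := norm_of_commg le_sup_right hK
  have k9 : cfcenter P φ3 ≤ cfcenter P φ1 := (c1.le_cfcenter (cfcenter_le _ _)).2 <| by
    rw [commGC]
    refine (commSg _ (h.sup_eq le_rfl le_rfl h.nT).ge).trans (commg_sup_le
      ((commg_subl.2 h.nT).trans hn) (inf_le_left.trans hn) ((commgS _ k8).trans (h.qL.trans k5)) ?_)
    rw [commGC]
    refine (ker_of_mul b1 a1 ?_ ((commSg _ k8).trans ((commg_sup_le (inf_le_left.trans hn')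
      ((der_sub P).trans hn') ((le_inf (dergS inf_le_left) ((der_sub _).trans inf_le_right)).trans
        le_sup_left) ((commgS _ inf_le_left).trans le_sup_right)).trans b2))).trans
      (k1.le.trans inf_le_right)
    rw [mul_comm, k3]
    exact le_inf (commgSS (cfcenter_le _ _) inf_le_left)
      ((commgS _ inf_le_left).trans d1.isChar.commg_cfcenter_le)
  have k10 : charDegree φ1 ^ 2 ≤ charDegree φ3 ^ 2 := by
    rw [c1.sq_charDegree_eq k6, d1.sq_charDegree_eq k7]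
    exact relIndex_le_of_le_left k9 (relIndex_pos _ _).ne'
  exact k4 ((commSg _ k7).trans (commg_cfcenter_inertia ((le_inf le_rfl c3).trans
    ((h.h3 φ1 φ3 c1 d1 (nonlin_of c1 le_rfl fun e => a3 (a1.isIrr.le_cfker_self.1
      (k1 ▸ le_inf le_rfl e))) ((Nat.pow_le_pow_iff_left two_ne_zero).1 k10)
      (le_inf inf_le_left (inf_le_left.trans c3))).2.trans inf_le_right))))

theorem alpha (h : PT p P T M) (h1 : ⁅Γ2[P], T⁆ ≤ Γ3[P]) :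
    (∃ a, ∀ φ, IsIrr P φ → charDegree φ ≠ 1 →
      (T ⊓ inertia P φ).relIndex T * charDegree φ = a) ∧ D (D P) = ⊥ := by
  have n3 := cnrm (der_sub P)
  have h2 : Γ3[P] = ⊥ := h.eq_bot n3 (le_of_forall_irr (cnrm n3.1) n3.1 fun φ hφ h2 =>
    by_contra fun h3 => by
      obtain ⟨t, ht, ht'⟩ := SetLike.not_le_iff_exists.1
        (h.nl φ hφ (nonlin_of hφ ((der_normal P).commg_le le_rfl) h3))
      exact h3 (fix_ker hφ ht.2 n3.1 h2 le_rfl (h.step ht.1 ht' (der_normal P) (normsR h.nT h.nT)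
        ((commgS _ (zpowers_le_of_mem ht.1)).trans h1) h.g2L)))
  refine ⟨?_, le_bot_iff.1 (h2 ▸ commgS _ (der_sub P))⟩
  have h3 : ∀ φ, IsIrr P φ → charDegree φ ≠ 1 → T ⊓ inertia P φ = T := fun φ hφ h3 => by
    obtain ⟨μ, a1, a2⟩ := hφ.exists_under (der_sub P)
    obtain ⟨φ1, b1, b2, b3⟩ := h.inv_over a1
      ((commG1P'.1 (le_bot_iff.1 (h2 ▸ h1))).trans a1.isCF.cent_sub_inertia)
    have h4 : charDegree φ1 = charDegree φ := by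
      rw [← Gar.charDegree_Res Γ2[P], Res_eq_of_over_abelian (der_sub P) le_rfl a1 hφ b1 a2 b2,
        Gar.charDegree_Res]
    exact le_antisymm inf_le_left ((le_inf le_rfl b3).trans (h.h3 φ1 φ b1 hφ (h4 ▸ h3) h4.le
      (le_inf inf_le_left (inf_le_left.trans b3))).2)
  by_cases h4 : ∃ φ, IsIrr P φ ∧ charDegree φ ≠ 1
  · obtain ⟨ψ, h4, h5⟩ := h4
    refine ⟨charDegree ψ, fun φ hφ h6 => ?_⟩
    have h7 := (h3 φ hφ h6).trans (h3 ψ h4 h5).symm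
    rw [h3 φ hφ h6, relIndex_self, one_mul]
    exact (le_total _ _).elim (fun e => (h.h3 φ ψ hφ h4 h6 e h7.ge).1)
      fun e => (h.h3 ψ φ h4 hφ h5 e h7.le).1.symm
  · exact ⟨0, fun φ hφ h5 => (h4 ⟨φ, hφ, h5⟩).elim⟩

/-- the endgame -/
theorem four (h : PT0 p P T M) (ht : t ∈ T) (ht' : t ∉ M) (h2 : ⁅Γ2[P], ⟪t⟫⁆ ≤ Γ3[P])
    (hα : ¬ ⁅Γ2[P], T⁆ ≤ Γ3[P]) (h3 : Γ3[P] ≤ ⁅Γ3[P], ⟪t⟫⁆ ⊔ Γ4[P]) (h4 : Γ4[P] ≠ ⊥)
    (g2L : ⁅Γ2[P], P ⊓ 𝐂[T] ⊔ Γ2[P]⁆ ≤ Γ4[P]) (g3L : ⁅Γ3[P], P ⊓ 𝐂[T] ⊔ Γ2[P]⁆ ≤ Γ5[P])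
    (z4 : ⁅P ⊓ 𝐂[T] ⊔ Γ4[P], P⁆ ≤ Γ5[P])
    (v2 : ∀ φ, IsIrr P φ → charDegree φ ≠ 1 → ∀ x, x ∉ P ⊓ 𝐂[T] ⊔ Γ2[P] → φ x = 0)
    (v3 : ∀ φ, IsIrr P φ → Γ4[P] ≤ cfker P φ → ¬ Γ3[P] ≤ cfker P φ →
      ∀ x, x ∉ P ⊓ 𝐂[T] ⊔ Γ3[P] → φ x = 0)
    (v4 : ∀ φ, IsIrr P φ → Γ5[P] ≤ cfker P φ → ¬ Γ4[P] ≤ cfker P φ →
      ∀ x, x ∉ P ⊓ 𝐂[T] ⊔ Γ4[P] → φ x = 0) : False := by
  have n2 := der_normal P
  have n3 := cnrm n2.1
  have n4 := cnrm n3.1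
  have n5 := cnrm n4.1
  have l3 := n2.commg_le le_rfl
  have l4 := n3.commg_le le_rfl
  have l5 := n4.commg_le le_rfl
  have t2 := normsR h.nT h.nT
  have t3 := normsR t2 h.nT
  have t4 := normsR t3 h.nT
  have t5 := normsR t4 h.nT
  have h0 := zpowers_le_of_mem ht
  set P0 := P ⊓ 𝐂[T] with hP0
  have l0 : P0 ≤ P := inf_le_left
  have z0 : ⁅P0, P⁆ ≤ Γ5[P] := (commSg P le_sup_left).trans z4
  have hL : P0 ⊔ Γ2[P] ≤ P := sup_le l0 n2.1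
  have hc : ∀ {X Y : Subgroup G}, Y ⊴ P → X ≤ T → X ≤ 𝐍[Y] → ⁅P0 ⊔ Y, X⁆ ≤ Y :=
    fun hY hX hn => commg_sup_le (l0.trans hY.2) (normG _)
      ((commG1P.2 (inf_le_right.trans (centS hX))).trans_le bot_le) (commg_subl.2 hn)
  have hs : ∀ {Y W : Subgroup G}, W ⊴ P → Γ5[P] ≤ W → ∀ {X}, X ≤ P → Y ≤ P → ⁅Y, X⁆ ≤ W →
      ⁅P0 ⊔ Y, X⁆ ≤ W := fun hW h5 X hX hY h6 =>
    commg_sup_le (l0.trans hW.2) (hY.trans hW.2) ((commgS _ hX).trans (z0.trans h5)) h6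
  have hd : ∀ {Y u}, Y ⊴ P → u ∈ P0 ⊔ Y → ∃ c ∈ P0, ∃ v ∈ Y, c * v = u := fun hY hu =>
    (mem_join_norm' (l0.trans hY.2)).1 (by rwa [sup_comm])
  have h5 : Γ5[P] < Γ4[P] := lt_of_le_not_ge l5 fun e => h4 (h.eq_bot n4 e)
  have H3 : ∀ K, Γ5[P] ≤ K → K < Γ4[P] → ∀ v ∈ P, v ∉ P0 ⊔ Γ4[P] →
      ∃ y ∈ P, ⁅v, y⁆ ∈ Γ4[P] ∧ ⁅v, y⁆ ∉ K := fun K a1 a2 v a3 a4 => by
    obtain ⟨w, a5, a6⟩ := SetLike.exists_of_lt a2
    obtain ⟨y, a7, a8⟩ := comm_level n5 n4.1 le_sup_right v4 a3 a4 a5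
    exact ⟨y, a7, (mul_mem_cancel_right (inv_mem a5)).1 (l5 a8),
      fun e => a6 (inv_mem_iff.1 ((mul_mem_cancel_left e).1 (a1 a8)))⟩
  have key : ∀ K, Γ5[P] ≤ K → MaxIn K Γ4[P] → (⁅P0 ⊔ Γ2[P], P0 ⊔ Γ2[P]⁆ ≤ K ∨ ∀ u ∈ P0 ⊔ Γ2[P],
      u ∉ P0 ⊔ Γ3[P] → ∃ u' ∈ P0 ⊔ Γ2[P], ⁅u, u'⁆ ∉ K) → False := fun K a1 a2 a3 => by
    refine NDAD.cam4 (p := p) hL (lt_of_le_not_ge (sup_le_sup_left l3 P0) fun e => hα ?_)
      (lt_of_le_not_ge (sup_le_sup_left l4 P0) fun e => h4 ?_) le_sup_right a2.le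
      (p_maximal_index (h.pP.to_le n4.1) a2) le_sup_right
      ((hs n3 (l5.trans l4) le_rfl n2.1 le_rfl).trans le_sup_right) (hs n4 l5 le_rfl n3.1 le_rfl)
      (hs n4 l5 hL n2.1 g2L) (z4.trans a1) ((hs n5 le_rfl hL n3.1 g3L).trans a1)
      (fun x b1 b2 u b3 => ?_) (fun x b1 b2 u b3 => ?_) (fun v b1 b2 => ?_) a3
    · exact (commSg T (le_sup_right.trans e)).trans (hc n3 le_rfl t3)
    · rw [h.eq_bot n3 (h3.trans (sup_le ((commSg _ (le_sup_right.trans e)).trans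
        (hc n4 h0 (h0.trans t4))) le_rfl)), commutator_bot_left]
    · obtain ⟨c, b4, v, b5, rfl⟩ := hd n2 b3
      obtain ⟨y, b6, b7⟩ := comm_level (normal1 P) n2.1 le_sup_right
        (fun φ hφ _ b6 => v2 φ hφ (nonlin_of hφ le_rfl b6)) b1 b2 b5
      exact ⟨y, b6, by
        rw [mul_inv_rev, ← mul_assoc, mem_bot.1 b7, one_mul]; exact mem_sup_left (inv_mem b4)⟩
    · obtain ⟨c, b4, v, b5, rfl⟩ := hd n3 b3
      obtain ⟨y, b6, b7⟩ := comm_level n4 n3.1 le_sup_right v3 (hL b1) b2 b5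
      exact ⟨y, b6, by
        rw [mul_inv_rev, ← mul_assoc]; exact mul_mem (mem_sup_right b7) (mem_sup_left (inv_mem b4))⟩
    · obtain ⟨y, b3, -, b4⟩ := H3 K a1 a2.lt v (sup_le l0 n3.1 b1) b2
      exact ⟨y, b3, b4⟩
  by_cases h6 : Γ4[P] ≤ ⁅P0 ⊔ Γ2[P], P0 ⊔ Γ2[P]⁆ ⊔ Γ5[P]
  swap
  · obtain ⟨K, a1, a2⟩ := maximal_exists (lt_of_le_not_ge (sup_le (hs n4 l5 hL n2.1 g2L) l5) h6)
    exact key K (le_sup_right.trans a2) a1 (.inl (le_sup_left.trans a2))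
  obtain ⟨K, a1, a2⟩ := maximal_exists h5
  refine key K a2 a1 (.inr fun u b1 b2 => by_contra fun b3 => ?_)
  set C := Γ2[P] ⊓ 𝐂[⟪t⟫] with hC
  have lC : C ≤ Γ2[P] := inf_le_left
  have c1 : Γ2[P] ≤ Γ3[P] ⊔ C := (h.sup_eq n2.1 h0 (h0.trans t2)).ge.trans (sup_le_sup_right h2 _)
  have c2 : ⁅Γ4[P], ⟪t⟫⁆ ≤ Γ5[P] := by
    have hW : ⁅C, C⁆ ⊔ Γ5[P] ≤ Γ4[P] := sup_le ((commgSS lC (lC.trans le_sup_right)).trans g2L) l5
    have nW : ⁅C, C⁆ ⊔ Γ5[P] ⊴ P := ⟨hW.trans n4.1, norm_of_commg le_sup_right hW⟩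
    have lC' := lC.trans n2.1
    have c3 : ⁅P0 ⊔ Γ2[P], C⁆ ≤ ⁅C, C⁆ ⊔ Γ5[P] := hs nW le_sup_right lC' n2.1 ((commSg _ c1).trans
      (commg_sup_le (n3.1.trans nW.2) (lC'.trans nW.2) ((commgS _ (lC.trans le_sup_right)).trans
        (g3L.trans le_sup_right)) le_sup_left))
    exact (commSg _ (h6.trans (sup_le (hs nW le_sup_right hL n2.1 ((commSg _ c1).trans
      (commg_sup_le (n3.1.trans nW.2) (lC'.trans nW.2) (g3L.trans le_sup_right)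
        (commGC _ C ▸ c3)))) le_sup_right))).trans (commg_sup_le ((comm_subG lC' lC').trans n5.2)
      (normG _) ((commG1P.2 ((der_sub C).trans inf_le_right)).trans_le bot_le)
      (commg_subl.2 (h0.trans t5)))
  have nK : P ≤ 𝐍[K] := norm_of_commg a2 a1.le
  have tK : ⟪t⟫ ≤ 𝐍[K] := norm_of_commg (c2.trans a2) a1.le
  obtain ⟨c, b4, v, b5, rfl⟩ := hd n2 b1
  obtain ⟨v, b6, w, b7, rfl⟩ := (mem_join_norm' (lC.trans (n2.1.trans n3.2))).1 (c1 b5)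
  have b8 : v ∈ P := n2.1 (lC b6)
  have b9 : v ∈ commStab (P0 ⊔ Γ2[P]) K := by
    have e1 : c ∈ commStab (P0 ⊔ Γ2[P]) K :=
      le_commStab.2 ⟨l0.trans nK, (commgS _ hL).trans (z0.trans a2)⟩ b4
    have e2 : w ∈ commStab (P0 ⊔ Γ2[P]) K := le_commStab.2 ⟨n3.1.trans nK, g3L.trans a2⟩ b7
    exact (mul_mem_cancel_right e2).1 ((mul_mem_cancel_left e1).1
      ⟨nK (hL b1), fun y hy => by_contra fun e => b3 ⟨y, hy, e⟩⟩)
  obtain ⟨y, d1, d2, d3⟩ := H3 K a2 a1.lt v b8 fun e => b2 (mul_mem (mem_sup_left b4)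
    (mul_mem (sup_le_sup_left l4 P0 e) (mem_sup_right b7)))
  have hv := zpowers_le_of_mem b8
  set E := P ⊓ centSec ⟪v⟫ Γ4[P] with hE
  have e1 : ⁅E, ⟪v⟫⁆ ≤ Γ4[P] := (sub_astabQR (inf_le_left.trans n4.2) (hv.trans n4.2)).1 inf_le_right
  have e2 : ⟪t⟫ ≤ 𝐂[⟪v⟫] := centsC.1 (zpowers_le_of_mem b6.2)
  have e3 : ⟪t⟫ ≤ 𝐍[E] := normsI (h0.trans h.nT) (norms_centSec (cents_norm e2) (h0.trans t4))
  have e4 : ⁅E, ⟪v⟫⁆ ≤ K := (commSg _ (h.sup_eq inf_le_left h0 e3).ge).trans (commg_sup_le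
    ((commg_subl.2 e3).trans (inf_le_left.trans nK)) (inf_le_left.trans (inf_le_left.trans nK))
    (three_subgroup_mod tK (hv.trans nK) (inf_le_left.trans nK)
      (by rw [commG1P.2 e2, commutator_bot_left]; exact bot_le)
      ((commSg _ (commGC E _ ▸ e1)).trans (c2.trans a2)))
    ((commSg _ ((inf_le_inf inf_le_left (cent_cycle t).le).trans (h.cent_le ht ht'))).trans
      ((mem_commStab_iff (nK b8)).1 b9)))
  exact d3 (((commGC _ _).le.trans e4) (mem_commg (mem_zpowers v) ⟨d1, zpowers_le.1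
    ((sub_astabQR ((zpowers_le_of_mem d1).trans n4.2) (hv.trans n4.2)).2
      ((commGC _ _).le.trans (commg_cycles_le (n4.2 b8) (n4.2 d1) d2)))⟩))

end PT

end Cfsg.FT.ND
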