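import Mathlib

set_option autoImplicit false
set_option linter.style.haveILetI false

namespace Cfsg.NDAD

open Module

theorem isSquare_det_alt {K : Type*} [Field K] (n : ℕ) : ∀ (ι : Type) [Fintype ι] [DecidableEq ι]
    (A : Matrix ι ι K), Fintype.card ι = n → (∀ i, A i i = 0) → (∀ i j, A j i = -A i j) →
    IsSquare A.det := by
  induction n using Nat.strong_induction_on with
  | _ n ih =>
  intro ι _ _ A hn h0 h1
  by_cases hA : A = 0
  · rcases isEmpty_or_nonempty ι with h | h
    · rw [Matrix.det_isEmpty]; exact IsSquare.one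
    · rw [hA, Matrix.det_zero]; exact IsSquare.zero
  obtain ⟨i, j, hij⟩ : ∃ i j, A i j ≠ 0 := by
    by_contra h
    push Not at h
    exact hA (Matrix.ext h)
  have hne : i ≠ j := fun h => hij (by rw [h, h0])
  let e : Fin 2 ⊕ {k // k ≠ i ∧ k ≠ j} ≃ ι :=
    { toFun := Sum.elim ![i, j] Subtype.val
      invFun := fun k => if h1 : k = i then Sum.inl 0 else if h2 : k = j then Sum.inl 1
        else Sum.inr ⟨k, h1, h2⟩
      left_inv := by
        rintro (x | ⟨k, h1, h2⟩)
        · fin_cases x <;> simp [hne.symm]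
        · simp [h1, h2]
      right_inv := fun k => by
        dsimp only
        split_ifs with h1 h2
        · simp [h1]
        · simp [h2]
        · simp }
  rw [← Matrix.det_submatrix_equiv_self e, ← Matrix.fromBlocks_toBlocks (A.submatrix e e)]
  have hJ : (A.submatrix e e).toBlocks₁₁ = !![0, A i j; -A i j, 0] := by
    ext x y
    fin_cases x <;> fin_cases y <;> simp [Matrix.toBlocks₁₁, e, h0, h1 i j]
  letI : Invertible (A.submatrix e e).toBlocks₁₁ :=
    ⟨!![0, -(A i j)⁻¹; (A i j)⁻¹, 0], by
      rw [hJ]; ext x y; fin_cases x <;> fin_cases y <;> simp [hij], by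
      rw [hJ]; ext x y; fin_cases x <;> fin_cases y <;> simp [hij]⟩
  rw [Matrix.det_fromBlocks₁₁]
  have hS : ∀ k l, ((A.submatrix e e).toBlocks₂₂ - (A.submatrix e e).toBlocks₂₁ *
      ⅟(A.submatrix e e).toBlocks₁₁ * (A.submatrix e e).toBlocks₁₂) k l =
      A k l - (A i j)⁻¹ * (A k j * A i l - A k i * A j l) := by
    intro k l
    show _ - ((A.submatrix e e).toBlocks₂₁ * !![0, -(A i j)⁻¹; (A i j)⁻¹, 0] *
      (A.submatrix e e).toBlocks₁₂) k l = _
    simp [Matrix.mul_apply, Fin.sum_univ_two, Matrix.toBlocks₂₂, Matrix.toBlocks₂₁,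
      Matrix.toBlocks₁₂, e]
    ring
  refine IsSquare.mul ⟨A i j, by rw [hJ]; simp⟩ (ih _ ?_ _ _ rfl (fun k => ?_) fun k l => ?_)
  · rw [← hn, ← Fintype.card_congr e, Fintype.card_sum]
    simp
  · rw [hS, h0, h1 i k, h1 j k]; ring
  · rw [hS, hS, h1 k l, h1 j l, h1 i l, h1 k i, h1 k j]; ring

/-- a space of alternating forms on `W` all of whose non-zero members are non-degenerate has
dimension at most `dim W / 2` -/
theorem two_mul_finrank_le {F W U : Type*} [Field F] [Finite F] [AddCommGroup W] [Module F W]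
    [AddCommGroup U] [Module F U] [Module.Finite F W] [Module.Finite F U] [Nontrivial W]
    (b : W →ₗ[F] W →ₗ[F] U) (halt : ∀ x, b x x = 0)
    (hs : ∀ x, x ≠ 0 → Function.Surjective (b x)) : 2 * finrank F U ≤ finrank F W := by
  classical
  haveI := Fintype.ofFinite F
  by_contra hlt
  let bW := Module.finBasis F W
  let bU := Module.finBasis F U
  have hskew : ∀ x y, b y x = -b x y := fun x y => by
    have := halt (x + y)
    simp only [map_add, LinearMap.add_apply, halt, zero_add, add_zero] at this
    exact eq_neg_of_add_eq_zero_left this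
  let M : Matrix (Fin (finrank F W)) (Fin (finrank F W)) (MvPolynomial (Fin (finrank F U)) F) :=
    Matrix.of fun i j => ∑ k, bU.repr (b (bW i) (bW j)) k • MvPolynomial.X k
  let R := MvPolynomial (Fin (finrank F U)) F
  obtain ⟨r, hr⟩ := isSquare_det_alt (K := FractionRing R) _ _
    (M.map (algebraMap R (FractionRing R))) rfl (fun i => by simp [M, halt]) (fun i j => by
      simp only [Matrix.map_apply, M, Matrix.of_apply, ← map_neg]
      rw [hskew]
      simp)
  rw [← RingHom.mapMatrix_apply, ← RingHom.map_det] at hr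
  obtain ⟨g, hg⟩ := IsIntegrallyClosed.exists_algebraMap_eq_of_isIntegral_pow (R := R) (x := r)
    two_pos (by rw [sq, ← hr]; exact isIntegral_algebraMap)
  have hg2 : M.det = g * g := IsFractionRing.injective R (FractionRing R) (by
    rw [hr, map_mul, hg])
  have hdeg : M.det.totalDegree ≤ finrank F W := by
    rw [Matrix.det_apply]
    refine (MvPolynomial.totalDegree_finsetSum _ _).trans (Finset.sup_le fun σ _ => ?_)
    refine (MvPolynomial.totalDegree_smul_le _ _).trans
      ((MvPolynomial.totalDegree_finsetProd _ _).trans ?_)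
    refine (Finset.sum_le_card_nsmul _ _ 1 fun i _ => ?_).trans (by simp)
    simp only [M, Matrix.of_apply]
    refine (MvPolynomial.totalDegree_finsetSum _ _).trans (Finset.sup_le fun k _ => ?_)
    exact (MvPolynomial.totalDegree_smul_le _ _).trans (MvPolynomial.totalDegree_X k).le
  have hgd : g.totalDegree < Fintype.card (Fin (finrank F U)) := by
    rw [Fintype.card_fin]
    by_cases h0 : g = 0
    · rw [h0, MvPolynomial.totalDegree_zero]; omega
    · rw [hg2, MvPolynomial.totalDegree_mul_of_isDomain h0 h0] at hdeg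
      omega
  have hev : ∀ l : Fin (finrank F U) → F, MvPolynomial.eval l g = 0 ↔
      (M.map (MvPolynomial.eval l)).det = 0 := fun l => by
    rw [← RingHom.mapMatrix_apply, ← RingHom.map_det, hg2, map_mul, mul_self_eq_zero]
  have hM : ∀ (l : Fin (finrank F U) → F) i j, M.map (MvPolynomial.eval l) i j =
      ∑ k, bU.repr (b (bW i) (bW j)) k * l k := fun l i j => by
    simp [M]
  haveI : Nonempty (Fin (finrank F W)) := ⟨⟨0, Module.finrank_pos⟩⟩
  have h0 : MvPolynomial.eval (0 : Fin (finrank F U) → F) g = 0 := by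
    rw [hev, show M.map (MvPolynomial.eval 0) = 0 from Matrix.ext fun i j => by rw [hM]; simp]
    exact Matrix.det_zero
  haveI : Fact (ringChar F).Prime := ⟨CharP.char_is_prime F _⟩
  have hd := char_dvd_card_solutions (ringChar F) hgd
  obtain ⟨⟨l, hl⟩, hl0⟩ : ∃ x : {x : Fin (finrank F U) → F // MvPolynomial.eval x g = 0},
      x ≠ ⟨0, h0⟩ := by
    refine Fintype.exists_ne_of_one_lt_card (lt_of_lt_of_le (Fact.out : (ringChar F).Prime).one_lt
      (Nat.le_of_dvd (Fintype.card_pos_iff.2 ⟨⟨0, h0⟩⟩) hd)) _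
  obtain ⟨v, hv0, hv⟩ := Matrix.exists_vecMul_eq_zero_iff.2 ((hev l).1 hl)
  let lam : U →ₗ[F] F := ∑ k, l k • bU.coord k
  have hlam : ∀ u, lam u = ∑ k, bU.repr u k * l k := fun u => by
    simp [lam, mul_comm]
  have hx : bW.equivFun.symm v ≠ 0 := fun h => hv0 (bW.equivFun.symm.map_eq_zero_iff.1 h)
  have hz : lam ∘ₗ b (bW.equivFun.symm v) = 0 := bW.ext fun j => by
    have := congrFun hv j
    simp only [Matrix.vecMul, dotProduct, hM, ← hlam] at this
    rw [Module.Basis.equivFun_symm_apply]
    simp only [LinearMap.comp_apply, map_sum, map_smul, LinearMap.sum_apply, LinearMap.smul_apply,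
      smul_eq_mul]
    exact this
  apply hl0
  ext k
  obtain ⟨y, hy⟩ := hs _ hx (bU k)
  have := LinearMap.congr_fun hz y
  rw [LinearMap.comp_apply, hy, hlam] at this
  simpa [Finsupp.single_apply] using this

end Cfsg.NDAD
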