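import Cfsg.Agent.NDAD.SB

/-! NDAD groups with a Frobenius factor group: the `p`-complement of the kernel is central. -/

set_option autoImplicit false
set_option linter.unusedSectionVars false
set_option linter.style.haveILetI false

namespace Cfsg.FT.ND

open scoped Pointwise commutatorElement Classical
open Subgroup Gar

variable {G : Type*} [Group G] [Finite G] {A B C E H I J K K' L M N P R S T U V W X Y Z : Subgroup G}
  {χ ψ θ φ φ' β l μ η : G → ℂ} {p n m : ℕ} {g x y e u : G}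

/-- an invariant character not containing a given group of fixed points in its kernel -/
theorem exists_inv_not_le_cfker (hE : Group.IsSolvable E) (hn : E ≤ 𝐍[P])
    (hc : (Nat.card P).Coprime (Nat.card E)) (hX : X ≤ P ⊓ 𝐂[E]) (h : X ≠ ⊥) :
    ∃ φ, IsIrr P φ ∧ E ≤ inertia P φ ∧ ¬ X ≤ cfker P φ := by
  haveI := Fintype.ofFinite ↥(P ⊓ 𝐂[E])
  obtain ⟨β, h1, h2⟩ := exists_irr_not_le_cfker hX h
  obtain ⟨χ, h3, h4⟩ := (constBij_of_isSolvable hE hn hc rfl inf_le_left).exists_over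
    (β := h1.toIrr) trivial
  have h5 := isIrr_extendByZero χ
  refine ⟨_, h5, fun s hs => mem_inertia_of_forall (fun _ => h5.isCF.off) (hn hs)
    fun x hx => ?_, fun h6 => h2 ((le_inf hX h6).trans
      (IsIrr.cfker_le_of_under h5.isChar inf_le_left h1 ?_))⟩
  · exact (extendByZero_coe _ _ ⟨_, (memJ_norm (hn hs)).2 hx⟩).trans
      ((h3 s hs ⟨x, hx⟩ _ rfl).trans (extendByZero_coe _ _ ⟨x, hx⟩).symm)
  · rw [dot_eq]
    convert h4 using 2
    exacts [funext fun n => extendByZero_coe _ _ (⟨n, n.2.1⟩ : P), rfl]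

theorem cents_of_card_two (h : Nat.card Z = 2) (hn : A ≤ 𝐍[Z]) : A ≤ 𝐂[Z] := fun a ha z hz => by
  by_cases h1 : z = 1
  · rw [h1, one_mul, mul_one]
  obtain ⟨w, -, hw⟩ := (Nat.card_eq_two_iff' (1 : Z)).1 h
  have h2 := (hw ⟨_, (memJ_norm (hn ha)).2 hz⟩ fun e =>
    h1 (conj_eq_one_iff.1 (congrArg Subtype.val e))).trans
    (hw ⟨z, hz⟩ fun e => h1 (congrArg Subtype.val e)).symm
  exact (mul_inv_eq_iff_eq_mul.1 (congrArg Subtype.val h2)).symm

namespace SB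

theorem cent_le (h : SB p K N) (he : e ∉ N) : N ⊓ 𝐂₁[e] ≤ K := fun x hx =>
  h.frob e he x hx.1 (by
    rw [commutatorElement_eq_one_iff_mul_comm.2 (mem_cent1.1 hx.2).symm]; exact one_mem K)

theorem not_le [Fact p.Prime] (h : SB p K N) (hP : Syl p P N) : ¬ P ≤ K := fun e =>
  hP.index (h.dvd_index.trans (indexgS N e))

theorem fpf [Fact p.Prime] (h : SB p K N) (hP : Syl p P N) (hx : x ∈ P) (hx' : x ∉ K)
    (hU : U ≤ ⁅N, N⁆) (hp : ¬ p ∣ Nat.card U) : U ⊓ 𝐂₁[x] = ⊥ := eq_bot_iff.2 fun u hu => by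
  obtain ⟨g, -, hg⟩ := h.anti' h.Kn h.der h.frob (hP.le hx) hx' (hU hu.1)
  have h1 : PiElt {p} x := (piSub_singleton.2 hP.pgroup).piElt hx
  have h2 : PiElt {p}ᶜ u := (piSub_compl.2 hp).piElt hu.1
  have h3 : Commute x u := (mem_cent1.1 hu.2).symm
  have h4 : PiElt {p} (x⁻¹ * (x * u)) :=
    h1.inv.mul (hg ▸ h1.conj g) ((Commute.refl x).mul_right h3).inv_left
  rw [inv_mul_cancel_left] at h4
  exact h4.eq_one h2

end SB

/-- the minimal situation -/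
structure SD (p : ℕ) (K N U P H : Subgroup G) : Prop where
  sb : SB p K N
  syl : Syl p P N
  Uab : IsMulCommutative U
  Up : ¬ p ∣ Nat.card U
  sd : SDProd U H ⊤
  Pn : P ⊴ H
  Ud : U ≤ ⁅N, N⁆

namespace SD

variable [hp : Fact p.Prime]

theorem UN (h : SD p K N U P H) : U ≤ N := h.Ud.trans (der_sub N)

theorem sylH (h : SD p K N U P H) : Syl p P H :=
  (h.syl.trans_index le_top h.sb.cop).subl h.Pn.1 le_top

theorem le_N (h : SD p K N U P H) : 𝐂[P] ≤ N := fun e he => by_contra fun h1 =>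
  h.sb.not_le h.syl ((le_inf h.syl.le (le_cent1.2 he)).trans (h.sb.cent_le h1))

theorem sdJ (h : SD p K N U P H) (hl : IsLin U l) :
    SDProd U (H ⊓ inertia U l) (⊤ ⊓ inertia U l) := sdprod_modl h.sd hl.isCF.sub_inertia

theorem ext (h : SD p K N U P H) (hl : IsLin U l) :
    ∃ ψ, IsIrr (⊤ ⊓ inertia U l) ψ ∧ Res U ψ = l :=
  (extend_lin_sdprod hl (h.sdJ hl) inf_le_right).imp fun _ h => ⟨h.1.isIrr, h.2.1⟩

theorem idx (h : SD p K N U P H) (hl : IsLin U l) :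
    (⊤ ⊓ inertia U l).relIndex ⊤ * charDegree l = (H ⊓ inertia U l).relIndex H := by
  rw [hl.charDegree_eq, mul_one, top_inf_eq, inf_relIndex_left,
    (h.sd.mulEq.mono hl.isCF.sub_inertia le_top le_rfl le_top).relIndex_eq]

theorem degJ (h : SD p K N U P H) (hl : IsLin U l) :
    Deg (⊤ : Subgroup G) ((H ⊓ inertia U l).relIndex H) :=
  h.idx hl ▸ deg_ext1 h.sd.normal hl.isIrr (h.ext hl)

theorem dvdJ (h : SD p K N U P H) (hl : IsLin U l) (h1 : l ≠ cf1 U) :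
    p ∣ (H ⊓ inertia U l).relIndex H := by_contra fun h2 => by
  obtain ⟨x, h3, h4⟩ := SetLike.not_le_iff_exists.1 (h.sb.not_le h.syl)
  exact h1 (eq_cf1_of_cent1 (le_of_normal_of_index h.syl.pgroup h.Pn inf_le_left h2 h3).2 hl.isIrr
    (h.sb.fpf h.syl h3 h4 h.Ud h.Up))

theorem abJ (h : SD p K N U P H) (hl : IsLin U l) (h1 : l ≠ cf1 U) :
    IsMulCommutative ↥(H ⊓ inertia U l) :=
  derG1P.1 (le_bot_iff.1 (h.sd.inf_eq ▸ le_inf ((dergS (h.sdJ hl).right_le).trans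
    (h.sb.nd.der_le h.sd.normal hl.isIrr (h.ext hl) (h.idx hl ▸ fun e =>
      hp.out.not_dvd_one (e ▸ h.dvdJ hl h1)))) ((der_sub _).trans inf_le_left)))

theorem J_not_le (h : SD p K N U P H) (hl : IsLin U l) (h1 : l ≠ cf1 U) :
    ¬ H ⊓ inertia U l ≤ N := fun e => by
  have h2 := indexgS ⊤ ((h.sdJ hl).sup_eq ▸ sup_le h.UN e)
  have h3 := h.idx hl
  rw [hl.charDegree_eq, mul_one] at h3
  exact h.sb.cop (h.sb.nd _ _ h.sb.degf (h.degJ hl) h.sb.f_ne (h3 ▸ h2) ▸ h.dvdJ hl h1)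

theorem dprod (h : SD p K N U P H) (hJ : J ≤ H) (ha : IsMulCommutative J) :
    DProd (P ⊓ J) (core {p}ᶜ J) J :=
  nilpotent_Sylow_pcore (abelian_nil ha) (setI_normal_Sylow h.Pn h.sylH hJ) ▸
    nilpotent_pcoreC {p} (abelian_nil ha)

theorem E_not_le (h : SD p K N U P H) (hl : IsLin U l) (h1 : l ≠ cf1 U) :
    ¬ core {p}ᶜ (H ⊓ inertia U l) ≤ N := fun e => h.J_not_le hl h1
  ((h.dprod inf_le_left (h.abJ hl h1)).sup_eq ▸ sup_le (inf_le_left.trans h.syl.le) e)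

theorem der_cent (h : SD p K N U P H) (hl : IsLin U l) (h1 : l ≠ cf1 U) :
    ⁅P, P⁆ ⊓ 𝐂[core {p}ᶜ (H ⊓ inertia U l)] = ⊥ := by_contra fun h2 => by
  have ha := h.abJ hl h1
  have hd := h.dprod inf_le_left ha
  have h0 := h.E_not_le hl h1
  have hdeg := h.degJ hl
  set J := H ⊓ inertia U l
  have hJ : J ≤ H := inf_le_left
  have hE := p'core_not_dvd p J
  set E := core {p}ᶜ J
  have hn : E ≤ 𝐍[P] := hd.right_le.trans (hJ.trans h.Pn.2)
  obtain ⟨φ, h3, h4, h5⟩ := exists_inv_not_le_cfker (abelian_sol (abelianS hd.right_le ha)) hn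
    (coprime_pgroup h.syl.pgroup hE) (inf_le_inf_right _ (der_sub P)) h2
  have h6 : charDegree φ ≠ 1 := fun e =>
    h5 (inf_le_left.trans (h3.isLin_iff.2 e).der_le_cfker)
  have hI := h3.isCF.sub_Inertia h.Pn.1
  have h7 := deg_pull h.sd.morphOnto (deg_ext1 h.Pn h3 (extend_coprime h3 hI inf_le_right
    (h.sylH.subl hI inf_le_left).hall.coprime))
  have h8 : J ⊔ P ≤ H ⊓ inertia P φ := sup_le (le_inf hJ (hd.sup_eq ▸ sup_le
    (inf_le_left.trans h3.isCF.sub_inertia) h4)) hI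
  have h9 : J.relIndex H = (J ⊔ P).relIndex H * (P ⊓ J).relIndex P := by
    rw [← relIndex_mul_relIndex J (J ⊔ P) H le_sup_left (h8.trans inf_le_left), mul_comm,
      (mulEq_of_norm' (hJ.trans h.Pn.2)).relIndex_eq, inf_relIndex_left]
  obtain ⟨a, ha'⟩ := h3.exists_charDegree_eq_pow h.syl.pgroup
  obtain ⟨b, hb⟩ := exists_relIndex_pgroup h.syl.pgroup (P ⊓ J)
  have hA : IsMulCommutative ↥(P ⊓ J) := abelianS inf_le_right ha
  have h10 := h3.charDegree_le_of_abelian inf_le_left hA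
  have h11 := indexgS H h8
  have h12 := h.sb.nd _ _ h7 hdeg (fun e => h6 (Nat.eq_one_of_mul_eq_one_left e)) (by
    rw [h9]
    refine mul_dvd_mul h11 ?_
    rw [hb, ha'] at h10 ⊢
    exact pow_dvd_pow p ((Nat.pow_le_pow_iff_right hp.out.one_lt).1 h10))
  have h13 : (P ⊓ J).relIndex P ≤ charDegree φ := Nat.le_of_mul_le_mul_left
    (((Nat.mul_le_mul_right _ (Nat.le_of_dvd (relIndex_pos _ _) h11)).trans h9.ge).trans h12.ge)
    (relIndex_pos _ _)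
  refine h0 ((PxQ_lemma h.syl.pgroup h.syl.pgroup.to_inf_left hE (normsG inf_le_left) hn hd.cent
    fun y hy => hd.cent' ?_).trans h.le_N)
  have h14 : P ⊓ J ⊔ ⟪y⟫ ≤ P := sup_le inf_le_left (zpowers_le_of_mem hy.1)
  have h15 := h13.trans (h3.charDegree_le_of_abelian h14
    (abelianY.2 ⟨hA, cycle_abelian y, zpowers_le_of_mem hy.2⟩))
  rw [← relIndex_mul_relIndex _ _ _ le_sup_left h14] at h15
  have h16 := eq_of_le_of_relIndex le_sup_left (le_antisymm (Nat.le_of_mul_le_mul_right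
    (h15.trans (one_mul _).ge) (relIndex_pos _ _)) (relIndex_pos _ _))
  exact h16 ▸ mem_sup_right (mem_zpowers y)

theorem commg_le (h : SD p K N U P H) (hE : E ≤ H) (hN : ¬ E ≤ N) : ⁅P, H⁆ ≤ ⁅P, P⁆ ⊔ ⁅P, E⁆ := by
  obtain ⟨e, h1, h2⟩ := SetLike.not_le_iff_exists.1 hN
  have hs := h.sb.pnil.sdprod h.syl
  have hM := h.sb.Nn.core {p}ᶜ
  set M := core {p}ᶜ N
  have hT : ∀ X : Subgroup G, X ≤ 𝐍[M] := fun X => le_top.trans hM.2
  have h3 : ⁅P, P⁆ ⊔ ⁅P, E⁆ ≤ P := sup_le (der_sub P) (h.Pn.commg_le hE)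
  have h4 : ⁅P, H⁆ ≤ M ⊔ (⁅P, P⁆ ⊔ ⁅P, E⁆) := by
    rw [← quotientSK (hT _) (hT _)]
    refine (quotientS M ((commgSS h.syl.le le_top).trans ((h.sb.commg_le h2).trans
      (sup_le_sup_left (commgS N (zpowers_le_of_mem h1)) _)))).trans_eq ?_
    simp only [quotientY (hT _) (hT _), quotientR (hT _) (hT _), hs.quo_eq]
  have h5 := (le_inf h4 (h.Pn.commg_le le_rfl)).trans_eq (group_modr (hT _) h3)
  rwa [hs.inf_eq, bot_sup_eq] at h5

theorem commg_cent (h : SD p K N U P H) (hE : E ≤ H) (hN : ¬ E ≤ N) (hc : ¬ p ∣ Nat.card E) :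
    ⁅P, H⁆ ⊓ 𝐂[E] ≤ ⁅P, P⁆ := by
  have h1 : H ≤ 𝐍[⁅P, P⁆] := h.Pn.der.2
  have h2 := h.Pn.1.trans h1
  have h3 := hE.trans h1
  rw [← quotient_sub1 (inf_le_left.trans ((h.Pn.commg_le le_rfl).trans h2)), eq_bot_iff,
    ← coprime_abel_cent_TI (quotient_norms _ (hE.trans h.Pn.2))
      (coprime_quo2 _ (coprime_pgroup h.syl.pgroup hc)) (der_abelian P), ← quotientR h2 h3,
    ← quotientYidl ((h.Pn.commg_le hE).trans h2)]
  exact (quotient_subcent _ _ _).trans (inf_le_inf_right _ (quotientS _ (h.commg_le hE hN)))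

theorem reg (h : SD p K N U P H) : Semiregular U ⁅P, H⁆ := fun y hy h1 => by_contra fun h2 => by
  have h3 := h.Pn.commg_le le_rfl hy
  have h4 : y ∈ 𝐍[U] := h.sd.normal.2 trivial
  have h5 := zpowers_le_of_mem h4
  obtain ⟨l, hl, h6, h7⟩ := exists_lin_le_cfker_ne (K := ⁅U, ⟪y⟫⁆) ((derG1P.2 h.Uab).le.trans bot_le)
    ((commg_subl.2 h5).lt_of_ne fun e => h2 (by
      rw [← cent_cycle, ← e]
      conv_lhs => rw [e]
      have := coprime_abel_cent_TI h5 (coprime_pgroup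
        (h.syl.pgroup.to_le (zpowers_le_of_mem h3)) h.Up).symm h.Uab
      rwa [e] at this))
  have ha := h.abJ hl h7
  have h8 : y ∈ 𝐂[core {p}ᶜ (H ⊓ inertia U l)] :=
    sub_abelian_cent ha (pcore_sub _ _) ⟨h.Pn.1 h3, (mem_inertia_lin hl h4).2 h6⟩
  exact h1 (mem_bot.1 ((h.der_cent hl h7).le ⟨h.commg_cent ((pcore_sub _ _).trans inf_le_left)
    (h.E_not_le hl h7) (p'core_not_dvd p _) ⟨hy, h8⟩, h8⟩))

theorem eq_bot (h : SD p K N U P H) (ha : ¬ IsMulCommutative P) : U = ⊥ := by_contra fun hU => by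
  have hpP := h.syl.pgroup
  have hQ : ⁅P, H⁆ ≤ P := h.Pn.commg_le le_rfl
  have hcy : ∀ A ≤ ⁅P, H⁆, IsMulCommutative A → IsCyclic A := fun A h1 h2 =>
    (h.reg.mono le_rfl h1).cyclic_of_abelian (le_top.trans h.sd.normal.2) hU h2
  have h1 : ⁅P, P⁆ ⊓ 𝐙[P] ≤ ⁅P, H⁆ := inf_le_left.trans (commgS P h.Pn.1)
  have h2 := Ohm1_cyclic_pgroup_prime (hcy _ h1 (abelianS inf_le_right (center_abelian P)))
    (hpP.to_le (h1.trans hQ)) (meet_center_nil (pgroup_nil hpP) (der_normal P) (mt derG1P.1 ha))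
  have h3 : H ≤ 𝐍[Ohm1 p (⁅P, P⁆ ⊓ 𝐙[P])] := norms_Ohm1 p (normsI h.Pn.der.2 h.Pn.center.2)
  have h4 := Ohm_sub p (⁅P, P⁆ ⊓ 𝐙[P])
  set Z := Ohm1 p (⁅P, P⁆ ⊓ 𝐙[P])
  have hZ : Z ≠ ⊥ := ne_bot_of_prime (h2 ▸ hp.out)
  by_cases hp2 : p = 2
  · obtain ⟨l, hl, -, h5⟩ := exists_lin_le_cfker_ne (K := ⊥) (derG1P.2 h.Uab).le (bot_lt_iff_ne_bot.2 hU)
    exact hZ (le_bot_iff.1 ((le_inf (h4.trans inf_le_left) (centsC.1 (cents_of_card_two (hp2 ▸ h2)
      (((pcore_sub _ _).trans inf_le_left).trans h3)))).trans (h.der_cent hl h5).le))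
  have hZP : Z ≤ 𝐙[P] := h4.trans inf_le_right
  obtain ⟨φ, h5, h6⟩ := exists_irr_not_le_cfker (hZP.trans inf_le_left) hZ
  have hs := h.sb.pnil.sdprod h.syl
  have h7 := h5.cfSdprod hs
  have h8 := h.sb.nl h7 fun e => h6 (h4.trans (inf_le_left.trans
    (h5.isLin_iff.2 (hs.morphOnto.charDegree_cfPull φ ▸ e)).der_le_cfker))
  have h9 := sdprod_modl' h.sd (h.UN.trans h7.isCF.sub_inertia) le_top
  obtain ⟨g, ⟨h10, h11⟩, h12⟩ := SetLike.not_le_iff_exists.1 fun e => h8 (h9.sup_eq ▸ sup_le h.UN e)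
  have h13 := (hs.mem_inertia_cfSdprod ((h.sb.Nn.core _).2 trivial) (h.Pn.2 h10) h5.isCF).1 h11
  have h14 : ⟪constt {p}ᶜ g⟫ ≤ H := zpowers_le_of_mem (constt_mem _ h10)
  have h15 : ⟪constt {p}ᶜ g⟫ ≤ inertia P φ := zpowers_le_of_mem (constt_mem _ h13)
  have h16 : ¬ p ∣ Nat.card ⟪constt {p}ᶜ g⟫ := piSub_compl.1 (piSub_cycle.2 (p_elt_constt _ g))
  have h17 : ¬ ⟪constt {p}ᶜ g⟫ ≤ N := fun e => h12 (consttC {p} g ▸ mul_mem (h.syl.le
    ((mem_normal_Hall h.sylH.hall h.Pn (constt_mem _ h10)).2 (p_elt_constt _ g))) (e (mem_zpowers _)))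
  set E := ⟪constt {p}ᶜ g⟫
  obtain ⟨l, hl, h18, -, h19⟩ := h5.exists_lin_of_central hZP
  have h20 : E ≤ inertia Z l := by
    rw [← inertia_smul h5.one_ne_zero l, ← h18]
    exact (le_inf h15 (h14.trans h3)).trans (inertia_le_inertia_Res φ)
  have h21 := (le_inertia_lin hl (h14.trans h3)).1 h20
  rw [h19, prime_TIg (h2 ▸ hp.out) h6, le_bot_iff, commG1P'] at h21
  have h22 : Ohm1 p ⁅P, H⁆ ≤ Z := Ohm1_le.2 fun y hy e => by
    have h23 : Z ⊔ ⟪y⟫ ≤ ⁅P, H⁆ := sup_le (h4.trans h1) (zpowers_le_of_mem hy)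
    have h24 := hcy _ h23 (abelianY.2 ⟨abelianS hZP (center_abelian P), cycle_abelian y,
      centsC.1 ((hZP.trans inf_le_right).trans (centS (zpowers_le_of_mem (hQ hy))))⟩)
    exact Ohm1_cyclic_eq h24 le_sup_left h2 ▸ mem_Ohm1 (mem_sup_right (mem_zpowers y)) e
  have h25 := coprime_odd_faithful_Ohm1 (hpP.to_le hQ) (h14.trans (commg_normr P H)) h16 hp2
    (centsS h22 h21)
  exact h17 ((coprime_commGG1P (h14.trans h.Pn.2) (coprime_pgroup hpP h16)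
    (commG1P'.2 (centsS (commgS P h14) h25))).trans h.le_N)

end SD

namespace SB

theorem typeD_aux [Fact p.Prime] (h : SB p K N) (hP : Syl p P N) (ha : ¬ IsMulCommutative P)
    (hU : IsMulCommutative ↥⁅core {p}ᶜ N, N⁆) : ⁅core {p}ᶜ N, N⁆ = ⊥ := by
  have hs := h.pnil.sdprod hP
  have hM := h.Nn.core {p}ᶜ
  have hp := p'core_not_dvd p N
  set M := core {p}ᶜ N
  have h1 : ⁅M, N⁆ ≤ M := hM.commg_le le_top
  have h2 : ¬ p ∣ Nat.card ↥⁅M, N⁆ := fun e => hp (e.trans (card_dvd_of_le h1))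
  have h3 := normalR hM h.Nn
  have h4 : ⁅M, N⁆ ≤ ⁅N, N⁆ := commSg N hs.left_le
  obtain ⟨x, h5, h6⟩ := SetLike.not_le_iff_exists.1 (h.not_le hP)
  refine SD.eq_bot (H := 𝐍[P]) ⟨h, hP, hU, h2, sdprod_of_normal h3 (top_le_iff.1 ?_) ?_, normalG P,
    h4⟩ ha
  · refine (Frattini_arg h.Nn hP).sup_eq.ge.trans (sup_le (hs.sup_eq.ge.trans (sup_le
      ((coprime_cent_prod hs.norm (coprime_pgroup hP.pgroup hp).symm
        (.inr (pgroup_sol hP.pgroup))).ge.trans (sup_le_sup (commgS M hP.le) ?_)) ?_)) ?_)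
    exacts [inf_le_right.trans (cent_sub P), (normG P).trans le_sup_right,
      inf_le_right.trans le_sup_right]
  · rw [coprime_norm_cent (le_top.trans h3.2) (coprime_pgroup hP.pgroup h2).symm, eq_bot_iff,
      ← h.fpf hP h5 h6 h4 h2]
    exact inf_le_inf_left _ (cent_le_cent1 h5)

/-- if the Sylow `p`-subgroups of `N` are nonabelian, the `p`-complement of `N` is central -/
theorem typeD [Fact p.Prime] (h : SB p K N) (hP : Syl p P N) (ha : ¬ IsMulCommutative P) :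
    core {p}ᶜ N ≤ 𝐂[N] := by
  have hM := h.Nn.core {p}ᶜ
  have h1 := normalR hM h.Nn
  have h2 : ⁅core {p}ᶜ N, N⁆ ≤ core {p}ᶜ N := hM.commg_le le_top
  have hW := h1.der
  have h3 := (der_sub _).trans h2
  have h4 := (der_sub _).trans ((commSg N (pcore_sub {p}ᶜ N)).trans h.der)
  have h5 := der_abelian ⁅core {p}ᶜ N, N⁆
  set W := ⁅⁅core {p}ᶜ N, N⁆, ⁅core {p}ᶜ N, N⁆⁆
  have hT : ∀ X : Subgroup G, X ≤ 𝐍[W] := fun X => le_top.trans hW.2
  have h6 := (pcore_pgroup {p}ᶜ N).of_le h3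
  have h7 : ⁅core {p}ᶜ (N ⁄ W), N ⁄ W⁆ = ⁅core {p}ᶜ N, N⁆ ⁄ W := by
    rw [pquotient_pcore h6 ⟨h3.trans (pcore_sub _ _), hT N⟩, quotientR (hT _) (hT _)]
  have h8 := (h.quo hW h4).typeD_aux (hP.quo (hT P)) (fun e => ha (derG1P.1 (le_bot_iff.1
    ((le_inf (der_sub P) (der1_min (hT P) e)).trans
      ((piSub_singleton.2 hP.pgroup).inf_eq_bot h6).le)))) (h7 ▸ h5)
  rw [h7, quotient_sub1 (hT _)] at h8
  exact commG1P.1 (by_contra fun e => (sol_der1_proper (solvableS le_top h.sol) e).not_ge h8)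

end SB

end Cfsg.FT.ND
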