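import Cfsg.Agent.NDAD.A
import Cfsg.Agent.CT.Degrees2

/-! NDAD groups with a Frobenius factor group: the standard setting. -/

set_option autoImplicit false
set_option linter.unusedSectionVars false
set_option linter.style.haveILetI false

namespace Cfsg.FT.ND

open scoped Pointwise commutatorElement Classical
open Subgroup Gar

variable {G : Type*} [Group G] [Finite G] {A B C E H I K K' L M N P R S T V W X Y Z : Subgroup G}
  {χ ψ θ φ φ' β l μ η : G → ℂ} {p n m : ℕ} {g x y e u : G}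

theorem deg_top : Deg (⊤ : Subgroup G) n ↔ n ∈ charDegrees G := by
  refine ⟨fun ⟨χ, h, e⟩ => e ▸ ⟨⟨χ, h.2.comp_surjective (topEquiv (G := G)).symm.toMonoidHom
    (topEquiv (G := G)).symm.surjective⟩, rfl⟩, fun ⟨χ, e⟩ => ⟨χ.1, ⟨fun x h => (h trivial).elim,
    χ.2.comp_surjective (topEquiv (G := G)).toMonoidHom (topEquiv (G := G)).surjective⟩, e⟩⟩

/-- a fixed point free action on a section -/
theorem le_sup_of_fpf (hK : K ⊴ N) (hx : x ∈ 𝐍[N]) (hx' : x ∈ 𝐍[K])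
    (h : ∀ n ∈ N, ⁅x, n⁆ ∈ K → n ∈ K) : N ≤ K ⊔ ⁅N, ⟪x⟫⁆ := by
  have h1 : ⟪x⟫ ≤ 𝐍[K] := zpowers_le_of_mem hx'
  have h2 : ⟪x⟫ ≤ 𝐍[N] := zpowers_le_of_mem hx
  rw [← quotientSK hK.2 ((commg_subl.2 h2).trans hK.2), quotientR hK.2 h1, quotient_cycle hx']
  refine fpf_le_commg (quotient_norm N K (mem_quotient K hx)) (eq_bot_iff.2 fun z hz => ?_)
  obtain ⟨n, h3, h4, rfl⟩ := mem_quo.1 hz.1
  refine coset_id (h n h3 (coset_idr ((𝐍[K]).mul_mem (mul_mem (mul_mem hx' h4) (inv_mem hx'))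
    (inv_mem h4)) ?_))
  rw [coset_commg hx' h4, commutatorElement_eq_one_iff_mul_comm]
  exact (mem_cent1.1 hz.2).symm

theorem mem_inertia_lin (hl : IsLin N l) (hx : x ∈ 𝐍[N]) :
    x ∈ inertia N l ↔ ⁅N, ⟪x⟫⁆ ≤ cfker N l := by
  rw [← le_inertia_lin hl (zpowers_le_of_mem hx), zpowers_le]

/-- Isaacs 12.4 -/
theorem frob_section (hK : K ⊴ ⊤) (hN : N ⊴ ⊤) (ha : ⁅N, N⁆ ≤ K)
    (hf : ∀ x, x ∉ N → ∀ n ∈ N, ⁅x, n⁆ ∈ K → n ∈ K) (hψ : IsIrr N ψ) :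
    (∃ l, IsLin N l ∧ K ⊓ N ≤ cfker N l ∧ inertia N (l * ψ) ≤ N) ∨ ∀ x, x ∉ K → ψ x = 0 := by
  have := normalIn_top.1 hK
  have := normalIn_top.1 hN
  rcases frobenius_section ha hf hψ.toIrr with ⟨l, h1, h2⟩ | h
  on_goal 1 => refine .inl ⟨linOf l, isLin_linOf l,
    (isLin_linOf l).le_cfker.2 fun x hx => ?_, fun g hg => h2.le fun n => ?_⟩
  on_goal 3 => refine .inr fun x hx => ?_
  · rw [linOf_of_mem l hx.2, h1 _ hx.1]; rfl
  · have := inertia_valJ hg n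
    rw [Pi.mul_apply, Pi.mul_apply, linOf_coe, linOf_of_mem l (hN.conj_mem trivial n.2)] at this
    exact this
  · exact if h1 : x ∈ N then h ⟨x, h1⟩ hx else hψ.isCF.off h1

/-- `G/K` is a Frobenius group with abelian `p`-kernel `N/K` and cyclic complement, `G` is a
solvable NDAD group without nonabelian factor group of prime power order -/
structure SB (p : ℕ) (K N : Subgroup G) : Prop where
  sol : Group.IsSolvable (⊤ : Subgroup G)
  nd : NDAD (⊤ : Subgroup G)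
  noA : ∀ q (W : Subgroup G), q.Prime → W ⊴ ⊤ → PiNat {q} (W.relIndex ⊤) → D ⊤ ≤ W
  Kn : K ⊴ ⊤
  Nn : N ⊴ ⊤
  lt : K < N
  ne : N ≠ ⊤
  cyc : IsCyclic (⊤ ⁄ N)
  der : ⁅N, N⁆ ≤ K
  pK : PiNat {p} (K.relIndex N)
  cop : ¬ p ∣ N.relIndex ⊤
  frob : ∀ x, x ∉ N → ∀ n ∈ N, ⁅x, n⁆ ∈ K → n ∈ K

namespace SB

theorem KN (h : SB p K N) : K ⊴ N := normalS h.lt.le le_top h.Kn

theorem derT (h : SB p K N) : D ⊤ ≤ N := der1_min h.Nn.2 (cyclic_abelian h.cyc)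

theorem f_ne (h : SB p K N) : N.relIndex ⊤ ≠ 1 := fun e => h.ne (eq_of_le_of_relIndex le_top e)

theorem ext (h : SB p K N) (hψ : IsIrr N ψ) :
    ∃ χ, IsIrr (⊤ ⊓ inertia N ψ) χ ∧ Res N χ = ψ :=
  extend_cyclic hψ (hψ.isCF.sub_Inertia le_top) inf_le_right
    (cyclicS (quotientS N le_top) h.cyc)

/-- the degree of a character over `ψ` -/
theorem deg_over (h : SB p K N) (hψ : IsIrr N ψ) (hχ : IsIrr ⊤ χ) (h0 : dot N χ ψ ≠ 0) :
    charDegree χ = (inertia N ψ).relIndex ⊤ * charDegree ψ := by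
  simpa only [top_inf_eq] using ND.deg_over h.Nn hψ ((dergS le_top).trans h.derT) (h.ext hψ) hχ h0

theorem deg (h : SB p K N) (hψ : IsIrr N ψ) :
    Deg (⊤ : Subgroup G) ((inertia N ψ).relIndex ⊤ * charDegree ψ) := by
  simpa only [top_inf_eq] using deg_ext1 h.Nn hψ (h.ext hψ)

theorem exists_under (h : SB p K N) (hn : Deg (⊤ : Subgroup G) n) :
    ∃ ψ, IsIrr N ψ ∧ n = (inertia N ψ).relIndex ⊤ * charDegree ψ := by
  obtain ⟨χ, h1, rfl⟩ := hn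
  obtain ⟨ψ, h2, h3⟩ := h1.exists_under (le_top (a := N))
  exact ⟨ψ, h2, h.deg_over h2 h1 h3⟩

theorem le_sup (h : SB p K N) (hx : x ∉ N) : N ≤ K ⊔ ⁅N, ⟪x⟫⁆ :=
  le_sup_of_fpf h.KN (h.Nn.2 trivial) (h.Kn.2 trivial) (h.frob x hx)

theorem degf (h : SB p K N) : Deg (⊤ : Subgroup G) (N.relIndex ⊤) := by
  obtain ⟨l, h1, h2, h3⟩ := exists_lin_le_cfker_ne h.der h.lt
  have h4 : inertia N l = N := le_antisymm (fun x hx => by_contra fun h5 => h3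
    (h1.isIrr.le_cfker_self.1 ((h.le_sup h5).trans (sup_le h2
      ((mem_inertia_lin h1 (h.Nn.2 trivial)).1 hx))))) h1.isCF.sub_inertia
  simpa only [h4, h1.charDegree_eq, mul_one] using h.deg h1.isIrr

/-- linear characters of `N` are invariant or have inertia group `N` -/
theorem lin (h : SB p K N) (hl : IsLin N l) : inertia N l = ⊤ ∨ inertia N l = N := by
  refine or_iff_not_imp_left.2 fun h1 => ?_
  have h2 := h.deg hl.isIrr
  rw [hl.charDegree_eq, mul_one] at h2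
  have h3 := h.nd _ _ h2 h.degf (fun e => h1 (eq_of_le_of_relIndex le_top e))
    (indexgS _ hl.isCF.sub_inertia)
  have h4 := relIndex_mul_relIndex N (inertia N l) ⊤ hl.isCF.sub_inertia le_top
  rw [← h3] at h4
  exact (eq_of_le_of_relIndex hl.isCF.sub_inertia (Nat.eq_of_mul_eq_mul_right h2.pos
    (h4.trans (one_mul _).symm))).symm

theorem commg_le (h : SB p K N) (hx : x ∉ N) : ⁅N, (⊤ : Subgroup G)⁆ ≤ ⁅N, N⁆ ⊔ ⁅N, ⟪x⟫⁆ := by
  by_contra h1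
  obtain ⟨l, h2, h3, h4⟩ := exists_lin_le_cfker_not_le le_sup_left
    (sup_le (der_sub N) (h.Nn.commg_le le_top)) (h.Nn.commg_le le_top) h1
  have h5 := (mem_inertia_lin h2 (h.Nn.2 trivial)).2 (le_sup_right.trans h3)
  exact h4 ((le_inertia_lin h2 h.Nn.2).1 ((h.lin h2).resolve_right fun e => hx (e ▸ h5)).ge)

/-- nonlinear characters of `N` do not induce irreducibly -/
theorem nl (h : SB p K N) (hψ : IsIrr N ψ) (h1 : charDegree ψ ≠ 1) : ¬ inertia N ψ ≤ N :=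
  fun e => h1 (h.nd.eq_one h.degf (le_antisymm e hψ.isCF.sub_inertia ▸ h.deg hψ :) h.f_ne)

theorem vanish' (h : SB p K N) (hK : K' ⊴ ⊤) (ha : ⁅N, N⁆ ≤ K')
    (hf : ∀ x, x ∉ N → ∀ n ∈ N, ⁅x, n⁆ ∈ K' → n ∈ K') (hψ : IsIrr N ψ) (h1 : charDegree ψ ≠ 1)
    (hx : x ∉ K') : ψ x = 0 :=
  (frob_section hK h.Nn ha hf hψ).elim (fun ⟨l, h2, _, h3⟩ => (h.nl (h2.mul_irr hψ) (by
    rwa [Deg.charDegree_mul' h2.isChar hψ.isChar, h2.charDegree_eq, one_mul]) h3).elim)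
    fun h2 => h2 x hx

theorem vanish (h : SB p K N) (hψ : IsIrr N ψ) (h1 : charDegree ψ ≠ 1) (hx : x ∉ K) : ψ x = 0 :=
  h.vanish' h.Kn h.der h.frob hψ h1 hx

theorem dvd_index [hp : Fact p.Prime] (h : SB p K N) : p ∣ K.relIndex N := by
  obtain ⟨_ | k, hk⟩ := (piNat_singleton (relIndex_pos K N).ne').1 h.pK
  · exact (h.lt.ne (eq_of_le_of_relIndex h.lt.le hk)).elim
  · exact hk ▸ dvd_pow_self p k.succ_ne_zero

theorem dvd [hp : Fact p.Prime] (h : SB p K N) (hψ : IsIrr N ψ) (h1 : charDegree ψ ≠ 1) :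
    p ∣ charDegree ψ := by
  have := normalIn_top.1 h.Kn
  have := Fintype.ofFinite N
  exact hp.out.dvd_of_dvd_pow (h.dvd_index.trans (hψ.toIrr.index_dvd_sq_of_vanish
    (K := K.subgroupOf N) fun n hn => h.vanish hψ h1 hn))

theorem pnil [Fact p.Prime] (h : SB p K N) : PNil p N :=
  pNil_of_dvd fun _ ⟨_, h1, e⟩ h2 => e ▸ h.dvd h1 (e ▸ h2)

/-- elements outside a Frobenius section are anticentral -/
theorem anti' (h : SB p K N) (hK : K' ⊴ ⊤) (ha : ⁅N, N⁆ ≤ K')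
    (hf : ∀ x, x ∉ N → ∀ n ∈ N, ⁅x, n⁆ ∈ K' → n ∈ K') (hx : x ∈ N) (hx' : x ∉ K')
    (hu : u ∈ ⁅N, N⁆) : ∃ g ∈ N, x * u = g * x * g⁻¹ :=
  exists_conj_of_forall_irr hx fun ψ hψ => by
    by_cases h1 : charDegree ψ = 1
    · exact (hψ.isCF.cfkerMr ((hψ.isLin_iff.2 h1).der_le_cfker hu) x).symm
    · rw [h.vanish' hK ha hf hψ h1 hx', h.vanish' hK ha hf hψ h1
        fun e => hx' ((mul_mem_cancel_right (ha hu)).1 e)]

theorem quo (h : SB p K N) (hW : W ⊴ ⊤) (hK : W ≤ K) : SB p (K ⁄ W) (N ⁄ W) := by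
  have hN := hK.trans h.lt.le
  have hT : ∀ X : Subgroup G, X ≤ 𝐍[W] := fun X => le_top.trans hW.2
  have hq : ∀ X : Subgroup G, X ⊴ ⊤ → X ⁄ W ⊴ ⊤ := fun X h => quotientT W ▸ h.quo W
  have hi : ∀ X : Subgroup G, W ≤ X → (X ⁄ W).relIndex ⊤ = X.relIndex ⊤ := fun X h =>
    quotientT W ▸ relIndex_quo_of_le h hW.2
  refine ⟨quotientT W ▸ quotient_sol W h.sol, quotientT W ▸ h.nd.pull (morphOnto_coset hW.2),
    fun q X hq h1 h2 => ?_, hq _ h.Kn, hq _ h.Nn, (quotient_proper ⟨hK, hT _⟩ ⟨hN, hT _⟩).2 h.lt,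
    fun e => h.ne ((quotient_inj ⟨hN, hT _⟩ hW).1 (e.trans (quotientT W).symm)), ?_,
    quotient_der (hT N) ▸ quotientS W h.der, (relIndex_quo_of_le hK (hT N)).symm ▸ h.pK,
    (hi N hN).symm ▸ h.cop, fun x hx n hn h1 => ?_⟩
  · obtain ⟨X, rfl, h3, h4⟩ := inv_quotientN hW (Y := X) ((quotientT W).symm ▸ h1)
    rw [← quotientT W, D, ← quotient_der hW.2]
    exact quotientS W (h.noA q X hq h4 (hi X h3 ▸ h2))
  · obtain ⟨e⟩ := third_isog hN hW.2 h.Nn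
    have := e.isCyclic.2 h.cyc
    rwa [quotientT W] at this
  · obtain ⟨x, h2, rfl⟩ := cosetP x
    obtain ⟨n, h3, h4, rfl⟩ := mem_quo.1 hn
    rw [← coset_commg h2 h4, coset_mem_quo_iff (hT ⊤ trivial) hK] at h1
    exact mem_quotient W (h.frob x (mt (mem_quotient W) hx) n h3 h1)

end SB

/-- the basic dichotomy -/
theorem exists_SB (hs : Group.IsSolvable G) (h : NDAD (⊤ : Subgroup G)) :
    (∃ m, ∀ n, Deg (⊤ : Subgroup G) n → n = 1 ∨ n = m) ∨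
      ∃ (p : ℕ) (K N : Subgroup G), p.Prime ∧ SB p K N := by
  by_cases hab : commutator G = ⊥
  · exact .inl ⟨1, fun _ ⟨χ, h1, e⟩ => .inl (e ▸ (h1.isLin_of_abelian (derG1P.1 hab)).charDegree_eq)⟩
  refine or_iff_not_imp_left.2 fun h0 => ?_
  have hA : ∀ q (W : Subgroup G), q.Prime → W ⊴ ⊤ → PiNat {q} (W.relIndex ⊤) → D ⊤ ≤ W :=
    fun q W hq h1 h2 => by_contra fun h3 => h0 (@caseA _ _ _ _ _ _ ⟨hq⟩ h h1 h2 h3)
  obtain ⟨K, hK, -, h1, h2⟩ := exists_maximal_nonabelian_quotient (D := (⊥ : Subgroup G))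
    (by rwa [le_bot_iff])
  obtain ⟨p, hp, ⟨⟨k, hk⟩, -⟩ | ⟨N, hN, h3, h4, h5, ⟨k, h6⟩, h7, h8, h9, -⟩⟩ :=
    minimal_nonabelian_quotient_structure h1 h2 inferInstance
  · exact (h1 (hA p K hp (normalIn_top.2 hK) (by
      rw [relIndex_top_right, hk]; exact piNat_prime_pow hp (Set.mem_singleton p) k))).elim
  have := Fact.mk hp
  have hKn := normalIn_top.2 hK
  have hNn := normalIn_top.2 hN
  have hpK : PiNat {p} (K.relIndex N) := h6 ▸ piNat_prime_pow hp (Set.mem_singleton p) _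
  refine ⟨p, K, N, hp, inferInstance, h, hA, hKn, hNn, h3, h8, ?_, h5, hpK,
    by rwa [relIndex_top_right], h9⟩
  have hT : ∀ X : Subgroup G, X ≤ 𝐍[K] := fun X => le_top.trans hKn.2
  have h10 : Hall {p} (N ⁄ K) (⊤ ⁄ K) := .mk' (quotientS K le_top) ((piSub_quo (hT N)).2 hpK)
    (by rw [relIndex_quo_of_le h3.le hKn.2, relIndex_top_right]; exact piNat_compl_singleton.2 h7)
  obtain ⟨H, h11, -⟩ := h10.exists_sdprod (hNn.quo K)
  obtain ⟨e⟩ := third_isog h3.le hKn.2 hNn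
  obtain ⟨e'⟩ := sdprod_isog h11
  refine e.isCyclic.1 (e'.isCyclic.1 (Semiregular.cyclic_of_abelian (semiregular_iff.2
    fun a ha h12 n hn h13 => ?_) h11.norm ((quotient_neq1 ⟨h3.le, hT N⟩).2 h3)
    (derG1P.1 (le_bot_iff.1 (h11.inf_eq.le.trans' (le_inf ((dergS h11.right_le).trans
      (quotient_der hKn.2 ▸ quotientS K h4)) (der_sub H)))))))
  · obtain ⟨a, h14, rfl⟩ := cosetP a
    obtain ⟨n, h15, h16, rfl⟩ := mem_quo.1 hn
    refine coset_id (h9 a (fun e => h12 (mem_bot.1 (h11.inf_eq.le ⟨mem_quotient K e, ha⟩))) n h15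
      (coset_idr (hT ⊤ trivial) ?_))
    rw [coset_commg h14 h16, commutatorElement_eq_one_iff_mul_comm, h13]

end Cfsg.FT.ND
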